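import Mathlib

/-!
# The nonsplit torus of `GL₂(p)`, `p ≡ 2 mod 3`, as the centraliser of a square root of `-3`
-/

set_option autoImplicit false

namespace Cfsg.Agent.H892.GLTorus

open Matrix

variable {p : ℕ} [Fact p.Prime]

/-- `GL₂(p)` -/
abbrev GG (p : ℕ) := GL (Fin 2) (ZMod p)

theorem two_ne_zero' (hp : 3 < p) : (2 : ZMod p) ≠ 0 := by
  intro h
  have h1 : ((2 : ℕ) : ZMod p) = 0 := by exact_mod_cast h
  rw [ZMod.natCast_eq_zero_iff] at h1
  have := Nat.le_of_dvd (by norm_num) h1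
  omega

theorem three_ne_zero' (hp : 3 < p) : (3 : ZMod p) ≠ 0 := by
  intro h
  have h1 : ((3 : ℕ) : ZMod p) = 0 := by exact_mod_cast h
  rw [ZMod.natCast_eq_zero_iff] at h1
  have := Nat.le_of_dvd (by norm_num) h1
  omega

theorem eq_one_of_pow_three (h3 : p % 3 = 2) {x : ZMod p} (hx : x ^ 3 = 1) : x = 1 := by
  have hx0 : x ≠ 0 := by
    rintro rfl
    norm_num at hx
  have h1 : x ^ (p - 1) = 1 := ZMod.pow_card_sub_one_eq_one hx0
  have hp2 := (Fact.out : p.Prime).two_le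
  have h2 : p - 1 = 3 * ((p - 2) / 3) + 1 := by omega
  rw [h2, pow_succ, pow_mul, hx, one_pow, one_mul] at h1
  exact h1

theorem not_isSquare_neg_three (hp : 3 < p) (h3 : p % 3 = 2) {s : ZMod p} : s * s ≠ -3 := by
  intro hs
  have h2 := two_ne_zero' hp
  have h4 : ((-1 + s) / 2) ^ 3 = 1 := by
    field_simp
    linear_combination (s - 3) * hs
  have h5 := eq_one_of_pow_three h3 h4
  rw [div_eq_one_iff_eq h2] at h5
  have h6 : s = 3 := by linear_combination h5
  rw [h6] at hs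
  have h7 : ((12 : ℕ) : ZMod p) = 0 := by
    push_cast
    linear_combination hs
  rw [ZMod.natCast_eq_zero_iff] at h7
  have h8 : (12 : ℕ) = 2 * 2 * 3 := by norm_num
  rw [h8] at h7
  have hpp : p.Prime := Fact.out
  rcases (Nat.Prime.dvd_mul hpp).1 h7 with h9 | h9
  · rcases (Nat.Prime.dvd_mul hpp).1 h9 with h10 | h10
    · have := Nat.le_of_dvd (by norm_num) h10
      omega
    · have := Nat.le_of_dvd (by norm_num) h10
      omega
  · have := Nat.le_of_dvd (by norm_num) h9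
    omega

theorem norm_ne_zero (hp : 3 < p) (h3 : p % 3 = 2) {x y : ZMod p} (h : ¬ (x = 0 ∧ y = 0)) :
    x * x + 3 * (y * y) ≠ 0 := by
  intro h1
  by_cases hy : y = 0
  · subst hy
    apply h
    refine ⟨?_, rfl⟩
    simpa using h1
  · apply not_isSquare_neg_three hp h3 (s := x / y)
    field_simp
    linear_combination h1

/-- the matrix `x + y √-3` -/
def mat (x y : ZMod p) : Matrix (Fin 2) (Fin 2) (ZMod p) := !![x, -3 * y; y, x]

theorem det_mat (x y : ZMod p) : (mat x y).det = x * x + 3 * (y * y) := by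
  rw [mat, det_fin_two_of]
  ring

/-- the square root of `-3` -/
noncomputable def J (hp : 3 < p) : GG p := GeneralLinearGroup.mkOfDetNeZero (mat 0 1) (by
  rw [det_mat]
  simpa using three_ne_zero' hp)

theorem coe_J (hp : 3 < p) : ((J hp : GG p) : Matrix (Fin 2) (Fin 2) (ZMod p)) = mat 0 1 := rfl

/-- The torus. -/
noncomputable def Tor (hp : 3 < p) : Subgroup (GG p) := Subgroup.centralizer {J hp}

theorem mem_Tor (hp : 3 < p) {g : GG p} : g ∈ Tor hp ↔ g 0 0 = g 1 1 ∧ g 0 1 = -3 * g 1 0 := by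
  rw [Tor, Subgroup.mem_centralizer_singleton_iff]
  have h1 : g * J hp = J hp * g ↔ (g : Matrix (Fin 2) (Fin 2) (ZMod p)) * mat 0 1 =
      mat 0 1 * (g : Matrix (Fin 2) (Fin 2) (ZMod p)) := by
    rw [← coe_J hp, ← Units.val_mul, ← Units.val_mul, Units.val_inj]
  rw [h1]
  constructor
  · intro h
    have h00 := congrFun (congrFun h 0) 0
    have h10 := congrFun (congrFun h 1) 0
    simp [mat, Matrix.mul_apply, Fin.sum_univ_two] at h00 h10
    exact ⟨h10.symm, by rw [h00]; ring⟩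
  · rintro ⟨h, h'⟩
    ext i j
    fin_cases i <;> fin_cases j <;> simp [mat, Matrix.mul_apply, Fin.sum_univ_two, h, h'] <;> ring

theorem coe_eq_mat (hp : 3 < p) {g : GG p} (hg : g ∈ Tor hp) :
    (g : Matrix (Fin 2) (Fin 2) (ZMod p)) = mat (g 0 0) (g 1 0) := by
  obtain ⟨h1, h2⟩ := (mem_Tor hp).1 hg
  ext i j
  fin_cases i <;> fin_cases j
  · rfl
  · exact h2
  · rfl
  · exact h1.symm

/-- torus elements -/
theorem exists_tor (hp : 3 < p) (h3 : p % 3 = 2) {x y : ZMod p} (h : ¬ (x = 0 ∧ y = 0)) :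
    ∃ t ∈ Tor hp, (t : Matrix (Fin 2) (Fin 2) (ZMod p)) = mat x y := by
  refine ⟨GeneralLinearGroup.mkOfDetNeZero (mat x y) (by rw [det_mat]; exact norm_ne_zero hp h3 h), ?_, rfl⟩
  rw [mem_Tor]
  exact ⟨rfl, rfl⟩

theorem tor_isCyclic (hp : 3 < p) (h3 : p % 3 = 2) : IsCyclic (Tor hp (p := p)) := by
  obtain ⟨s, hs⟩ : ∃ s : AlgebraicClosure (ZMod p), s ^ 2 = -3 := IsAlgClosed.exists_pow_nat_eq _ (by norm_num)
  let a := algebraMap (ZMod p) (AlgebraicClosure (ZMod p))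
  have hfin : Finite (Tor hp (p := p)) := inferInstance
  let f : Tor hp (p := p) →* AlgebraicClosure (ZMod p) :=
    { toFun := fun g => a ((g : GG p) 0 0) + a ((g : GG p) 1 0) * s
      map_one' := by
        change a ((1 : Matrix (Fin 2) (Fin 2) (ZMod p)) 0 0) + a ((1 : Matrix (Fin 2) (Fin 2) (ZMod p)) 1 0) * s = 1
        simp
      map_mul' := by
        rintro ⟨g, hg⟩ ⟨g', hg'⟩
        obtain ⟨h1, h2⟩ := (mem_Tor hp).1 hg
        obtain ⟨h1', h2'⟩ := (mem_Tor hp).1 hg'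
        have e1 : (g * g') 0 0 = g 0 0 * g' 0 0 - 3 * (g 1 0 * g' 1 0) := by
          rw [Units.val_mul, Matrix.mul_apply, Fin.sum_univ_two, h2]
          ring
        have e2 : (g * g') 1 0 = g 1 0 * g' 0 0 + g 0 0 * g' 1 0 := by
          rw [Units.val_mul, Matrix.mul_apply, Fin.sum_univ_two, ← h1]
        change a ((g * g') 0 0) + a ((g * g') 1 0) * s = (a (g 0 0) + a (g 1 0) * s) * (a (g' 0 0) + a (g' 1 0) * s)
        rw [e1, e2]
        simp only [map_sub, map_mul, map_add, map_ofNat]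
        linear_combination (-a (g 1 0) * a (g' 1 0)) * hs }
  refine isCyclic_of_injective_ringHom f ?_
  rintro ⟨g, hg⟩ ⟨g', hg'⟩ h
  obtain ⟨h1, h2⟩ := (mem_Tor hp).1 hg
  obtain ⟨h1', h2'⟩ := (mem_Tor hp).1 hg'
  have h4 : a (g 0 0) + a (g 1 0) * s = a (g' 0 0) + a (g' 1 0) * s := h
  have h5 : g 1 0 = g' 1 0 := by
    by_contra hne
    have hne' : g 1 0 - g' 1 0 ≠ 0 := sub_ne_zero.2 hne
    have h6 : a (g 1 0 - g' 1 0) * s = a (g' 0 0 - g 0 0) := by
      rw [map_sub, map_sub]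
      linear_combination h4
    apply not_isSquare_neg_three hp h3 (s := (g' 0 0 - g 0 0) / (g 1 0 - g' 1 0))
    apply a.injective
    have h7 : a (g 1 0 - g' 1 0) ≠ 0 := by
      rw [Ne, map_eq_zero]
      exact hne'
    rw [map_mul, map_div₀, ← h6, mul_div_cancel_left₀ _ h7, ← pow_two, hs, map_neg, map_ofNat]
  have h6 : g 0 0 = g' 0 0 := by
    rw [h5] at h4
    exact a.injective (add_right_cancel h4)
  apply Subtype.ext
  apply Units.ext
  ext i j
  fin_cases i <;> fin_cases j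
  · exact h6
  · change g 0 1 = g' 0 1
    rw [h2, h2', h5]
  · exact h5
  · change g 1 1 = g' 1 1
    rw [← h1, ← h1', h6]

/-- scalar matrices -/
def scal (c : (ZMod p)ˣ) : GG p := Matrix.GeneralLinearGroup.scalar (Fin 2) c

theorem coe_scal (c : (ZMod p)ˣ) : ((scal c : GG p) : Matrix (Fin 2) (Fin 2) (ZMod p)) = (c : ZMod p) • 1 := by
  rw [scal]
  ext i j
  fin_cases i <;> fin_cases j <;> simp [Matrix.GeneralLinearGroup.scalar]

theorem scal_comm (c : (ZMod p)ˣ) (g : GG p) : scal c * g = g * scal c := by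
  apply Units.ext
  rw [Units.val_mul, Units.val_mul, coe_scal]
  simp

theorem mat_pow_succ (hp : 3 < p) (h3 : p % 3 = 2) (x y : ZMod p) : (mat x y) ^ (p + 1) = (x * x + 3 * (y * y)) • 1 := by
  have hJ2 : (mat (0 : ZMod p) 1) * mat 0 1 = (-3 : ZMod p) • 1 := by
    ext i j
    fin_cases i <;> fin_cases j <;> simp [mat, Matrix.mul_apply, Fin.sum_univ_two]
  have hm : mat x y = x • (1 : Matrix (Fin 2) (Fin 2) (ZMod p)) + y • mat 0 1 := by
    ext i j
    fin_cases i <;> fin_cases j <;> simp [mat]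
    ring
  have hodd : Odd p := (Fact.out : p.Prime).odd_of_ne_two (by omega)
  obtain ⟨m, hm'⟩ := hodd
  have heul : (-3 : ZMod p) ^ m = -1 := by
    have h1 : (-3 : ZMod p) ≠ 0 := neg_ne_zero.2 (three_ne_zero' hp)
    have h2 := ZMod.pow_div_two_eq_neg_one_or_one p h1
    have h4 : p / 2 = m := by omega
    rw [h4] at h2
    rcases h2 with h2 | h2
    · exfalso
      have h5 := (ZMod.euler_criterion p h1).2 (by rw [h4]; exact h2)
      obtain ⟨s, hs⟩ := h5
      exact not_isSquare_neg_three hp h3 hs.symm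
    · exact h2
  have hJp : (mat (0 : ZMod p) 1) ^ p = - mat 0 1 := by
    have h5 : (mat (0 : ZMod p) 1) ^ p = (mat (0 : ZMod p) 1) ^ (2 * m + 1) := congrArg _ hm'
    rw [h5, pow_succ, pow_mul, pow_two, hJ2, smul_pow, one_pow, heul]
    simp
  have hcomm : Commute (x • (1 : Matrix (Fin 2) (Fin 2) (ZMod p))) (y • mat 0 1) := by
    apply Commute.smul_left
    exact Commute.one_left _
  have h1 : (mat x y) ^ p = x • (1 : Matrix (Fin 2) (Fin 2) (ZMod p)) - y • mat 0 1 := by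
    rw [hm, add_pow_char_of_commute _ hcomm, smul_pow, smul_pow, hJp, one_pow, ZMod.pow_card, ZMod.pow_card,
      smul_neg, sub_eq_add_neg]
  rw [pow_succ, h1, hm]
  have h2 : (x • (1 : Matrix (Fin 2) (Fin 2) (ZMod p)) - y • mat 0 1) * (x • (1 : Matrix (Fin 2) (Fin 2) (ZMod p)) + y • mat 0 1) =
      (x * x) • 1 - (y * y) • (mat 0 1 * mat 0 1) := by
    simp only [sub_mul, mul_add, smul_mul_assoc, mul_smul_comm, one_mul, mul_one]
    module
  rw [h2, hJ2]
  module

/-- A torus element to the power `p + 1` is a scalar. -/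
theorem tor_pow (hp : 3 < p) (h3 : p % 3 = 2) {t : GG p} (ht : t ∈ Tor hp) :
    ∃ c : (ZMod p)ˣ, t ^ (p + 1) = scal c := by
  have h1 := coe_eq_mat hp ht
  have h2 : ¬ (t 0 0 = 0 ∧ t 1 0 = 0) := by
    rintro ⟨h4, h5⟩
    have h6 : (t : Matrix (Fin 2) (Fin 2) (ZMod p)).det ≠ 0 := by
      have := (Matrix.GeneralLinearGroup.det t).ne_zero
      exact this
    apply h6
    rw [h1, det_mat, h4, h5]
    ring
  refine ⟨Units.mk0 _ (norm_ne_zero hp h3 h2), ?_⟩
  apply Units.ext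
  rw [Units.val_pow_eq_pow_val, coe_scal, Units.val_mk0, ← mat_pow_succ hp h3]
  exact congrArg (· ^ (p + 1)) h1

/-- The norm is surjective. -/
theorem exists_det (hp : 3 < p) (h3 : p % 3 = 2) (c : (ZMod p)ˣ) :
    ∃ t ∈ Tor hp, (t : Matrix (Fin 2) (Fin 2) (ZMod p)).det = c := by
  obtain ⟨x, y, hxy⟩ : ∃ x y : ZMod p, x * x + 3 * (y * y) = c := by
    have h1 := FiniteField.exists_root_sum_quadratic (R := ZMod p) (f := Polynomial.X ^ 2 - Polynomial.C (c : ZMod p))
      (g := Polynomial.C 3 * Polynomial.X ^ 2) (by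
        compute_degree!) (by
        have := three_ne_zero' hp
        compute_degree!) (by
        rw [ZMod.card]
        exact Nat.odd_iff.1 ((Fact.out : p.Prime).odd_of_ne_two (by omega)))
    obtain ⟨a, b, hab⟩ := h1
    refine ⟨a, b, ?_⟩
    simp at hab
    linear_combination hab
  have h : ¬ (x = 0 ∧ y = 0) := by
    rintro ⟨rfl, rfl⟩
    apply c.ne_zero
    rw [← hxy]
    ring
  obtain ⟨t, ht, ht'⟩ := exists_tor hp h3 h
  refine ⟨t, ht, ?_⟩
  rw [ht', det_mat, hxy]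

/-! ### The anti-automorphism -/

/-- the anti-automorphism fixing the torus -/
noncomputable def star (hp : 3 < p) (g : GG p) : GG p where
  val := !![-3, 0; 0, 1] * (g : Matrix (Fin 2) (Fin 2) (ZMod p))ᵀ * !![(-3)⁻¹, 0; 0, 1]
  inv := !![-3, 0; 0, 1] * ((g⁻¹ : GG p) : Matrix (Fin 2) (Fin 2) (ZMod p))ᵀ * !![(-3)⁻¹, 0; 0, 1]
  val_inv := by
    have h1 : (!![(-3)⁻¹, 0; 0, 1] : Matrix (Fin 2) (Fin 2) (ZMod p)) * !![-3, 0; 0, 1] = 1 := by
      have := three_ne_zero' hp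
      ext i j
      fin_cases i <;> fin_cases j <;> simp [Matrix.mul_apply, Fin.sum_univ_two, this]
    have h2 : (!![-3, 0; 0, 1] : Matrix (Fin 2) (Fin 2) (ZMod p)) * !![(-3)⁻¹, 0; 0, 1] = 1 := by
      have := three_ne_zero' hp
      ext i j
      fin_cases i <;> fin_cases j <;> simp [Matrix.mul_apply, Fin.sum_univ_two, this]
    have h4 : (g : Matrix (Fin 2) (Fin 2) (ZMod p))ᵀ * ((g⁻¹ : GG p) : Matrix (Fin 2) (Fin 2) (ZMod p))ᵀ = 1 := by
      rw [← Matrix.transpose_mul, ← Units.val_mul, inv_mul_cancel, Units.val_one, Matrix.transpose_one]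
    calc _ = (!![-3, 0; 0, 1] : Matrix (Fin 2) (Fin 2) (ZMod p)) * ((g : Matrix (Fin 2) (Fin 2) (ZMod p))ᵀ *
          ((!![(-3)⁻¹, 0; 0, 1] : Matrix (Fin 2) (Fin 2) (ZMod p)) * !![-3, 0; 0, 1]) *
          ((g⁻¹ : GG p) : Matrix (Fin 2) (Fin 2) (ZMod p))ᵀ) * !![(-3)⁻¹, 0; 0, 1] := by
          simp only [Matrix.mul_assoc]
      _ = 1 := by rw [h1, Matrix.mul_one, h4, Matrix.mul_one, h2]
  inv_val := by
    have h1 : (!![(-3)⁻¹, 0; 0, 1] : Matrix (Fin 2) (Fin 2) (ZMod p)) * !![-3, 0; 0, 1] = 1 := by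
      have := three_ne_zero' hp
      ext i j
      fin_cases i <;> fin_cases j <;> simp [Matrix.mul_apply, Fin.sum_univ_two, this]
    have h2 : (!![-3, 0; 0, 1] : Matrix (Fin 2) (Fin 2) (ZMod p)) * !![(-3)⁻¹, 0; 0, 1] = 1 := by
      have := three_ne_zero' hp
      ext i j
      fin_cases i <;> fin_cases j <;> simp [Matrix.mul_apply, Fin.sum_univ_two, this]
    have h4 : ((g⁻¹ : GG p) : Matrix (Fin 2) (Fin 2) (ZMod p))ᵀ * (g : Matrix (Fin 2) (Fin 2) (ZMod p))ᵀ = 1 := by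
      rw [← Matrix.transpose_mul, ← Units.val_mul, mul_inv_cancel, Units.val_one, Matrix.transpose_one]
    calc _ = (!![-3, 0; 0, 1] : Matrix (Fin 2) (Fin 2) (ZMod p)) * (((g⁻¹ : GG p) : Matrix (Fin 2) (Fin 2) (ZMod p))ᵀ *
          ((!![(-3)⁻¹, 0; 0, 1] : Matrix (Fin 2) (Fin 2) (ZMod p)) * !![-3, 0; 0, 1]) *
          (g : Matrix (Fin 2) (Fin 2) (ZMod p))ᵀ) * !![(-3)⁻¹, 0; 0, 1] := by
          simp only [Matrix.mul_assoc]
      _ = 1 := by rw [h1, Matrix.mul_one, h4, Matrix.mul_one, h2]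

theorem coe_star (hp : 3 < p) (g : GG p) : ((star hp g : GG p) : Matrix (Fin 2) (Fin 2) (ZMod p)) =
    !![g 0 0, -3 * g 1 0; g 0 1 * (-3)⁻¹, g 1 1] := by
  change !![-3, 0; 0, 1] * (g : Matrix (Fin 2) (Fin 2) (ZMod p))ᵀ * !![(-3)⁻¹, 0; 0, 1] = _
  have h3 := three_ne_zero' hp
  ext i j
  fin_cases i <;> fin_cases j <;> simp [Matrix.mul_apply, Matrix.vecMul, dotProduct, Fin.sum_univ_two]
  field_simp

theorem star_mul (hp : 3 < p) (a b : GG p) : star hp (a * b) = star hp b * star hp a := by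
  have h3 := three_ne_zero' hp
  apply Units.ext
  rw [Units.val_mul, coe_star, coe_star, coe_star]
  ext i j
  fin_cases i <;> fin_cases j <;> simp [Matrix.mul_apply, Fin.sum_univ_two] <;> field_simp <;> ring

theorem star_surjective (hp : 3 < p) : Function.Surjective (star hp (p := p)) := by
  have h3 := three_ne_zero' hp
  intro g
  refine ⟨star hp g, ?_⟩
  apply Units.ext
  rw [coe_star]
  have h := coe_star hp g
  ext i j
  fin_cases i <;> fin_cases j <;> simp [h] <;> field_simp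

/-- Every element is conjugate to its image under the anti-automorphism by a torus element. -/
theorem exists_star (hp : 3 < p) (h3 : p % 3 = 2) (g : GG p) : ∃ t ∈ Tor hp, t * star hp g = g * t := by
  have h3' := three_ne_zero' hp
  by_cases h : g 0 0 - g 1 1 = 0 ∧ g 1 0 - g 0 1 * (-3)⁻¹ = 0
  · refine ⟨1, one_mem _, ?_⟩
    rw [one_mul, mul_one]
    apply Units.ext
    rw [coe_star]
    have h4 : g 1 0 = g 0 1 * (-3)⁻¹ := sub_eq_zero.1 h.2
    ext i j
    fin_cases i <;> fin_cases j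
    · rfl
    · change -3 * g 1 0 = g 0 1
      rw [h4]
      field_simp
    · exact h4.symm
    · rfl
  · obtain ⟨t, ht, ht'⟩ := exists_tor hp h3 h
    refine ⟨t, ht, ?_⟩
    apply Units.ext
    rw [Units.val_mul, Units.val_mul, coe_star, ht']
    ext i j
    fin_cases i <;> fin_cases j <;> simp [mat, Matrix.mul_apply, Fin.sum_univ_two] <;> field_simp <;> ring

end Cfsg.Agent.H892.GLTorus
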