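import Mathlib
import Cfsg.Agent.H892.FixDim

/-!
# Multiplicity one from an anti-automorphism (Gelfand's trick), in every characteristic
-/

set_option autoImplicit false

namespace Cfsg.Agent.H892.MultOne

open Module Cfsg.Agent.H892.FixDim

variable {K U G : Type*} [Field K] [AddCommGroup U] [Module K U] [FiniteDimensional K U] [Group G]

/-- Irreducibility: there are no proper invariant subspaces. -/
def Irr (ρ : Representation K G U) : Prop :=
  ∀ W : Submodule K U, (∀ g, ∀ w ∈ W, ρ g w ∈ W) → W = ⊥ ∨ W = ⊤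

theorem schur [IsAlgClosed K] [Nontrivial U] (ρ : Representation K G U) (hirr : Irr ρ) (φ : Module.End K U)
    (hφ : ∀ g v, φ (ρ g v) = ρ g (φ v)) : ∃ c : K, ∀ v, φ v = c • v := by
  obtain ⟨c, hc⟩ := Module.End.exists_eigenvalue φ
  refine ⟨c, ?_⟩
  have h1 := hirr (Module.End.eigenspace φ c) (by
    intro g w hw
    rw [Module.End.mem_eigenspace_iff] at hw ⊢
    rw [hφ, hw, map_smul])
  rcases h1 with h1 | h1
  · exact absurd h1 hc
  · intro v
    have : v ∈ Module.End.eigenspace φ c := by rw [h1]; trivial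
    exact Module.End.mem_eigenspace_iff.1 this

theorem finrank_eigenspace_le_one [IsAlgClosed K] [Finite G] (ρ : Representation K G U) (hirr : Irr ρ)
    (star : G → G) (hmul : ∀ a b, star (a * b) = star b * star a) (hsurj : Function.Surjective star) (θ : G)
    (hθ : ∀ g, ∃ k : ℕ, θ ^ k * star g = g * θ ^ k) (μ : K) :
    finrank K (LinearMap.ker (ρ θ - μ • (1 : Module.End K U))) ≤ 1 := by
  classical
  have := Fintype.ofFinite G
  set E := LinearMap.ker (ρ θ - μ • (1 : Module.End K U)) with hE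
  have mE : ∀ {v}, v ∈ E ↔ ρ θ v = μ • v := by
    intro v
    rw [hE, LinearMap.mem_ker, LinearMap.sub_apply, LinearMap.smul_apply, Module.End.one_apply, sub_eq_zero]
  by_cases hbot : E = ⊥
  · rw [hbot, finrank_bot]
    omega
  obtain ⟨v0, hv0, hv0'⟩ := Submodule.exists_mem_ne_zero_of_ne_bot hbot
  have hnt : Nontrivial U := ⟨⟨v0, 0, hv0'⟩⟩
  -- `μ ≠ 0`
  have hμ : μ ≠ 0 := by
    rintro rfl
    have h1 := mE.1 hv0
    rw [zero_smul] at h1
    have h2 : ρ θ⁻¹ (ρ θ v0) = v0 := by
      rw [← Module.End.mul_apply, ← map_mul, inv_mul_cancel, map_one, Module.End.one_apply]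
    rw [h1, map_zero] at h2
    exact hv0' h2.symm
  -- a functional
  obtain ⟨l, hl0, hl⟩ : ∃ l : U →ₗ[K] K, l ≠ 0 ∧ LinearMap.range (ρ θ - μ • (1 : Module.End K U)) ≤ LinearMap.ker l := by
    apply Submodule.exists_le_ker_of_lt_top
    rw [lt_top_iff_ne_top]
    intro h
    exact hbot (LinearMap.ker_eq_bot_iff_range_eq_top.2 h)
  have hlθ : ∀ w, l (ρ θ w) = μ * l w := by
    intro w
    have : l ((ρ θ - μ • (1 : Module.End K U)) w) = 0 := hl ⟨w, rfl⟩
    rw [LinearMap.sub_apply, LinearMap.smul_apply, Module.End.one_apply, map_sub, map_smul, sub_eq_zero] at this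
    exact this
  have hlθk : ∀ (k : ℕ) w, l (ρ (θ ^ k) w) = μ ^ k * l w := by
    intro k
    induction k with
    | zero => intro w; simp
    | succ k ih =>
      intro w
      rw [pow_succ, map_mul, Module.End.mul_apply, ih, hlθ, pow_succ, mul_assoc]
  have hEk : ∀ (k : ℕ) {v}, v ∈ E → ρ (θ ^ k) v = μ ^ k • v := by
    intro k v hv
    induction k with
    | zero => simp
    | succ k ih =>
      rw [pow_succ, map_mul, Module.End.mul_apply, mE.1 hv, map_smul, ih, smul_smul, pow_succ, mul_comm]
  have hstar : ∀ g, ∀ v ∈ E, l (ρ (star g) v) = l (ρ g v) := by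
    intro g v hv
    obtain ⟨k, hk⟩ := hθ g
    have h1 : l (ρ (θ ^ k * star g) v) = l (ρ (g * θ ^ k) v) := by rw [hk]
    rw [map_mul, Module.End.mul_apply, hlθk, map_mul, Module.End.mul_apply, hEk k hv, map_smul, map_smul,
      smul_eq_mul] at h1
    exact mul_left_cancel₀ (pow_ne_zero k hμ) h1
  -- the orbit maps
  let T : U → (G → K) →ₗ[K] U := fun v => Fintype.linearCombination K (fun g => ρ g v)
  have hT : ∀ v a, T v a = ∑ g, a g • ρ g v := fun v a => Fintype.linearCombination_apply K _ a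
  have hspan : ∀ v, v ≠ 0 → LinearMap.range (T v) = ⊤ := by
    intro v hv
    have h1 := hirr (LinearMap.range (T v)) (by
      rintro g _ ⟨a, rfl⟩
      refine ⟨fun x => a (g⁻¹ * x), ?_⟩
      rw [hT, hT, map_sum]
      rw [← Equiv.sum_comp (Equiv.mulLeft g) (fun x => a (g⁻¹ * x) • ρ x v)]
      refine Finset.sum_congr rfl fun x _ => ?_
      rw [Equiv.coe_mulLeft, inv_mul_cancel_left, map_smul, map_mul, Module.End.mul_apply])
    rcases h1 with h1 | h1
    · exfalso
      apply hv
      have h2 : T v (Pi.single 1 1) ∈ LinearMap.range (T v) := ⟨_, rfl⟩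
      rw [h1, Submodule.mem_bot, hT, Finset.sum_eq_single 1] at h2
      · simpa using h2
      · intro b _ hb
        rw [Pi.single_eq_of_ne hb, zero_smul]
      · intro h
        exact absurd (Finset.mem_univ _) h
    · exact h1
  have hker : ∀ v1 ∈ E, LinearMap.ker (T v0) ≤ LinearMap.ker (T v1) := by
    intro v1 hv1 a ha
    have ha' : ∑ g, a g • ρ g v0 = 0 := by rw [← hT]; exact ha
    -- `l ∘ A* = 0`
    have h1 : ∀ b : G, ∀ v ∈ E, l (ρ b (∑ g, a g • ρ g v)) = ∑ g, a g * l (ρ (star g) (ρ (star b) v)) := by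
      intro b v hv
      rw [map_sum, map_sum]
      refine Finset.sum_congr rfl fun g _ => ?_
      rw [map_smul, map_smul, smul_eq_mul, ← Module.End.mul_apply, ← map_mul, ← hstar _ v hv, hmul, map_mul,
        Module.End.mul_apply]
    set A : U →ₗ[K] K := ∑ g, a g • (l ∘ₗ ρ (star g)) with hA
    have hAapp : ∀ w, A w = ∑ g, a g * l (ρ (star g) w) := by
      intro w
      rw [hA, LinearMap.sum_apply]
      rfl
    have h2 : A = 0 := by
      have h3 : LinearMap.range (T v0) ≤ LinearMap.ker A := by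
        rintro _ ⟨c, rfl⟩
        rw [hT, LinearMap.mem_ker, map_sum]
        refine Finset.sum_eq_zero fun g _ => ?_
        obtain ⟨b, rfl⟩ := hsurj g
        rw [map_smul, hAapp, ← h1 b v0 hv0, ha', map_zero, map_zero, smul_zero]
      rw [hspan v0 hv0'] at h3
      exact LinearMap.ker_eq_top.1 (top_le_iff.1 h3)
    have h4 : ∀ b : G, l (ρ b (∑ g, a g • ρ g v1)) = 0 := by
      intro b
      rw [h1 b v1 hv1, ← hAapp, h2, LinearMap.zero_apply]
    -- the largest invariant subspace in the kernel of `l`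
    let W : Submodule K U := ⨅ b : G, LinearMap.ker (l ∘ₗ ρ b)
    have hW : ∀ {w}, w ∈ W ↔ ∀ b, l (ρ b w) = 0 := by
      intro w
      rw [Submodule.mem_iInf]
      rfl
    rcases hirr W (by
      intro g w hw
      rw [hW] at hw ⊢
      intro b
      rw [← Module.End.mul_apply, ← map_mul]
      exact hw _) with h5 | h5
    · have h6 : ∑ g, a g • ρ g v1 ∈ W := hW.2 h4
      rw [h5, Submodule.mem_bot] at h6
      rw [LinearMap.mem_ker, hT, h6]
    · exfalso
      apply hl0
      ext w
      have h6 : w ∈ W := by rw [h5]; trivial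
      have h7 := hW.1 h6 1
      rwa [map_one, Module.End.one_apply] at h7
  apply finrank_le_one (⟨v0, hv0⟩ : E)
  rintro ⟨v1, hv1⟩
  let φ : U →ₗ[K] U := ((LinearMap.ker (T v0)).liftQ (T v1) (hker v1 hv1)) ∘ₗ
    ((T v0).quotKerEquivOfSurjective (LinearMap.range_eq_top.1 (hspan v0 hv0'))).symm.toLinearMap
  have hφ : ∀ a, φ (T v0 a) = T v1 a := by
    intro a
    have h1 : ((T v0).quotKerEquivOfSurjective (LinearMap.range_eq_top.1 (hspan v0 hv0'))).symm (T v0 a) =
        (LinearMap.ker (T v0)).mkQ a := by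
      rw [LinearEquiv.symm_apply_eq]
      rfl
    change (LinearMap.ker (T v0)).liftQ (T v1) (hker v1 hv1)
      (((T v0).quotKerEquivOfSurjective (LinearMap.range_eq_top.1 (hspan v0 hv0'))).symm (T v0 a)) = _
    rw [h1, Submodule.mkQ_apply, Submodule.liftQ_apply]
  have hTg : ∀ v g a, ρ g (T v a) = T v (fun x => a (g⁻¹ * x)) := by
    intro v g a
    rw [hT, hT, map_sum, ← Equiv.sum_comp (Equiv.mulLeft g) (fun x => a (g⁻¹ * x) • ρ x v)]
    refine Finset.sum_congr rfl fun x _ => ?_
    rw [Equiv.coe_mulLeft, inv_mul_cancel_left, map_smul, map_mul, Module.End.mul_apply]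
  obtain ⟨c, hc⟩ := schur ρ hirr φ (by
    intro g v
    have hv : v ∈ LinearMap.range (T v0) := by rw [hspan v0 hv0']; trivial
    obtain ⟨a, rfl⟩ := hv
    rw [hTg, hφ, hφ, hTg])
  refine ⟨c, ?_⟩
  apply Subtype.ext
  have hT1 : ∀ v, T v (Pi.single 1 1) = v := by
    intro v
    rw [hT, Finset.sum_eq_single 1]
    · simp
    · intro b _ hb
      rw [Pi.single_eq_of_ne hb, zero_smul]
    · intro h
      exact absurd (Finset.mem_univ _) h
  have h8 := hφ (Pi.single 1 1)
  rw [hT1, hT1, hc] at h8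
  exact h8

/-- If all eigenspaces have dimension at most one, then kernels of polynomials have dimension at most the degree. -/
theorem finrank_ker_aeval_le [IsAlgClosed K] (f : Module.End K U)
    (hf : ∀ μ : K, finrank K (LinearMap.ker (f - μ • (1 : Module.End K U))) ≤ 1) (n : ℕ) :
    ∀ P : Polynomial K, P ≠ 0 → P.natDegree = n → finrank K (LinearMap.ker (Polynomial.aeval f P)) ≤ n := by
  induction n with
  | zero =>
    intro P hP hn
    obtain ⟨c, rfl⟩ := Polynomial.natDegree_eq_zero.1 hn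
    have hc : c ≠ 0 := by
      rintro rfl
      exact hP (by simp)
    have : LinearMap.ker (Polynomial.aeval f (Polynomial.C c)) = ⊥ := by
      rw [Polynomial.aeval_C, eq_bot_iff]
      intro x hx
      have : c • x = 0 := hx
      rw [Submodule.mem_bot]
      exact (smul_eq_zero.1 this).resolve_left hc
    rw [this, finrank_bot]
  | succ n ih =>
    intro P hP hn
    obtain ⟨μ, hμ⟩ := IsAlgClosed.exists_root P (by
      rw [Polynomial.degree_eq_natDegree hP, hn]
      exact_mod_cast Nat.succ_ne_zero n)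
    obtain ⟨Q, hQ⟩ := Polynomial.dvd_iff_isRoot.2 hμ
    have hQ0 : Q ≠ 0 := by
      rintro rfl
      rw [mul_zero] at hQ
      exact hP hQ
    have hQn : Q.natDegree = n := by
      rw [hQ, Polynomial.natDegree_mul (Polynomial.X_sub_C_ne_zero μ) hQ0, Polynomial.natDegree_X_sub_C] at hn
      omega
    have h1 : Polynomial.aeval f P = (f - μ • (1 : Module.End K U)) ∘ₗ Polynomial.aeval f Q := by
      rw [hQ, map_mul, map_sub, Polynomial.aeval_X, Polynomial.aeval_C, Algebra.algebraMap_eq_smul_one]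
      rfl
    rw [h1]
    have h2 := finrank_ker_comp_le (f - μ • (1 : Module.End K U)) (Polynomial.aeval f Q)
    have h3 := ih Q hQ0 hQn
    have h4 := hf μ
    omega

end Cfsg.Agent.H892.MultOne
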