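import Mathlib
import Cfsg.Agent.H892.FixDim

/-!
# An element of order three acting on an abelian group

`h` of order three, `g₀, g₁, g₂` commuting, permuted cyclically by `h`, with product one and of order prime to three:
`dim V ≤ 4 dim C_V(h) + 2 dim C_V(g₀)`, in every characteristic different from three.
-/

set_option autoImplicit false

namespace Cfsg.Agent.H892.ThreeConf

open Module Cfsg.Agent.H892.FixDim

variable {K V : Type*} [Field K] [AddCommGroup V] [Module K V] [FiniteDimensional K V]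

/-- the image of a submodule and the kernel -/
theorem finrank_le_of_map_le (f : V →ₗ[K] V) (A C : Submodule K V) (h : A.map f ≤ C) :
    finrank K A ≤ finrank K (A ⊓ LinearMap.ker f : Submodule K V) + finrank K C := by
  have h1 := LinearMap.finrank_range_add_finrank_ker (f ∘ₗ A.subtype)
  have h2 : LinearMap.range (f ∘ₗ A.subtype) = A.map f := by
    rw [LinearMap.range_comp, Submodule.range_subtype]
  have h3 : (LinearMap.ker (f ∘ₗ A.subtype)).map A.subtype = A ⊓ LinearMap.ker f := by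
    ext x
    constructor
    · rintro ⟨y, hy, rfl⟩
      exact ⟨y.2, hy⟩
    · rintro ⟨hA, hf⟩
      exact ⟨⟨x, hA⟩, hf, rfl⟩
  have h4 := Submodule.finrank_map_subtype_eq A (LinearMap.ker (f ∘ₗ A.subtype))
  rw [h3] at h4
  have h5 := Submodule.finrank_mono h
  rw [h2] at h1
  omega

theorem three_conf (ω : K) (hω : ω ^ 2 + ω + 1 = 0) (h3 : (3 : K) ≠ 0) (h g₀ g₁ g₂ : Module.End K V)
    (hh : h ^ 3 = 1) (h01 : h * g₀ = g₁ * h) (h12 : h * g₁ = g₂ * h) (h20 : h * g₂ = g₀ * h)
    (c01 : g₀ * g₁ = g₁ * g₀) (c02 : g₀ * g₂ = g₂ * g₀) (c12 : g₁ * g₂ = g₂ * g₁)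
    (hprod : g₀ * g₁ * g₂ = 1) {r : ℕ} (hr : Nat.Coprime 3 r) (hgr : g₀ ^ r = 1) :
    finrank K V ≤ 4 * fx h + 2 * fx g₀ := by
  have hω3 : ω ^ 3 = 1 := by linear_combination (ω - 1) * hω
  set E : Module.End K V := g₀ + ω ^ 2 • g₁ + ω • g₂ with hE
  set E' : Module.End K V := g₀ + ω • g₁ + ω ^ 2 • g₂ with hE'
  have hEE' : E * E' = E' * E := by
    rw [hE, hE']
    simp only [add_mul, mul_add, smul_mul_assoc, mul_smul_comm]
    rw [c01, c02, c12]
    module
  have hhE : h * E = ω • (E * h) := by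
    rw [hE]
    simp only [add_mul, mul_add, smul_mul_assoc, mul_smul_comm, smul_add, smul_smul]
    rw [h01, h12, h20]
    have h1 : ω * ω ^ 2 = 1 := by rw [← hω3]; ring
    have h2 : ω * ω = ω ^ 2 := by ring
    rw [h1, h2, one_smul]
    abel
  have hhE' : h * E' = ω ^ 2 • (E' * h) := by
    rw [hE']
    simp only [add_mul, mul_add, smul_mul_assoc, mul_smul_comm, smul_add, smul_smul]
    rw [h01, h12, h20]
    have h1 : ω ^ 2 * ω = 1 := by rw [← hω3]; ring
    have h2 : ω ^ 2 * ω ^ 2 = ω := by linear_combination ω * hω3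
    rw [h1, h2, one_smul]
    abel
  set V0 := LinearMap.ker (h - 1) with hV0
  set V1 := LinearMap.ker (h - ω • (1 : Module.End K V)) with hV1
  set V2 := LinearMap.ker (h - ω ^ 2 • (1 : Module.End K V)) with hV2
  have m0 : ∀ {v}, v ∈ V0 ↔ h v = v := fun {v} => mem_ker_sub_one
  have m1 : ∀ {v}, v ∈ V1 ↔ h v = ω • v := by
    intro v
    rw [hV1, LinearMap.mem_ker, LinearMap.sub_apply, LinearMap.smul_apply, Module.End.one_apply, sub_eq_zero]
  have m2 : ∀ {v}, v ∈ V2 ↔ h v = ω ^ 2 • v := by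
    intro v
    rw [hV2, LinearMap.mem_ker, LinearMap.sub_apply, LinearMap.smul_apply, Module.End.one_apply, sub_eq_zero]
  have aE : ∀ v, h (E v) = ω • E (h v) := fun v => by
    have := congrArg (fun f : Module.End K V => f v) hhE
    exact this
  have aE' : ∀ v, h (E' v) = ω ^ 2 • E' (h v) := fun v => by
    have := congrArg (fun f : Module.End K V => f v) hhE'
    exact this
  have aEE' : ∀ v, E (E' v) = E' (E v) := fun v => by
    have := congrArg (fun f : Module.End K V => f v) hEE'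
    exact this
  -- dimension count for the eigenspaces
  have hdim : finrank K V ≤ finrank K V0 + finrank K V1 + finrank K V2 := by
    have h1 := finrank_ker_comp_le (h - 1) ((h - ω • (1 : Module.End K V)) * (h - ω ^ 2 • (1 : Module.End K V)))
    have h2 := finrank_ker_comp_le (h - ω • (1 : Module.End K V)) (h - ω ^ 2 • (1 : Module.End K V))
    have h3 : (h - 1) ∘ₗ ((h - ω • (1 : Module.End K V)) * (h - ω ^ 2 • (1 : Module.End K V))) = 0 := by
      change (h - 1) * ((h - ω • (1 : Module.End K V)) * (h - ω ^ 2 • (1 : Module.End K V))) = 0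
      have h4 : (h - 1) * ((h - ω • (1 : Module.End K V)) * (h - ω ^ 2 • (1 : Module.End K V))) =
          h ^ 3 - (ω ^ 2 + ω + 1) • h ^ 2 + (ω ^ 3 + ω ^ 2 + ω) • h - ω ^ 3 • (1 : Module.End K V) := by
        simp only [sub_mul, mul_sub, smul_mul_assoc, mul_smul_comm, one_mul, mul_one, pow_succ, pow_zero]
        module
      rw [h4, hω, hω3, hh]
      have h5 : (1 : K) + ω ^ 2 + ω = 0 := by rw [← hω]; ring
      rw [h5]
      simp
    rw [h3, LinearMap.ker_zero, finrank_top] at h1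
    have h5 : finrank K (LinearMap.ker ((h - ω • (1 : Module.End K V)) * (h - ω ^ 2 • (1 : Module.End K V)))) ≤
      finrank K V2 + finrank K V1 := h2
    have h6 : finrank K V ≤ finrank K (LinearMap.ker ((h - ω • (1 : Module.End K V)) *
      (h - ω ^ 2 • (1 : Module.End K V)))) + finrank K V0 := h1
    omega
  set Z0 := V0 ⊓ LinearMap.ker E ⊓ LinearMap.ker E' with hZ0
  set Z1 := V1 ⊓ LinearMap.ker E ⊓ LinearMap.ker E' with hZ1
  set Z2 := V2 ⊓ LinearMap.ker E ⊓ LinearMap.ker E' with hZ2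
  -- step one
  have s1 : finrank K V1 ≤ finrank K (V1 ⊓ LinearMap.ker E' : Submodule K V) + finrank K V0 := by
    apply finrank_le_of_map_le
    rintro _ ⟨v, hv, rfl⟩
    rw [m0, aE', m1.1 hv, map_smul, smul_smul]
    have : ω ^ 2 * ω = 1 := by rw [← hω3]; ring
    rw [this, one_smul]
  have s2 : finrank K V2 ≤ finrank K (V2 ⊓ LinearMap.ker E : Submodule K V) + finrank K V0 := by
    apply finrank_le_of_map_le
    rintro _ ⟨v, hv, rfl⟩
    rw [m0, aE, m2.1 hv, map_smul, smul_smul]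
    have : ω * ω ^ 2 = 1 := by rw [← hω3]; ring
    rw [this, one_smul]
  set S1 := (V1 ⊓ LinearMap.ker E').map (E * E) with hS1
  set S2 := (V2 ⊓ LinearMap.ker E).map (E' * E') with hS2
  have s3 : finrank K (V1 ⊓ LinearMap.ker E' : Submodule K V) ≤
      finrank K (V1 ⊓ LinearMap.ker E' ⊓ LinearMap.ker (E * E) : Submodule K V) + finrank K S1 :=
    finrank_le_of_map_le _ _ _ le_rfl
  have s4 : finrank K (V2 ⊓ LinearMap.ker E : Submodule K V) ≤
      finrank K (V2 ⊓ LinearMap.ker E ⊓ LinearMap.ker (E' * E') : Submodule K V) + finrank K S2 :=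
    finrank_le_of_map_le _ _ _ le_rfl
  have hS1V : S1 ≤ V0 := by
    rintro _ ⟨v, ⟨hv, -⟩, rfl⟩
    rw [m0, Module.End.mul_apply, aE, aE, m1.1 hv, map_smul, map_smul, map_smul, smul_smul, smul_smul]
    have : ω * ω * ω = 1 := by rw [← hω3]; ring
    rw [this, one_smul]
  have hS2V : S2 ≤ V0 := by
    rintro _ ⟨v, ⟨hv, -⟩, rfl⟩
    rw [m0, Module.End.mul_apply, aE', aE', m2.1 hv, map_smul, map_smul, map_smul, smul_smul, smul_smul]
    have : ω ^ 2 * ω ^ 2 * ω ^ 2 = 1 := by
      calc ω ^ 2 * ω ^ 2 * ω ^ 2 = (ω ^ 3) ^ 2 := by ring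
        _ = 1 := by rw [hω3]; ring
    rw [this, one_smul]
  have hS12 : S1 ⊓ S2 ≤ Z0 := by
    rintro x ⟨hx1, hx2⟩
    refine ⟨⟨hS1V hx1, ?_⟩, ?_⟩
    · obtain ⟨v, ⟨-, hv⟩, rfl⟩ := hx2
      have hv' : E v = 0 := hv
      rw [SetLike.mem_coe, LinearMap.mem_ker, Module.End.mul_apply, aEE', aEE', hv', map_zero, map_zero]
    · obtain ⟨v, ⟨-, hv⟩, rfl⟩ := hx1
      have hv' : E' v = 0 := hv
      rw [SetLike.mem_coe, LinearMap.mem_ker, Module.End.mul_apply, ← aEE', ← aEE', hv', map_zero, map_zero]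
  have s5 := Submodule.finrank_sup_add_finrank_inf_eq S1 S2
  have s6 : finrank K (S1 ⊔ S2 : Submodule K V) ≤ finrank K V0 := Submodule.finrank_mono (sup_le hS1V hS2V)
  have s7 := Submodule.finrank_mono hS12
  -- step two
  have s8 : finrank K (V1 ⊓ LinearMap.ker E' ⊓ LinearMap.ker (E * E) : Submodule K V) ≤
      finrank K Z1 + finrank K Z2 := by
    have := finrank_le_of_map_le E (V1 ⊓ LinearMap.ker E' ⊓ LinearMap.ker (E * E)) Z2 ?_
    · refine this.trans (Nat.add_le_add_right (Submodule.finrank_mono ?_) _)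
      rintro x ⟨⟨⟨hx1, hx2⟩, -⟩, hx3⟩
      exact ⟨⟨hx1, hx3⟩, hx2⟩
    · rintro _ ⟨v, ⟨⟨hv1, hv2⟩, hv3⟩, rfl⟩
      have hv2' : E' v = 0 := hv2
      refine ⟨⟨?_, hv3⟩, ?_⟩
      · rw [SetLike.mem_coe, m2, aE, m1.1 hv1, map_smul, smul_smul, pow_two]
      · rw [SetLike.mem_coe, LinearMap.mem_ker, ← aEE', hv2', map_zero]
  have s9 : finrank K (V2 ⊓ LinearMap.ker E ⊓ LinearMap.ker (E' * E') : Submodule K V) ≤
      finrank K Z2 + finrank K Z1 := by
    have := finrank_le_of_map_le E' (V2 ⊓ LinearMap.ker E ⊓ LinearMap.ker (E' * E')) Z1 ?_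
    · refine this.trans (Nat.add_le_add_right (Submodule.finrank_mono ?_) _)
      rintro x ⟨⟨hx1, -⟩, hx3⟩
      exact ⟨hx1, hx3⟩
    · rintro _ ⟨v, ⟨⟨hv1, hv2⟩, hv3⟩, rfl⟩
      have hv2' : E v = 0 := hv2
      refine ⟨⟨?_, ?_⟩, hv3⟩
      · rw [SetLike.mem_coe, m1, aE', m2.1 hv1, map_smul, smul_smul]
        have : ω ^ 2 * ω ^ 2 = ω := by linear_combination ω * hω3
        rw [this]
      · rw [SetLike.mem_coe, LinearMap.mem_ker, aEE', hv2', map_zero]
  -- the common kernel is fixed by `g₀`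
  have hZ : ∀ v, E v = 0 → E' v = 0 → g₀ v = v := by
    intro v h1 h2
    have h1' : g₀ v + ω ^ 2 • g₁ v + ω • g₂ v = 0 := h1
    have h2' : g₀ v + ω • g₁ v + ω ^ 2 • g₂ v = 0 := h2
    have e1 : g₁ v = g₀ v := by
      have : (3 : K) • g₁ v = (3 : K) • g₀ v := by
        have h4 : (3 : K) • g₁ v - (3 : K) • g₀ v =
            (ω - 1) • (g₀ v + ω ^ 2 • g₁ v + ω • g₂ v) + (ω ^ 2 - 1) • (g₀ v + ω • g₁ v + ω ^ 2 • g₂ v) -
            (ω ^ 2 + ω + 1) • g₀ v + (5 - 2 * ω ^ 3 + ω ^ 2 + ω - 1 - 1) • (0 : V) +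
              ((3 : K) - (ω - 1) * ω ^ 2 - (ω ^ 2 - 1) * ω) • g₁ v +
              (- (ω - 1) * ω - (ω ^ 2 - 1) * ω ^ 2) • g₂ v := by
          module
        have h5 : (3 : K) - (ω - 1) * ω ^ 2 - (ω ^ 2 - 1) * ω = 0 := by
          linear_combination -2 * hω3 + hω
        have h6 : - (ω - 1) * ω - (ω ^ 2 - 1) * ω ^ 2 = 0 := by
          linear_combination -ω * hω3
        rw [h1', h2', hω, h5, h6] at h4
        simp only [smul_zero, zero_smul, add_zero, sub_zero] at h4
        exact sub_eq_zero.1 h4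
      exact smul_right_injective V h3 this
    have e2 : g₂ v = g₀ v := by
      have : (3 : K) • g₂ v = (3 : K) • g₀ v := by
        have h4 : (3 : K) • g₂ v - (3 : K) • g₀ v =
            (ω ^ 2 - 1) • (g₀ v + ω ^ 2 • g₁ v + ω • g₂ v) + (ω - 1) • (g₀ v + ω • g₁ v + ω ^ 2 • g₂ v) -
            (ω ^ 2 + ω + 1) • g₀ v +
              ((3 : K) - (ω - 1) * ω ^ 2 - (ω ^ 2 - 1) * ω) • g₂ v +
              (- (ω - 1) * ω - (ω ^ 2 - 1) * ω ^ 2) • g₁ v := by
          module
        have h5 : (3 : K) - (ω - 1) * ω ^ 2 - (ω ^ 2 - 1) * ω = 0 := by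
          linear_combination -2 * hω3 + hω
        have h6 : - (ω - 1) * ω - (ω ^ 2 - 1) * ω ^ 2 = 0 := by
          linear_combination -ω * hω3
        rw [h1', h2', hω, h5, h6] at h4
        simp only [smul_zero, zero_smul, add_zero, sub_zero] at h4
        exact sub_eq_zero.1 h4
      exact smul_right_injective V h3 this
    -- `g₀ ^ 3` fixes `v`
    have e3 : (g₀ ^ 3) v = v := by
      have h4 : (g₀ * g₁ * g₂) v = v := by rw [hprod, Module.End.one_apply]
      have h5 : g₀ * g₀ * g₀ = g₀ ^ 3 := by simp only [pow_succ, pow_zero, one_mul]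
      rw [Module.End.mul_apply, e2, ← Module.End.mul_apply, mul_assoc, ← c01, ← mul_assoc, Module.End.mul_apply,
        e1, ← Module.End.mul_apply, h5] at h4
      exact h4
    have e4 : (g₀ ^ r) v = v := by rw [hgr, Module.End.one_apply]
    -- coprimality
    have e5 : ∀ n : ℕ, (g₀ ^ (3 * n)) v = v := by
      intro n
      induction n with
      | zero => simp
      | succ n ih => rw [Nat.mul_succ, pow_add, Module.End.mul_apply, e3, ih]
    have e6 : ∀ n : ℕ, (g₀ ^ (r * n)) v = v := by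
      intro n
      rw [pow_mul, hgr, one_pow, Module.End.one_apply]
    obtain ⟨m, -, hm⟩ := Nat.exists_mul_mod_eq_one_of_coprime hr.symm (by norm_num : 1 < 3)
    have e7 : (g₀ ^ (r * m)) v = g₀ v := by
      have h7 := Nat.div_add_mod (r * m) 3
      rw [hm] at h7
      rw [← h7, add_comm, pow_add, Module.End.mul_apply, e5, pow_one]
    rw [← e7, e6]
  have hk : finrank K Z0 + finrank K Z1 + finrank K Z2 ≤ fx g₀ := by
    -- the three pieces are independent
    have hd1 : Z1 ⊓ Z2 = ⊥ := by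
      rw [eq_bot_iff]
      rintro x ⟨⟨⟨hx1, -⟩, -⟩, ⟨⟨hx2, -⟩, -⟩⟩
      have h4 := m1.1 hx1
      rw [m2.1 hx2, ← sub_eq_zero, ← sub_smul, smul_eq_zero] at h4
      rcases h4 with h4 | h4
      · exfalso
        have h5 : ω = 1 := by
          have h6 : ω * (ω - 1) = 0 := by linear_combination h4
          rcases mul_eq_zero.1 h6 with h7 | h7
          · rw [h7] at hω3
            norm_num at hω3
          · exact sub_eq_zero.1 h7
        rw [h5] at hω
        apply h3
        linear_combination hω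
      · rw [h4]
        exact zero_mem _
    have hd2 : Z0 ⊓ (Z1 ⊔ Z2) = ⊥ := by
      rw [eq_bot_iff]
      rintro x ⟨⟨⟨hx0, -⟩, -⟩, hx⟩
      obtain ⟨y, hy, z, hz, rfl⟩ := Submodule.mem_sup.1 hx
      have hy1 := m1.1 hy.1.1
      have hz1 := m2.1 hz.1.1
      have hx1 := m0.1 hx0
      rw [map_add, hy1, hz1] at hx1
      have hx2 : h (ω • y + ω ^ 2 • z) = h (y + z) := by rw [hx1]
      rw [map_add, map_add, map_smul, map_smul, hy1, hz1, hx1] at hx2
      have h4 : (3 : K) • (y + z) = 0 := by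
        have h6 : (y + z) + (ω • y + ω ^ 2 • z) + (ω • ω • y + ω ^ 2 • ω ^ 2 • z) = 0 := by
          have h7 : (y + z) + (ω • y + ω ^ 2 • z) + (ω • ω • y + ω ^ 2 • ω ^ 2 • z) =
              (ω ^ 2 + ω + 1) • y + (ω ^ 4 + ω ^ 2 + 1) • z := by module
          have h8 : ω ^ 4 + ω ^ 2 + 1 = 0 := by linear_combination ω * hω3 + hω
          rw [h7, hω, h8, zero_smul, zero_smul, add_zero]
        rw [hx1, hx2] at h6
        rw [← h6]
        module
      rcases smul_eq_zero.1 h4 with h10 | h10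
      · exact absurd h10 h3
      · rw [h10]
        exact zero_mem _
    have hle : Z0 ⊔ (Z1 ⊔ Z2) ≤ LinearMap.ker (g₀ - 1) := by
      refine sup_le ?_ (sup_le ?_ ?_)
      · rintro x ⟨⟨-, h1⟩, h2⟩
        exact mem_ker_sub_one.2 (hZ x h1 h2)
      · rintro x ⟨⟨-, h1⟩, h2⟩
        exact mem_ker_sub_one.2 (hZ x h1 h2)
      · rintro x ⟨⟨-, h1⟩, h2⟩
        exact mem_ker_sub_one.2 (hZ x h1 h2)
    have h4 := Submodule.finrank_mono hle
    have h5 := Submodule.finrank_sup_add_finrank_inf_eq Z1 Z2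
    have h6 := Submodule.finrank_sup_add_finrank_inf_eq Z0 (Z1 ⊔ Z2)
    rw [hd1, finrank_bot] at h5
    rw [hd2, finrank_bot] at h6
    unfold fx
    omega
  have hv0 : fx h = finrank K V0 := rfl
  omega

theorem exists_omega (K : Type*) [Field K] [IsAlgClosed K] : ∃ ω : K, ω ^ 2 + ω + 1 = 0 := by
  obtain ⟨ω, hω⟩ := IsAlgClosed.exists_root (Polynomial.X ^ 2 + Polynomial.X + 1 : Polynomial K) (by
    have : (Polynomial.X ^ 2 + Polynomial.X + 1 : Polynomial K).degree = 2 := by compute_degree!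
    rw [this]
    norm_num)
  refine ⟨ω, ?_⟩
  simpa [Polynomial.IsRoot] using hω

/-- An element `h` of order three and an element `g` of order prime to three whose conjugates under `⟨h⟩` commute and
have product one. -/
theorem exists_of_three [IsAlgClosed K] {G : Type*} [Group G] (ρ : Representation K G V) (h g : G)
    (hh : orderOf h = 3) (hg : g ≠ 1) {r : ℕ} (hr : Nat.Coprime 3 r) (hgr : g ^ r = 1)
    (hcomm : Commute g (h * g * h⁻¹)) (hprod : g * (h * g * h⁻¹) * (h ^ 2 * g * (h ^ 2)⁻¹) = 1) :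
    ∃ x : G, x ≠ 1 ∧ finrank K V ≤ 6 * fx (ρ x) := by
  have hh3 : h ^ 3 = 1 := by rw [← hh, pow_orderOf_eq_one]
  have hh1 : h ≠ 1 := by
    rintro rfl
    rw [orderOf_one] at hh
    omega
  by_cases h3 : (3 : K) = 0
  · have : Fact (Nat.Prime 3) := ⟨Nat.prime_three⟩
    have := (CharP.charP_iff_prime_eq_zero (R := K) Nat.prime_three).2 (by exact_mod_cast h3)
    refine ⟨h, hh1, ?_⟩
    have h1 : (ρ h) ^ 3 = 1 := by rw [← map_pow, hh3, map_one]
    have h2 := finrank_le_mul_fx (p := 3) h1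
    omega
  · obtain ⟨ω, hω⟩ := exists_omega K
    set g1 := h * g * h⁻¹ with hg1
    set g2 := h ^ 2 * g * (h ^ 2)⁻¹ with hg2
    have e1 : h * g = g1 * h := by rw [hg1]; group
    have e2 : h * g1 = g2 * h := by rw [hg1, hg2, pow_two]; group
    have e3 : h * g2 = g * h := by
      have : h * g2 = h ^ 3 * g * (h ^ 3)⁻¹ * h := by rw [hg2, pow_two, pow_three]; group
      rw [this, hh3]
      group
    have c1 : g * g1 = g1 * g := hcomm
    have c2 : g1 * g2 = g2 * g1 := by
      have h4 : g2 = h * g1 * h⁻¹ := by rw [hg1, hg2, pow_two]; group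
      have h5 : h * (g * g1) * h⁻¹ = h * (g1 * g) * h⁻¹ := by rw [c1]
      calc g1 * g2 = h * (g * g1) * h⁻¹ := by rw [h4, hg1]; group
        _ = h * (g1 * g) * h⁻¹ := h5
        _ = g2 * g1 := by rw [h4, hg1]; group
    have c3 : g * g2 = g2 * g := by
      have h6 : g2 = (g * g1)⁻¹ := eq_inv_of_mul_eq_one_right hprod
      have : Commute g (g * g1)⁻¹ := ((Commute.refl g).mul_right c1).inv_right
      rw [h6]
      exact this
    have key := three_conf ω hω h3 (ρ h) (ρ g) (ρ g1) (ρ g2) (by rw [← map_pow, hh3, map_one])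
      (by rw [← map_mul, e1, map_mul]) (by rw [← map_mul, e2, map_mul]) (by rw [← map_mul, e3, map_mul])
      (by rw [← map_mul, c1, map_mul]) (by rw [← map_mul, c3, map_mul]) (by rw [← map_mul, c2, map_mul])
      (by rw [← map_mul, ← map_mul, hprod, map_one]) hr (by rw [← map_pow, hgr, map_one])
    by_contra hcon
    push Not at hcon
    have h7 := hcon h hh1
    have h8 := hcon g hg
    omega

end Cfsg.Agent.H892.ThreeConf
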