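import Mathlib
import Cfsg.Agent.H892.FixDim
import Cfsg.Agent.H892.MultOne
import Cfsg.Agent.H892.GLTorus
import Cfsg.Agent.H892.ThreeConf
import Cfsg.Agent.ClassicalGeometry.SplitTorus

/-!
# Elements of order three of `SL₂(p)`, `p ≡ 2 mod 3`, in characteristic different from `p`
-/

set_option autoImplicit false

namespace Cfsg.Agent.H892.CoprimeChar

open Module Matrix Cfsg.Agent.H892.FixDim Cfsg.Agent.H892.MultOne Cfsg.Agent.H892.GLTorus
open Cfsg.Agent.ClassicalGeometry.SplitTorus

variable {p : ℕ} [Fact p.Prime]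

/-- `SL₂(p)` -/
abbrev SS (p : ℕ) := SpecialLinearGroup (Fin 2) (ZMod p)

/-- the element of order three in the nonsplit torus -/
noncomputable def y0 (hp : 3 < p) : SS p := ⟨mat (-1 / 2) (1 / 2), by
  have h2 := two_ne_zero' hp
  rw [det_mat]
  field_simp
  norm_num⟩

theorem coe_y0 (hp : 3 < p) : ((y0 hp : SS p) : Matrix (Fin 2) (Fin 2) (ZMod p)) = mat (-1 / 2) (1 / 2) := rfl

theorem mat_mul (a b c d : ZMod p) : mat a b * mat c d = mat (a * c - 3 * (b * d)) (a * d + b * c) := by
  ext i j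
  fin_cases i <;> fin_cases j <;> simp [mat, Matrix.mul_apply, Fin.sum_univ_two] <;> ring

theorem mat_one_zero : mat (1 : ZMod p) 0 = 1 := by
  ext i j
  fin_cases i <;> fin_cases j <;> simp [mat]

theorem y0_sq (hp : 3 < p) : ((y0 hp * y0 hp : SS p) : Matrix (Fin 2) (Fin 2) (ZMod p)) = mat (-1 / 2) (-1 / 2) := by
  have h2 := two_ne_zero' hp
  change mat (-1 / 2) (1 / 2) * mat (-1 / 2) (1 / 2) = _
  rw [mat_mul]
  congr 1
  · field_simp
    ring
  · field_simp
    ring

theorem y0_pow_three (hp : 3 < p) : (y0 hp : SS p) ^ 3 = 1 := by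
  have h2 := two_ne_zero' hp
  rw [pow_succ, pow_two]
  apply Subtype.ext
  change ((y0 hp * y0 hp : SS p) : Matrix (Fin 2) (Fin 2) (ZMod p)) * mat (-1 / 2) (1 / 2) = (1 : Matrix (Fin 2) (Fin 2) (ZMod p))
  rw [y0_sq, mat_mul, ← mat_one_zero]
  congr 1
  · field_simp
    ring
  · field_simp
    ring

theorem y0_ne_one (hp : 3 < p) : (y0 hp : SS p) ≠ 1 := by
  have h2 := two_ne_zero' hp
  intro h
  have h1 : (y0 hp) 1 0 = (1 : SS p) 1 0 := by
    rw [h]
  have h5 : (1 / 2 : ZMod p) = 0 := h1
  rw [div_eq_zero_iff] at h5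
  exact h5.elim one_ne_zero h2

theorem exists_cube (h3 : p % 3 = 2) (c : (ZMod p)ˣ) : ∃ z : (ZMod p)ˣ, z ^ 3 = c := by
  have hp2 := (Fact.out : p.Prime).two_le
  have h1 : c ^ (p - 1) = 1 := ZMod.units_pow_card_sub_one_eq_one p c
  refine ⟨c ^ ((2 * p - 1) / 3), ?_⟩
  rw [← pow_mul]
  have h2 : (2 * p - 1) / 3 * 3 = (p - 1) * 2 + 1 := by omega
  rw [h2, pow_succ, pow_mul, h1, one_pow, one_mul]

/-- The elements of order dividing three in the torus. -/
theorem tor_pow_three (hp : 3 < p) (h3 : p % 3 = 2) {t : GG p} (ht : t ∈ Tor hp) (ht3 : t ^ 3 = 1) :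
    ∃ i : ℕ, t = (SpecialLinearGroup.toGL (y0 hp)) ^ i := by
  have h2 := two_ne_zero' hp
  have h3' := three_ne_zero' hp
  have hm := coe_eq_mat hp ht
  set a := t 0 0 with ha
  set b := t 1 0 with hb
  have h4 : (t : Matrix (Fin 2) (Fin 2) (ZMod p)) * t * t = 1 := by
    have := congrArg (fun x : GG p => (x : Matrix (Fin 2) (Fin 2) (ZMod p))) ht3
    simp only [Units.val_pow_eq_pow_val, Units.val_one] at this
    rw [← this, pow_succ, pow_two]
  rw [hm, mat_mul, mat_mul, ← mat_one_zero] at h4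
  have e0 := congrFun (congrFun h4 0) 0
  have e1 := congrFun (congrFun h4 1) 0
  simp [mat] at e0 e1
  have e2 : b * (a - b) * (a + b) = 0 := by
    have : 3 * (b * (a - b) * (a + b)) = 0 := by linear_combination e1
    exact (mul_eq_zero.1 this).resolve_left h3'
  rcases mul_eq_zero.1 e2 with e3 | e3
  · rcases mul_eq_zero.1 e3 with e4 | e4
    · refine ⟨0, ?_⟩
      rw [pow_zero]
      apply Units.ext
      rw [hm, e4, Units.val_one, ← mat_one_zero]
      congr 1
      apply eq_one_of_pow_three h3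
      rw [e4] at e0
      linear_combination e0
    · refine ⟨2, ?_⟩
      have hab : a = b := sub_eq_zero.1 e4
      have h5 : (-2 * a) ^ 3 = 1 := by
        rw [← hab] at e0
        linear_combination e0
      have h6 := eq_one_of_pow_three h3 h5
      have h7 : a = -1 / 2 := by
        rw [eq_div_iff h2]
        linear_combination -h6
      rw [pow_two, ← map_mul]
      apply Units.ext
      change (t : Matrix (Fin 2) (Fin 2) (ZMod p)) = ((y0 hp * y0 hp : SS p) : Matrix (Fin 2) (Fin 2) (ZMod p))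
      rw [hm, y0_sq, ← hab, h7]
  · refine ⟨1, ?_⟩
    have hab : b = -a := by linear_combination e3
    have h5 : (-2 * a) ^ 3 = 1 := by
      rw [hab] at e0
      linear_combination e0
    have h6 := eq_one_of_pow_three h3 h5
    have h7 : a = -1 / 2 := by
      rw [eq_div_iff h2]
      linear_combination -h6
    rw [pow_one]
    apply Units.ext
    change (t : Matrix (Fin 2) (Fin 2) (ZMod p)) = ((y0 hp : SS p) : Matrix (Fin 2) (Fin 2) (ZMod p))
    rw [hm, coe_y0, hab, h7]
    congr 1
    ring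

theorem y0_mem_Tor (hp : 3 < p) : SpecialLinearGroup.toGL (y0 hp) ∈ Tor hp := by
  rw [mem_Tor]
  exact ⟨rfl, rfl⟩

section rep

variable {K U : Type*} [Field K] [AddCommGroup U] [Module K U] [FiniteDimensional K U]

theorem irr_bound [IsAlgClosed K] (hp : 3 < p) (h3 : p % 3 = 2) (ρ : Representation K (GG p) U)
    (hirr : Irr ρ) [Nontrivial U] :
    finrank K U ≤ fx (ρ (SpecialLinearGroup.toGL (y0 hp))) + 2 * ((p + 1) / 3) := by
  set y := SpecialLinearGroup.toGL (y0 hp) with hy
  have hy3 : y ^ 3 = 1 := by rw [hy, ← map_pow, y0_pow_three, map_one]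
  obtain ⟨⟨θ, hθT⟩, hθ⟩ := (tor_isCyclic hp h3).exists_generator
  have hpow : ∀ t ∈ Tor hp, ∃ k : ℕ, t = θ ^ k := by
    intro t ht
    have h1 := hθ ⟨t, ht⟩
    rw [← mem_powers_iff_mem_zpowers] at h1
    obtain ⟨k, hk⟩ := h1
    exact ⟨k, (congrArg Subtype.val hk).symm⟩
  have hdim : ∀ μ : K, finrank K (LinearMap.ker (ρ θ - μ • (1 : Module.End K U))) ≤ 1 := by
    intro μ
    apply finrank_eigenspace_le_one ρ hirr (star hp) (star_mul hp) (star_surjective hp) θ
    intro g
    obtain ⟨t, ht, htg⟩ := exists_star hp h3 g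
    obtain ⟨k, hk⟩ := hpow t ht
    exact ⟨k, by rw [← hk]; exact htg⟩
  set n := (p + 1) / 3 with hn
  have hn0 : 0 < n := by omega
  have hn3 : n * 3 = p + 1 := by omega
  obtain ⟨c, hc⟩ := tor_pow hp h3 hθT
  obtain ⟨z, hz⟩ := exists_cube h3 c
  have hscal : ∀ k : ℕ, (scal z : GG p) ^ k = scal (z ^ k) := fun k => by
    rw [scal, scal, map_pow]
  have hcomm : ∀ g : GG p, Commute (scal z)⁻¹ g := fun g => by
    have : Commute (scal z) g := scal_comm z g
    exact this.inv_left
  obtain ⟨i, hi⟩ := tor_pow_three hp h3 (t := (scal z)⁻¹ * θ ^ n) (by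
      apply mul_mem
      · apply inv_mem
        rw [Tor, Subgroup.mem_centralizer_singleton_iff]
        exact scal_comm z _
      · exact pow_mem hθT n) (by
      rw [(hcomm _).mul_pow, ← pow_mul, hn3, inv_pow, hscal, hz, hc, inv_mul_cancel])
  have hφ : θ ^ n = scal z * y ^ i := by
    rw [← hi, mul_inv_cancel_left]
  obtain ⟨lam, hlam⟩ := schur ρ hirr (ρ (scal z)) (by
    intro g v
    rw [← Module.End.mul_apply, ← map_mul, scal_comm, map_mul, Module.End.mul_apply])
  have hE : ∀ μ : K, finrank K (LinearMap.ker (ρ y - μ • (1 : Module.End K U))) ≤ n := by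
    intro μ
    have h1 := finrank_ker_aeval_le (ρ θ) hdim n (Polynomial.X ^ n - Polynomial.C (lam * μ ^ i))
      (Polynomial.X_pow_sub_C_ne_zero hn0 _) (Polynomial.natDegree_X_pow_sub_C)
    refine le_trans (Submodule.finrank_mono ?_) h1
    intro v hv
    have hv' : ρ y v = μ • v := by
      rw [LinearMap.mem_ker, LinearMap.sub_apply, LinearMap.smul_apply, Module.End.one_apply, sub_eq_zero] at hv
      exact hv
    have hk : ∀ k : ℕ, ρ (y ^ k) v = μ ^ k • v := by
      intro k
      induction k with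
      | zero => simp
      | succ k ih =>
        rw [pow_succ, map_mul, Module.End.mul_apply, hv', map_smul, ih, smul_smul, pow_succ, mul_comm]
    rw [LinearMap.mem_ker, map_sub, map_pow, Polynomial.aeval_X, Polynomial.aeval_C,
      Algebra.algebraMap_eq_smul_one, LinearMap.sub_apply, LinearMap.smul_apply, Module.End.one_apply,
      ← map_pow, hφ, map_mul, Module.End.mul_apply, hk, hlam, smul_smul, sub_self]
  obtain ⟨ω, hω⟩ := ThreeConf.exists_omega K
  have hprod : (ρ y - (ω ^ 2) • (1 : Module.End K U)) ∘ₗ ((ρ y - ω • (1 : Module.End K U)) ∘ₗ (ρ y - 1)) = 0 := by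
    have hf3 : ρ y * (ρ y * ρ y) = 1 := by
      rw [← map_mul, ← map_mul, ← pow_three, hy3, map_one]
    have h1 : (ρ y - (ω ^ 2) • (1 : Module.End K U)) * ((ρ y - ω • (1 : Module.End K U)) * (ρ y - 1)) = 0 := by
      simp only [sub_mul, mul_sub, smul_mul_assoc, mul_smul_comm, one_mul, mul_one]
      rw [hf3]
      have h3 : ω * ω ^ 2 = 1 := by linear_combination (ω - 1) * hω
      have e3 : ω ^ 2 = -1 - ω := by linear_combination hω
      simp only [smul_sub, smul_smul, h3]
      rw [e3]
      module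
    exact h1
  have h1 := finrank_ker_comp_le (ρ y - (ω ^ 2) • (1 : Module.End K U))
    ((ρ y - ω • (1 : Module.End K U)) ∘ₗ (ρ y - 1))
  have h2 := finrank_ker_comp_le (ρ y - ω • (1 : Module.End K U)) (ρ y - 1)
  rw [hprod, LinearMap.ker_zero, finrank_top] at h1
  have h4 := hE ω
  have h5 := hE (ω ^ 2)
  unfold fx
  omega

/-- diagonal elements -/
noncomputable def dd (c : (ZMod p)ˣ) : GG p where
  val := !![(c : ZMod p), 0; 0, 1]
  inv := !![((c⁻¹ : (ZMod p)ˣ) : ZMod p), 0; 0, 1]
  val_inv := by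
    rw [Matrix.mul_fin_two, Matrix.one_fin_two, Units.mul_inv]
    simp only [mul_zero, zero_mul, add_zero, mul_one, zero_add]
  inv_val := by
    rw [Matrix.mul_fin_two, Matrix.one_fin_two, Units.inv_mul]
    simp only [mul_zero, zero_mul, add_zero, mul_one, zero_add]

theorem coe_dd (c : (ZMod p)ˣ) : ((dd c : GG p) : Matrix (Fin 2) (Fin 2) (ZMod p)) = !![(c : ZMod p), 0; 0, 1] := rfl

theorem coe_dd_inv (c : (ZMod p)ˣ) : (((dd c)⁻¹ : GG p) : Matrix (Fin 2) (Fin 2) (ZMod p)) =
    !![((c⁻¹ : (ZMod p)ˣ) : ZMod p), 0; 0, 1] := rfl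

theorem dd_mul (a b : (ZMod p)ˣ) : (dd (a * b) : GG p) = dd a * dd b := by
  apply Units.ext
  rw [Units.val_mul, coe_dd, coe_dd, coe_dd]
  ext i j
  fin_cases i <;> fin_cases j <;> simp [Matrix.mul_apply, Fin.sum_univ_two]

theorem up_pow (b : ZMod p) (k : ℕ) : (up b : SS p) ^ k = up (k * b) := by
  induction k with
  | zero => simp [up_zero]
  | succ k ih =>
    rw [pow_succ, ih, ← up_add]
    congr 1
    push_cast
    ring

theorem dd_conj_up (c : (ZMod p)ˣ) : dd c * SpecialLinearGroup.toGL (up 1) * (dd c)⁻¹ =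
    (SpecialLinearGroup.toGL (up 1) : GG p) ^ (c : ZMod p).val := by
  rw [← map_pow, up_pow, ZMod.natCast_zmod_val, mul_one, mul_inv_eq_iff_eq_mul]
  apply Units.ext
  rw [Units.val_mul, Units.val_mul, coe_dd]
  ext i j
  fin_cases i <;> fin_cases j <;> simp [Matrix.mul_apply, Fin.sum_univ_two]

theorem toGL_up_pow : (SpecialLinearGroup.toGL (up (1 : ZMod p)) : GG p) ^ p = 1 := by
  rw [← map_pow, up_pow, CharP.cast_eq_zero, zero_mul, up_zero, map_one]

theorem big_of_ne_one [IsAlgClosed K] (hK : (p : K) ≠ 0) (ρ : Representation K (GG p) U)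
    (h : ρ (SpecialLinearGroup.toGL (up 1)) ≠ 1) : p - 1 ≤ finrank K U := by
  set u := ρ (SpecialLinearGroup.toGL (up 1)) with hu
  have hup : u ^ p = 1 := by rw [hu, ← map_pow, toGL_up_pow, map_one]
  set W := LinearMap.range (u - 1) with hW
  have hWne : W ≠ ⊥ := by
    intro h1
    rw [hW, LinearMap.range_eq_bot, sub_eq_zero] at h1
    exact h h1
  have hWinv : ∀ w ∈ W, u w ∈ W := by
    rintro _ ⟨v, rfl⟩
    refine ⟨u v, ?_⟩
    simp
  have hWnt : Nontrivial W := Submodule.nontrivial_iff_ne_bot.2 hWne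
  obtain ⟨ζ, hζ⟩ := Module.End.exists_eigenvalue (u.restrict hWinv)
  obtain ⟨⟨v, hvW⟩, hv⟩ := hζ.exists_hasEigenvector
  have hv0 : v ≠ 0 := by
    intro h1
    apply hv.2
    exact Subtype.ext h1
  have huv : u v = ζ • v := by
    have := hv.apply_eq_smul
    exact congrArg Subtype.val this
  have hkv : ∀ k : ℕ, (u ^ k) v = ζ ^ k • v := by
    intro k
    induction k with
    | zero => simp
    | succ k ih => rw [pow_succ, Module.End.mul_apply, huv, map_smul, ih, smul_smul, pow_succ, mul_comm]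
  have hζp : ζ ^ p = 1 := by
    have h1 := hkv p
    rw [hup, Module.End.one_apply] at h1
    have h2 : (ζ ^ p - 1) • v = 0 := by rw [sub_smul, one_smul, ← h1, sub_self]
    exact sub_eq_zero.1 ((smul_eq_zero.1 h2).resolve_right hv0)
  have hζ1 : ζ ≠ 1 := by
    rintro rfl
    obtain ⟨w, hw⟩ := hvW
    have h1 : (∑ k ∈ Finset.range p, u ^ k) v = 0 := by
      rw [← hw, ← Module.End.mul_apply, geom_sum_mul, hup, sub_self, LinearMap.zero_apply]
    rw [LinearMap.sum_apply] at h1
    simp only [hkv, one_pow, one_smul, Finset.sum_const, Finset.card_range] at h1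
    rw [← Nat.cast_smul_eq_nsmul K] at h1
    exact hv0 ((smul_eq_zero.1 h1).resolve_left hK)
  have hprim : IsPrimitiveRoot ζ p := by
    rw [← orderOf_eq_prime hζp hζ1]
    exact IsPrimitiveRoot.orderOf ζ
  -- the eigenvectors
  have hvec : ∀ c : (ZMod p)ˣ, Module.End.HasEigenvector u (ζ ^ (c : ZMod p).val) (ρ (dd c)⁻¹ v) := by
    intro c
    rw [Module.End.hasEigenvector_iff, Module.End.mem_eigenspace_iff]
    constructor
    · have h1 : u (ρ (dd c)⁻¹ v) = ρ (dd c)⁻¹ ((u ^ (c : ZMod p).val) v) := by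
        rw [hu, ← map_pow, ← Module.End.mul_apply, ← Module.End.mul_apply, ← map_mul, ← map_mul, ← dd_conj_up]
        congr 2
        group
      rw [h1, hkv, map_smul]
    · intro h1
      apply hv0
      have h2 : ρ (dd c) (ρ (dd c)⁻¹ v) = v := by
        rw [← Module.End.mul_apply, ← map_mul, mul_inv_cancel, map_one, Module.End.one_apply]
      rw [h1, map_zero] at h2
      exact h2.symm
  have hinj : Function.Injective (fun c : (ZMod p)ˣ => ζ ^ (c : ZMod p).val) := by
    intro c d hcd
    have := hprim.pow_inj (ZMod.val_lt _) (ZMod.val_lt _) hcd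
    exact Units.ext (ZMod.val_injective p this)
  have hli := Module.End.eigenvectors_linearIndependent' u _ hinj _ hvec
  have := hli.fintype_card_le_finrank
  rwa [ZMod.card_units] at this

omit [FiniteDimensional K U] in
theorem y0_of_eq_one (ρ : Representation K (SS p) U) (h : ρ (up 1) = 1) (g : SS p) : ρ g = 1 := by
  have h1 : ∀ b : ZMod p, ρ (up b) = 1 := by
    intro b
    have : up b = (up 1 : SS p) ^ b.val := by
      rw [up_pow, ZMod.natCast_zmod_val, mul_one]
    rw [this, map_pow, h, one_pow]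
  have h2 : ∀ b : ZMod p, ρ (lo b) = 1 := by
    intro b
    rw [← wl_mul_up, map_mul, map_mul, h1, mul_one, ← map_mul, mul_inv_cancel, map_one]
  have h3 := mem_of_up_lo (MonoidHom.ker ρ) (fun b => MonoidHom.mem_ker.2 (h1 b)) (fun b => MonoidHom.mem_ker.2 (h2 b)) g
  exact MonoidHom.mem_ker.1 h3

end rep

universe u v

theorem gl_bound {K : Type u} [Field K] [IsAlgClosed K] (hp : 11 ≤ p) (h3 : p % 3 = 2) (hK : (p : K) ≠ 0)
    (hK3 : (3 : K) ≠ 0) (n : ℕ) : ∀ (U : Type v) [AddCommGroup U] [Module K U] [FiniteDimensional K U]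
    (ρ : Representation K (GG p) U), finrank K U = n →
    finrank K U ≤ 6 * fx (ρ (SpecialLinearGroup.toGL (y0 (by omega)))) := by
  have hp3 : 3 < p := by omega
  induction n using Nat.strong_induction_on with
  | _ n ih =>
    intro U _ _ _ ρ hn
    by_cases hirr : Irr ρ
    · rcases subsingleton_or_nontrivial U with hU | hU
      · rw [Module.finrank_zero_of_subsingleton]
        exact Nat.zero_le _
      · by_cases h1 : ρ (SpecialLinearGroup.toGL (up 1)) = 1
        · have h2 := y0_of_eq_one (ρ.comp SpecialLinearGroup.toGL) h1 (y0 hp3)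
          have h4 : ρ (SpecialLinearGroup.toGL (y0 hp3)) = 1 := h2
          rw [h4, fx_one]
          omega
        · have h2 := big_of_ne_one hK ρ h1
          have h4 := irr_bound hp3 h3 ρ hirr
          omega
    · unfold Irr at hirr
      push Not at hirr
      obtain ⟨W, hW, hW1, hW2⟩ := hirr
      have h1 := fx_add (n := 3) (by exact_mod_cast hK3) (ρ (SpecialLinearGroup.toGL (y0 hp3)))
        (by rw [← map_pow, ← map_pow, y0_pow_three, map_one, map_one]) W (hW _)
      have h2 := Submodule.finrank_quotient_add_finrank W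
      have h4 : 0 < finrank K W := by
        rw [Module.finrank_pos_iff]
        exact Submodule.nontrivial_iff_ne_bot.2 hW1
      have h5 : finrank K W < finrank K U := Submodule.finrank_lt hW2
      have h6 := ih (finrank K W) (by omega) W (ρ.subrepresentation W hW) rfl
      have h7 := ih (finrank K (U ⧸ W)) (by omega) (U ⧸ W) (ρ.quotient W hW) rfl
      have h8 : (ρ.subrepresentation W hW) (SpecialLinearGroup.toGL (y0 hp3)) =
        (ρ (SpecialLinearGroup.toGL (y0 hp3))).restrict (hW _) := rfl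
      have h9 : (ρ.quotient W hW) (SpecialLinearGroup.toGL (y0 hp3)) =
        W.mapQ W (ρ (SpecialLinearGroup.toGL (y0 hp3))) (hW _) := rfl
      rw [h8] at h6
      rw [h9] at h7
      omega

/-! ### Induction from `SL₂(p)` to `GL₂(p)` -/

theorem det_dd (c : (ZMod p)ˣ) : GeneralLinearGroup.det (dd c : GG p) = c := by
  apply Units.ext
  change ((dd c : GG p) : Matrix (Fin 2) (Fin 2) (ZMod p)).det = _
  rw [coe_dd, det_fin_two_of]
  ring

theorem exists_sl {g : GG p} (h : GeneralLinearGroup.det g = 1) : ∃ s : SS p, SpecialLinearGroup.toGL s = g :=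
  ⟨⟨g, congrArg Units.val h⟩, Units.ext rfl⟩

theorem toGL_inj {a b : SS p} (h : (SpecialLinearGroup.toGL a : GG p) = SpecialLinearGroup.toGL b) : a = b := by
  apply Subtype.ext
  exact congrArg (fun x : GG p => (x : Matrix (Fin 2) (Fin 2) (ZMod p))) h

theorem det_coc (g : GG p) (c : (ZMod p)ˣ) :
    GeneralLinearGroup.det ((dd c)⁻¹ * g * dd ((GeneralLinearGroup.det g)⁻¹ * c)) = 1 := by
  rw [map_mul, map_mul, map_inv, det_dd, det_dd]
  group

/-- the cocycle -/
noncomputable def coc (g : GG p) (c : (ZMod p)ˣ) : SS p := (exists_sl (det_coc g c)).choose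

theorem toGL_coc (g : GG p) (c : (ZMod p)ˣ) :
    SpecialLinearGroup.toGL (coc g c) = (dd c)⁻¹ * g * dd ((GeneralLinearGroup.det g)⁻¹ * c) :=
  (exists_sl (det_coc g c)).choose_spec

theorem coc_mul (g h : GG p) (c : (ZMod p)ˣ) :
    coc (g * h) c = coc g c * coc h ((GeneralLinearGroup.det g)⁻¹ * c) := by
  apply toGL_inj
  rw [map_mul, toGL_coc, toGL_coc, toGL_coc, map_mul, _root_.mul_inv_rev, mul_assoc (GeneralLinearGroup.det h)⁻¹]
  group

theorem coc_one (c : (ZMod p)ˣ) : coc (1 : GG p) c = 1 := by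
  apply toGL_inj
  rw [toGL_coc, map_one, map_one, inv_one, one_mul, mul_one, inv_mul_cancel]

/-- The induced representation. -/
noncomputable def indRep {K U : Type*} [Field K] [AddCommGroup U] [Module K U] (ρ : Representation K (SS p) U) :
    Representation K (GG p) ((ZMod p)ˣ → U) where
  toFun g :=
    { toFun := fun f c => ρ (coc g c) (f ((GeneralLinearGroup.det g)⁻¹ * c))
      map_add' := fun f f' => by
        funext c
        simp only [Pi.add_apply, map_add]
      map_smul' := fun a f => by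
        funext c
        simp only [Pi.smul_apply, map_smul, RingHom.id_apply] }
  map_one' := by
    ext f c
    simp [coc_one]
  map_mul' g h := by
    apply LinearMap.ext
    intro f
    funext c
    change ρ (coc (g * h) c) (f ((GeneralLinearGroup.det (g * h))⁻¹ * c)) =
      ρ (coc g c) (ρ (coc h ((GeneralLinearGroup.det g)⁻¹ * c))
        (f ((GeneralLinearGroup.det h)⁻¹ * ((GeneralLinearGroup.det g)⁻¹ * c))))
    rw [coc_mul, map_mul, Module.End.mul_apply, map_mul, _root_.mul_inv_rev, mul_assoc]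

theorem indRep_apply {K U : Type*} [Field K] [AddCommGroup U] [Module K U] (ρ : Representation K (SS p) U)
    (g : GG p) (f : (ZMod p)ˣ → U) (c : (ZMod p)ˣ) :
    indRep ρ g f c = ρ (coc g c) (f ((GeneralLinearGroup.det g)⁻¹ * c)) := rfl

/-- `coc y₀ c` is conjugate to `y₀`. -/
theorem exists_conj_coc (hp : 3 < p) (h3 : p % 3 = 2) (c : (ZMod p)ˣ) :
    ∃ s : SS p, coc (SpecialLinearGroup.toGL (y0 hp)) c = s * y0 hp * s⁻¹ := by
  obtain ⟨t, ht, htc⟩ := exists_det hp h3 c
  have hdet : GeneralLinearGroup.det ((dd c)⁻¹ * t) = 1 := by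
    rw [map_mul, map_inv, det_dd]
    have : GeneralLinearGroup.det t = c := Units.ext htc
    rw [this, inv_mul_cancel]
  obtain ⟨s, hs⟩ := exists_sl hdet
  refine ⟨s, ?_⟩
  apply toGL_inj
  have h1 : GeneralLinearGroup.det (SpecialLinearGroup.toGL (y0 hp) : GG p) = 1 := by
    apply Units.ext
    exact (y0 hp).2
  have h2 : t * SpecialLinearGroup.toGL (y0 hp) = SpecialLinearGroup.toGL (y0 hp) * t := by
    have := tor_isCyclic hp h3
    have hc : IsMulCommutative (Tor hp (p := p)) := IsCyclic.isMulCommutative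
    exact congrArg Subtype.val (hc.is_comm.comm ⟨t, ht⟩ ⟨_, y0_mem_Tor hp⟩)
  rw [toGL_coc, map_mul, map_mul, map_inv, hs, h1, inv_one, one_mul, _root_.mul_inv_rev, inv_inv]
  calc (dd c)⁻¹ * SpecialLinearGroup.toGL (y0 hp) * dd c
      = (dd c)⁻¹ * (SpecialLinearGroup.toGL (y0 hp) * t) * (t⁻¹ * dd c) := by group
    _ = (dd c)⁻¹ * t * SpecialLinearGroup.toGL (y0 hp) * (t⁻¹ * dd c) := by rw [← h2]; group

/-- **The coprime case.** -/
theorem coprime_case {K : Type u} {U : Type v} [Field K] [IsAlgClosed K] [AddCommGroup U] [Module K U]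
    [FiniteDimensional K U] (hp : 11 ≤ p) (h3 : p % 3 = 2) (hK : (p : K) ≠ 0) (ρ : Representation K (SS p) U) :
    finrank K U ≤ 6 * fx (ρ (y0 (by omega))) := by
  have hp3 : 3 < p := by omega
  by_cases hK3 : (3 : K) = 0
  · have : CharP K 3 := by
      have h1 : ((3 : ℕ) : K) = 0 := by exact_mod_cast hK3
      exact (CharP.charP_iff_prime_eq_zero (by norm_num)).2 h1
    have : Fact (Nat.Prime 3) := ⟨by norm_num⟩
    have h1 := finrank_le_mul_fx (p := 3) (f := ρ (y0 hp3)) (by rw [← map_pow, y0_pow_three, map_one])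
    omega
  · have h1 := gl_bound hp h3 hK hK3 _ ((ZMod p)ˣ → U) (indRep ρ) rfl
    have hdet : GeneralLinearGroup.det (SpecialLinearGroup.toGL (y0 hp3) : GG p) = 1 := by
      apply Units.ext
      exact (y0 hp3).2
    have h2 : fx (indRep ρ (SpecialLinearGroup.toGL (y0 hp3))) ≤ (p - 1) * fx (ρ (y0 hp3)) := by
      let F : LinearMap.ker (indRep ρ (SpecialLinearGroup.toGL (y0 hp3)) - 1) →ₗ[K]
          ((c : (ZMod p)ˣ) → LinearMap.ker (ρ (coc (SpecialLinearGroup.toGL (y0 hp3)) c) - 1)) :=
        { toFun := fun f c => ⟨f.1 c, by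
            have h4 := mem_ker_sub_one.1 f.2
            rw [mem_ker_sub_one]
            have h5 := congrFun h4 c
            rw [indRep_apply, hdet, inv_one, one_mul] at h5
            exact h5⟩
          map_add' := fun f f' => rfl
          map_smul' := fun a f => rfl }
      have hF : Function.Injective F := by
        intro f f' hff
        apply Subtype.ext
        funext c
        exact congrArg Subtype.val (congrFun hff c)
      have h4 := LinearMap.finrank_le_finrank_of_injective hF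
      rw [Module.finrank_pi_fintype] at h4
      have h5 : ∀ c : (ZMod p)ˣ, finrank K (LinearMap.ker (ρ (coc (SpecialLinearGroup.toGL (y0 hp3)) c) - 1)) =
          fx (ρ (y0 hp3)) := by
        intro c
        obtain ⟨s, hs⟩ := exists_conj_coc hp3 h3 c
        rw [hs, map_mul, map_mul]
        have := fx_conj (ρ (y0 hp3)) (ρ s) (ρ s⁻¹) (by rw [← map_mul, mul_inv_cancel, map_one])
          (by rw [← map_mul, inv_mul_cancel, map_one])
        exact this
      simp only [h5, Finset.sum_const, Finset.card_univ, ZMod.card_units, smul_eq_mul] at h4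
      exact h4
    rw [Module.finrank_pi_fintype] at h1
    simp only [Finset.sum_const, Finset.card_univ, ZMod.card_units, smul_eq_mul] at h1
    have h6 : (p - 1) * finrank K U ≤ (p - 1) * (6 * fx (ρ (y0 hp3))) := by
      calc _ ≤ _ := h1
        _ ≤ 6 * ((p - 1) * fx (ρ (y0 hp3))) := Nat.mul_le_mul_left _ h2
        _ = _ := by ring
    exact Nat.le_of_mul_le_mul_left h6 (by omega)

end Cfsg.Agent.H892.CoprimeChar
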