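import Mathlib
import Cfsg.Agent.H892.FixDim
import Cfsg.Agent.H892.CoprimeChar
import Cfsg.Agent.ClassicalGeometry.SplitTorus

/-!
# Invariant functionals of modules for `SL₂(p)` in characteristic `p`

A functional that is invariant under the upper unipotent group and is multiplied by the `-c`-th power under the split
torus gives a map to homogeneous functions of degree `c` on row vectors.
-/

set_option autoImplicit false

namespace Cfsg.Agent.H892.RowQuot

open Module Matrix Cfsg.Agent.H892.FixDim Cfsg.Agent.H892.CoprimeChar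
open Cfsg.Agent.ClassicalGeometry.SplitTorus

variable {p : ℕ} [Fact p.Prime]

/-- the matrix with second row `(1, b)` -/
def gam (b : ZMod p) : SS p := ⟨!![0, -1; 1, b], by rw [det_fin_two_of]; ring⟩

@[simp] theorem gam00 (b : ZMod p) : (gam b) 0 0 = 0 := rfl
@[simp] theorem gam01 (b : ZMod p) : (gam b) 0 1 = -1 := rfl
@[simp] theorem gam10 (b : ZMod p) : (gam b) 1 0 = 1 := rfl
@[simp] theorem gam11 (b : ZMod p) : (gam b) 1 1 = b := rfl

theorem gam_mul_up (b t : ZMod p) : gam b * up t = gam (b + t) := by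
  apply ext2
  · rw [mul00]; simp
  · rw [mul01]; simp
  · rw [mul10]; simp
  · rw [mul11]; simp [add_comm]

/-- elements with the same second row differ by an upper transvection -/
theorem exists_up {g h : SS p} (h10 : g 1 0 = h 1 0) (h11 : g 1 1 = h 1 1) : ∃ z, g = up z * h := by
  have hg := det_eq g
  have hh := det_eq h
  refine ⟨g 0 1 * h 0 0 - g 0 0 * h 0 1, ?_⟩
  apply ext2
  · rw [mul00, up00, up01]
    rw [h10, h11] at hg
    linear_combination (h 0 0) * hg - (g 0 0) * hh
  · rw [mul01, up00, up01]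
    rw [h10, h11] at hg
    linear_combination (h 0 1) * hg - (g 0 1) * hh
  · rw [mul10, up10, up11, h10]
    ring
  · rw [mul11, up10, up11, h11]
    ring

variable {K V : Type*} [Field K] [AddCommGroup V] [Module K V]

/-- A functional invariant under the upper unipotent group and of weight `-c`. -/
structure IsRow (a : ZMod p →+* K) (ρ : Representation K (SS p) V) (l : Module.Dual K V) (c : ℕ) : Prop where
  up_inv : ∀ b v, l (ρ (up b) v) = l v
  dg_act : ∀ (t : (ZMod p)ˣ) v, l (ρ (dg t)⁻¹ v) = a t ^ c * l v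

variable {a : ZMod p →+* K} {ρ : Representation K (SS p) V} {l : Module.Dual K V} {c : ℕ}

theorem IsRow.congr (h : IsRow a ρ l c) {g g' : SS p} (h10 : g 1 0 = g' 1 0) (h11 : g 1 1 = g' 1 1) (v : V) :
    l (ρ g v) = l (ρ g' v) := by
  obtain ⟨z, rfl⟩ := exists_up h10 h11
  rw [map_mul, Module.End.mul_apply, h.up_inv]

theorem IsRow.eval_smul (h : IsRow a ρ l c) {g g' : SS p} (t : (ZMod p)ˣ) (h10 : g 1 0 = t * g' 1 0)
    (h11 : g 1 1 = t * g' 1 1) (v : V) : l (ρ g v) = a t ^ c * l (ρ g' v) := by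
  rw [← h.dg_act, ← Module.End.mul_apply, ← map_mul, ← dg_inv]
  apply h.congr
  · rw [mul10, h10]
    simp
  · rw [mul11, h11]
    simp

theorem IsRow.eval_of_ne (h : IsRow a ρ l c) (g : SS p) (hx : g 1 0 ≠ 0) (v : V) :
    l (ρ g v) = a (g 1 0) ^ c * l (ρ (gam (g 1 1 / g 1 0)) v) := by
  have := h.eval_smul (g := g) (g' := gam (g 1 1 / g 1 0)) (Units.mk0 _ hx) (by simp) (by
    rw [gam11, Units.val_mk0]
    field_simp) v
  exact this

theorem IsRow.eval_of_eq (h : IsRow a ρ l c) (g : SS p) (hx : g 1 0 = 0) (v : V) :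
    l (ρ g v) = a (g 1 1) ^ c * l v := by
  have hg := det_eq g
  have hy : g 1 1 ≠ 0 := by
    intro h0
    rw [h0, hx] at hg
    simp at hg
  have := h.eval_smul (g := g) (g' := 1) (Units.mk0 _ hy) (by
    rw [hx]
    change _ = _ * (1 : Matrix (Fin 2) (Fin 2) (ZMod p)) 1 0
    simp) (by
    change _ = _ * (1 : Matrix (Fin 2) (Fin 2) (ZMod p)) 1 1
    simp) v
  rw [map_one, Module.End.one_apply] at this
  exact this

theorem sum_eq_units {M : Type*} [AddCommMonoid M] (f : ZMod p → M) : ∑ b, f b = f 0 + ∑ u : (ZMod p)ˣ, f u := by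
  classical
  rw [Fintype.sum_eq_add_sum_subtype_ne f 0]
  congr 1
  exact (Fintype.sum_equiv unitsEquivNeZero _ _ fun u => rfl).symm

/-- the auxiliary matrix -/
def gal (α : ZMod p) : SS p := ⟨!![0, 1; -1, α], by rw [det_fin_two_of]; ring⟩

@[simp] theorem gal00 (b : ZMod p) : (gal b) 0 0 = 0 := rfl
@[simp] theorem gal01 (b : ZMod p) : (gal b) 0 1 = 1 := rfl
@[simp] theorem gal10 (b : ZMod p) : (gal b) 1 0 = -1 := rfl
@[simp] theorem gal11 (b : ZMod p) : (gal b) 1 1 = b := rfl

theorem IsRow.sum_gal (h : IsRow a ρ l c) (hc : c < p - 1) (hS : ∀ v, ∑ b, l (ρ (gam b) v) = 0) (α : ZMod p) (v : V) :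
    l v + ∑ b, (a (b + α)) ^ (p - 1 - c) * l (ρ (gam b) v) = 0 := by
  have h1 := hS (ρ (gal α) v)
  have h2 : ∀ b, l (ρ (gam b) (ρ (gal α) v)) = l (ρ (gam b * gal α) v) := fun b => by
    rw [map_mul, Module.End.mul_apply]
  simp only [h2] at h1
  rw [sum_eq_units] at h1
  have h3 : l (ρ (gam 0 * gal α) v) = l v := by
    rw [h.eval_of_eq (gam 0 * gal α) (by rw [mul10]; simp), mul11]
    simp
  have h4 : ∀ u : (ZMod p)ˣ, l (ρ (gam (u : ZMod p) * gal α) v) =
      a (-(u : ZMod p)) ^ c * l (ρ (gam (-((u⁻¹ : (ZMod p)ˣ) : ZMod p) - α)) v) := by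
    intro u
    have hu : (u : ZMod p) ≠ 0 := u.ne_zero
    have e1 : (gam (u : ZMod p) * gal α) 1 0 = -(u : ZMod p) := by
      rw [mul10]; simp
    have e2 : (gam (u : ZMod p) * gal α) 1 1 = 1 + u * α := by
      rw [mul11]; simp
    rw [h.eval_of_ne _ (by rw [e1]; exact neg_ne_zero.2 hu), e1, e2]
    congr 5
    rw [Units.val_inv_eq_inv_val]
    field_simp
    ring
  rw [h3] at h1
  simp only [h4] at h1
  rw [← h1]
  congr 1
  have h5 : ∑ b, (a (b + α)) ^ (p - 1 - c) * l (ρ (gam b) v) =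
      ∑ b, (a b) ^ (p - 1 - c) * l (ρ (gam (b - α)) v) := by
    rw [← Equiv.sum_comp (Equiv.addRight α) (fun b => (a b) ^ (p - 1 - c) * l (ρ (gam (b - α)) v))]
    refine Finset.sum_congr rfl fun b _ => ?_
    simp
  rw [h5, sum_eq_units, map_zero, zero_pow (by omega), zero_mul, zero_add]
  refine Fintype.sum_equiv ((Equiv.inv (ZMod p)ˣ).trans (Equiv.neg (ZMod p)ˣ)) _ _ fun u => ?_
  have e3 : (((Equiv.inv (ZMod p)ˣ).trans (Equiv.neg (ZMod p)ˣ)) u) = -u⁻¹ := rfl
  rw [e3, Units.val_neg]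
  have hu : a (u : ZMod p) ≠ 0 := by
    rw [Ne, map_eq_zero]
    exact u.ne_zero
  have e4 : (-((-u⁻¹)⁻¹ : (ZMod p)ˣ) : ZMod p) = u := by
    rw [inv_neg, inv_inv, Units.val_neg, neg_neg]
  rw [e4, neg_neg]
  have e5 : (a (u : ZMod p)) ^ (p - 1) = 1 := by
    rw [← map_pow, ZMod.pow_card_sub_one_eq_one u.ne_zero, map_one]
  have e6 : a ((u⁻¹ : (ZMod p)ˣ) : ZMod p) ^ c * a (u : ZMod p) ^ c = 1 := by
    rw [← mul_pow, ← map_mul, Units.inv_mul, map_one, one_pow]
  have e7 : (a (u : ZMod p)) ^ (p - 1 - c) * a (u : ZMod p) ^ c = 1 := by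
    rw [← pow_add]
    have : p - 1 - c + c = p - 1 := by omega
    rw [this, e5]
  have e8 : (a (u : ZMod p)) ^ (p - 1 - c) = a ((u⁻¹ : (ZMod p)ˣ) : ZMod p) ^ c :=
    mul_right_cancel₀ (pow_ne_zero c hu) (e7.trans e6.symm)
  rw [e8]

theorem choose_ne_zero [CharP K p] {m k : ℕ} (hm : m < p) (hk : k ≤ m) : ((m.choose k : ℕ) : K) ≠ 0 := by
  rw [Ne, CharP.cast_eq_zero_iff K p]
  intro h
  have h1 : p ∣ m.factorial := by
    rw [← Nat.choose_mul_factorial_mul_factorial hk, mul_assoc]
    exact h.mul_right _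
  rw [(Fact.out : p.Prime).dvd_factorial] at h1
  omega

section poly

open Polynomial

theorem IsRow.poly_eq_zero [CharP K p] (h : IsRow a ρ l c) (hc : c < p - 1)
    (hS : ∀ v, ∑ b, l (ρ (gam b) v) = 0) (v : V) :
    C (l v) + ∑ b, C (l (ρ (gam b) v)) * (X + C (a b)) ^ (p - 1 - c) = 0 := by
  have hp := (Fact.out : p.Prime).two_le
  refine Polynomial.eq_zero_of_natDegree_lt_card_of_eval_eq_zero _ (f := a) a.injective ?_ ?_
  · intro α
    have h1 := h.sum_gal hc hS α v
    rw [← h1]
    simp only [eval_add, eval_C, eval_finsetSum, eval_mul, eval_pow, eval_X]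
    congr 1
    refine Finset.sum_congr rfl fun b _ => ?_
    rw [← map_add, add_comm α b, mul_comm]
  · rw [ZMod.card]
    apply lt_of_le_of_lt (b := p - 1 - c)
    · apply (natDegree_add_le _ _).trans
      rw [natDegree_C]
      apply max_le (Nat.zero_le _)
      apply natDegree_sum_le_of_forall_le
      intro b _
      apply (natDegree_C_mul_le _ _).trans
      rw [natDegree_pow, natDegree_X_add_C, mul_one]
    · omega

theorem IsRow.moment [CharP K p] (h : IsRow a ρ l c) (hc : c < p - 1)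
    (hS : ∀ v, ∑ b, l (ρ (gam b) v) = 0) (v : V) {k : ℕ} (hk : k < p - 1 - c) :
    ∑ b, a b ^ k * l (ρ (gam b) v) = 0 := by
  have h1 := congrArg (fun Q : K[X] => Q.coeff (p - 1 - c - k)) (h.poly_eq_zero hc hS v)
  simp only [coeff_add, finsetSum_coeff, coeff_C_mul, coeff_X_add_C_pow, coeff_zero] at h1
  rw [coeff_C_of_ne_zero (by omega), zero_add] at h1
  have h2 : p - 1 - c - (p - 1 - c - k) = k := by omega
  rw [h2] at h1
  have h3 := choose_ne_zero (K := K) (p := p) (m := p - 1 - c) (k := p - 1 - c - k) (by omega) (by omega)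
  apply mul_right_cancel₀ h3
  rw [zero_mul, ← h1, Finset.sum_mul]
  refine Finset.sum_congr rfl fun b _ => ?_
  ring

theorem IsRow.moment_top [CharP K p] (h : IsRow a ρ l c) (hc : c < p - 1)
    (hS : ∀ v, ∑ b, l (ρ (gam b) v) = 0) (v : V) :
    ∑ b, a b ^ (p - 1 - c) * l (ρ (gam b) v) = - l v := by
  have h1 := congrArg (fun Q : K[X] => Q.coeff 0) (h.poly_eq_zero hc hS v)
  simp only [coeff_add, finsetSum_coeff, coeff_C_mul, coeff_X_add_C_pow, coeff_zero, coeff_C_zero] at h1
  rw [eq_neg_iff_add_eq_zero, add_comm, ← h1]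
  congr 1
  refine Finset.sum_congr rfl fun b _ => ?_
  simp
  ring

/-- the interpolating polynomial -/
noncomputable def AA (a : ZMod p →+* K) (ρ : Representation K (SS p) V) (l : Module.Dual K V) : V →ₗ[K] K[X] where
  toFun v := ∑ b, C (l (ρ (gam b) v)) * (1 - (X + C (a (-b))) ^ (p - 1))
  map_add' v w := by
    simp only [map_add, add_mul, Finset.sum_add_distrib]
  map_smul' r v := by
    simp only [map_smul, smul_eq_mul, C_mul, RingHom.id_apply, Finset.smul_sum, smul_eq_C_mul, mul_assoc]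

theorem AA_apply (v : V) : AA a ρ l v = ∑ b, C (l (ρ (gam b) v)) * (1 - (X + C (a (-b))) ^ (p - 1)) := rfl

theorem AA_eval (v : V) (b : ZMod p) : (AA a ρ l v).eval (a b) = l (ρ (gam b) v) := by
  have hp := (Fact.out : p.Prime).two_le
  rw [AA_apply, eval_finsetSum, Finset.sum_eq_single b]
  · simp only [eval_mul, eval_C, eval_sub, eval_one, eval_pow, eval_add, eval_X, ← map_add, add_neg_cancel, map_zero]
    rw [zero_pow (by omega), sub_zero, mul_one]
  · intro d _ hd
    simp only [eval_mul, eval_C, eval_sub, eval_one, eval_pow, eval_add, eval_X, ← map_add, ← map_pow]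
    rw [ZMod.pow_card_sub_one_eq_one, map_one, sub_self, mul_zero]
    intro h
    apply hd
    rw [← sub_eq_add_neg, sub_eq_zero] at h
    exact h.symm
  · intro h
    exact absurd (Finset.mem_univ _) h

theorem AA_natDegree_lt (v : V) : (AA a ρ l v).natDegree < p := by
  have hp := (Fact.out : p.Prime).two_le
  rw [AA_apply]
  apply lt_of_le_of_lt (b := p - 1)
  · apply natDegree_sum_le_of_forall_le
    intro b _
    apply (natDegree_C_mul_le _ _).trans
    apply (natDegree_sub_le _ _).trans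
    rw [natDegree_one, natDegree_pow, natDegree_X_add_C, mul_one]
    exact max_le (Nat.zero_le _) le_rfl
  · omega

theorem IsRow.AA_natDegree_le [CharP K p] (h : IsRow a ρ l c) (hc : c < p - 1)
    (hS : ∀ v, ∑ b, l (ρ (gam b) v) = 0) (v : V) : (AA a ρ l v).natDegree ≤ c := by
  rw [Polynomial.natDegree_le_iff_coeff_eq_zero]
  intro j hj
  by_cases hjp : p ≤ j
  · exact coeff_eq_zero_of_natDegree_lt (lt_of_lt_of_le (AA_natDegree_lt v) hjp)
  · rw [AA_apply, finsetSum_coeff]
    simp only [coeff_C_mul, coeff_sub, coeff_X_add_C_pow]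
    rw [coeff_one, if_neg (by omega)]
    have h1 := h.moment hc hS v (k := p - 1 - j) (by omega)
    have h2 : ∀ b, l (ρ (gam b) v) * (0 - a (-b) ^ (p - 1 - j) * (((p - 1).choose j : ℕ) : K)) =
        (-(-1) ^ (p - 1 - j) * (((p - 1).choose j : ℕ) : K)) * (a b ^ (p - 1 - j) * l (ρ (gam b) v)) := by
      intro b
      rw [map_neg, neg_pow]
      ring
    simp only [h2]
    rw [← Finset.mul_sum, h1, mul_zero]

theorem IsRow.AA_coeff [CharP K p] (h : IsRow a ρ l c) (hc : c < p - 1)
    (hS : ∀ v, ∑ b, l (ρ (gam b) v) = 0) (v : V) : (AA a ρ l v).coeff c = l v := by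
  have h1 := h.moment_top hc hS v
  have h2 : ∀ b, l (ρ (gam b) v) = ∑ j ∈ Finset.range (c + 1), (AA a ρ l v).coeff j * a b ^ j := by
    intro b
    rw [← AA_eval (a := a), eval_eq_sum_range' (Nat.lt_succ_of_le (h.AA_natDegree_le hc hS v))]
  have h3 : ∑ b, a b ^ (p - 1 - c) * l (ρ (gam b) v) =
      ∑ j ∈ Finset.range (c + 1), (AA a ρ l v).coeff j * ∑ b : ZMod p, a b ^ (p - 1 - c + j) := by
    simp only [h2, Finset.mul_sum]
    rw [Finset.sum_comm]
    refine Finset.sum_congr rfl fun j _ => Finset.sum_congr rfl fun b _ => ?_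
    rw [pow_add]
    ring
  have h4 : ∀ i, i < p - 1 → ∑ b : ZMod p, a b ^ i = 0 := by
    intro i hi
    have := FiniteField.sum_pow_lt_card_sub_one (K := ZMod p) i (by rw [ZMod.card]; exact hi)
    simp only [← map_pow]
    rw [← map_sum, this, map_zero]
  have h5 : ∑ b : ZMod p, a b ^ (p - 1) = -1 := by
    have hp := (Fact.out : p.Prime).two_le
    rw [sum_eq_units, map_zero, zero_pow (by omega), zero_add]
    have : ∀ u : (ZMod p)ˣ, a (u : ZMod p) ^ (p - 1) = 1 := fun u => by
      rw [← map_pow, ZMod.pow_card_sub_one_eq_one u.ne_zero, map_one]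
    simp only [this, Finset.sum_const, Finset.card_univ, ZMod.card_units, nsmul_eq_mul, mul_one]
    rw [Nat.cast_sub (by omega), CharP.cast_eq_zero, Nat.cast_one, zero_sub]
  rw [h3, Finset.sum_range_succ, Finset.sum_eq_zero, zero_add] at h1
  · have h6 : p - 1 - c + c = p - 1 := by omega
    rw [h6, h5, mul_neg, mul_one, neg_inj] at h1
    exact h1
  · intro j hj
    rw [Finset.mem_range] at hj
    rw [h4 _ (by omega), mul_zero]

/-- homogenisation -/
noncomputable def hom (c : ℕ) (A : K[X]) (x y : K) : K := ∑ j ∈ Finset.range (c + 1), A.coeff j * x ^ (c - j) * y ^ j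

theorem hom_of_ne {A : K[X]} (hA : A.natDegree ≤ c) {x y : K} (hx : x ≠ 0) :
    hom c A x y = x ^ c * A.eval (y / x) := by
  rw [hom, eval_eq_sum_range' (Nat.lt_succ_of_le hA), Finset.mul_sum]
  refine Finset.sum_congr rfl fun j hj => ?_
  have hj' : j ≤ c := Nat.lt_succ_iff.1 (Finset.mem_range.1 hj)
  have h1 : x ^ c = x ^ (c - j) * x ^ j := by rw [← pow_add, Nat.sub_add_cancel hj']
  rw [h1, div_pow]
  field_simp

theorem hom_zero {A : K[X]} (y : K) : hom c A 0 y = y ^ c * A.coeff c := by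
  rw [hom, Finset.sum_range_succ, Finset.sum_eq_zero]
  · simp [mul_comm]
  · intro j hj
    rw [Finset.mem_range] at hj
    rw [zero_pow (by omega)]
    ring

theorem IsRow.eval_hom [CharP K p] (h : IsRow a ρ l c) (hc : c < p - 1)
    (hS : ∀ v, ∑ b, l (ρ (gam b) v) = 0) (v : V) (g : SS p) :
    l (ρ g v) = hom c (AA a ρ l v) (a (g 1 0)) (a (g 1 1)) := by
  by_cases hx : g 1 0 = 0
  · rw [h.eval_of_eq g hx, hx, map_zero, hom_zero, h.AA_coeff hc hS]
  · rw [h.eval_of_ne g hx, hom_of_ne (h.AA_natDegree_le hc hS v) (by rwa [Ne, map_eq_zero]), ← map_div₀, AA_eval]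

theorem AA_up (v : V) : AA a ρ l (ρ (up 1) v) = taylor 1 (AA a ρ l v) := by
  rw [← sub_eq_zero]
  refine Polynomial.eq_zero_of_natDegree_lt_card_of_eval_eq_zero _ (f := a) a.injective ?_ ?_
  · intro b
    rw [eval_sub, AA_eval, taylor_apply, eval_comp, eval_add, eval_X, eval_C, ← map_one a, ← map_add, AA_eval,
      ← Module.End.mul_apply, ← map_mul, gam_mul_up, sub_self]
  · rw [ZMod.card]
    apply lt_of_le_of_lt (natDegree_sub_le _ _)
    rw [natDegree_taylor]
    exact max_lt (AA_natDegree_lt _) (AA_natDegree_lt _)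

theorem delta_spec {A : K[X]} {k : ℕ} (hA : A.natDegree = k + 1) (hk : ((k + 1 : ℕ) : K) ≠ 0) :
    (taylor 1 A - A).natDegree = k ∧ taylor 1 A - A ≠ 0 := by
  have hA0 : A.coeff (k + 1) ≠ 0 := by
    rw [← hA]
    apply leadingCoeff_ne_zero.2
    rintro rfl
    simp at hA
  have h1 : (taylor 1 A - A).coeff k ≠ 0 := by
    rw [coeff_sub, taylor_coeff, eval_eq_sum_range' (n := 2), Finset.sum_range_succ, Finset.sum_range_one]
    · simp only [hasseDeriv_coeff, one_pow, mul_one, zero_add, Nat.choose_self, Nat.cast_one, one_mul]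
      rw [add_comm 1 k, Nat.choose_succ_self_right, add_sub_cancel_left]
      exact mul_ne_zero hk hA0
    · have := natDegree_hasseDeriv_le A k
      omega
  have h2 : (taylor 1 A - A).natDegree ≤ k := by
    rw [natDegree_le_iff_coeff_eq_zero]
    intro j hj
    rw [coeff_sub]
    rcases Nat.lt_or_ge (k + 1) j with h3 | h3
    · rw [coeff_eq_zero_of_natDegree_lt (p := A) (by omega),
        coeff_eq_zero_of_natDegree_lt (by rw [natDegree_taylor]; omega), sub_zero]
    · have h4 : j = A.natDegree := by omega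
      rw [h4, coeff_taylor_natDegree, leadingCoeff, sub_self]
  refine ⟨le_antisymm h2 (le_natDegree_of_ne_zero h1), ?_⟩
  intro h
  rw [h, coeff_zero] at h1
  exact h1 rfl

theorem IsRow.delta_pow [CharP K p] (h : IsRow a ρ l c) (hc : c < p - 1)
    (hS : ∀ v, ∑ b, l (ρ (gam b) v) = 0) {v : V} (hv : l v ≠ 0) {k : ℕ} (hk : k ≤ c) :
    (AA a ρ l (((ρ (up 1) - 1) ^ k) v)).natDegree = c - k ∧ AA a ρ l (((ρ (up 1) - 1) ^ k) v) ≠ 0 := by
  induction k with
  | zero =>
    have h1 := h.AA_coeff hc hS v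
    have h2 := h.AA_natDegree_le hc hS v
    rw [pow_zero, Module.End.one_apply]
    have h3 : (AA a ρ l v).coeff c ≠ 0 := by rwa [h1]
    refine ⟨le_antisymm h2 (le_natDegree_of_ne_zero h3), ?_⟩
    intro h4
    rw [h4, coeff_zero] at h3
    exact h3 rfl
  | succ k ih =>
    obtain ⟨h1, h2⟩ := ih (by omega)
    rw [pow_succ', Module.End.mul_apply, LinearMap.sub_apply, Module.End.one_apply, map_sub, AA_up]
    have h3 := delta_spec (A := AA a ρ l (((ρ (up 1) - 1) ^ k) v)) (k := c - (k + 1)) (by rw [h1]; omega) (by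
      rw [Ne, CharP.cast_eq_zero_iff K p]
      intro h4
      have := Nat.le_of_dvd (by omega) h4
      omega)
    exact h3

/-- Every polynomial of degree at most `c` occurs. -/
theorem IsRow.AA_surj [CharP K p] (h : IsRow a ρ l c) (hc : c < p - 1)
    (hS : ∀ v, ∑ b, l (ρ (gam b) v) = 0) {v : V} (hv : l v ≠ 0) (k : ℕ) (hk : k ≤ c) :
    ∀ A : K[X], A.natDegree ≤ k → ∃ w, AA a ρ l w = A := by
  have key : ∀ (k : ℕ), k ≤ c → ∀ A : K[X], A.natDegree ≤ k →
      ∃ (w : V) (r : K), (A - r • AA a ρ l w).natDegree ≤ k - 1 ∧ (k = 0 → A - r • AA a ρ l w = 0) := by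
    intro k hk A hA
    obtain ⟨h1, h2⟩ := h.delta_pow hc hS hv (k := c - k) (by omega)
    set B := AA a ρ l (((ρ (up 1) - 1) ^ (c - k)) v) with hB
    have h3 : B.natDegree = k := by rw [h1]; omega
    have h4 : B.coeff k ≠ 0 := by
      rw [← h3]
      exact leadingCoeff_ne_zero.2 h2
    refine ⟨((ρ (up 1) - 1) ^ (c - k)) v, A.coeff k / B.coeff k, ?_, ?_⟩
    · rw [← hB, natDegree_le_iff_coeff_eq_zero]
      intro j hj
      rw [coeff_sub, coeff_smul, smul_eq_mul]
      rcases Nat.lt_or_ge k j with h5 | h5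
      · rw [coeff_eq_zero_of_natDegree_lt (p := A) (n := j) (by omega), coeff_eq_zero_of_natDegree_lt (p := B) (n := j) (by omega)]
        ring
      · have h6 : j = k := by omega
        rw [h6]
        field_simp
        ring
    · intro hk0
      subst hk0
      rw [← hB]
      apply Polynomial.ext
      intro j
      rw [coeff_sub, coeff_smul, smul_eq_mul, coeff_zero]
      rcases Nat.lt_or_ge 0 j with h5 | h5
      · rw [coeff_eq_zero_of_natDegree_lt (p := A) (n := j) (by omega), coeff_eq_zero_of_natDegree_lt (p := B) (n := j) (by omega)]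
        ring
      · have h6 : j = 0 := by omega
        rw [h6]
        field_simp
        ring
  induction k with
  | zero =>
    intro A hA
    obtain ⟨w, r, _, h2⟩ := key 0 hk A hA
    refine ⟨r • w, ?_⟩
    rw [map_smul]
    exact (sub_eq_zero.1 (h2 rfl)).symm
  | succ k ih =>
    intro A hA
    obtain ⟨w, r, h1, _⟩ := key (k + 1) hk A hA
    obtain ⟨w', hw'⟩ := ih (by omega) _ (by simpa using h1)
    refine ⟨w' + r • w, ?_⟩
    rw [map_add, map_smul, hw']
    ring

end poly

/-! ### The quotient -/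

/-- The kernel of the map to homogeneous functions. -/
def WW (ρ : Representation K (SS p) V) (l : Module.Dual K V) : Submodule K V := ⨅ g, LinearMap.ker (l ∘ₗ ρ g)

omit [Fact p.Prime] in
theorem mem_WW {v : V} : v ∈ WW ρ l ↔ ∀ g, l (ρ g v) = 0 := by
  rw [WW, Submodule.mem_iInf]
  rfl

omit [Fact p.Prime] in
theorem WW_inv (h : SS p) : WW ρ l ≤ (WW ρ l).comap (ρ h) := by
  intro v hv
  rw [Submodule.mem_comap, mem_WW]
  intro g
  rw [← Module.End.mul_apply, ← map_mul]
  exact mem_WW.1 hv _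

theorem fx_eq_card {ι X : Type*} [Finite ι] [AddCommGroup X] [Module K X]
    (b : Basis ι K X) (f : X →ₗ[K] X) (lam : ι → K) (hf : ∀ i, f (b i) = lam i • b i) :
    fx f = Nat.card {i // lam i = 1} := by
  classical
  have := Fintype.ofFinite ι
  have hfd : FiniteDimensional K X := b.finiteDimensional_of_finite
  have h1 := fx_add_range f
  have h2 : LinearMap.toMatrix b b (f - 1) = Matrix.diagonal (fun i => lam i - 1) := by
    ext i j
    have h5 : (f - 1) (b j) = (lam j - 1) • b j := by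
      rw [LinearMap.sub_apply, Module.End.one_apply, hf, sub_smul, one_smul]
    rw [LinearMap.toMatrix_apply, h5, map_smul, Finsupp.smul_apply, b.repr_self, Matrix.diagonal_apply, smul_eq_mul]
    by_cases hij : i = j
    · subst hij
      simp
    · rw [Finsupp.single_eq_of_ne hij, if_neg hij, mul_zero]
  have h3 := Matrix.rank_eq_finrank_range_toLin (LinearMap.toMatrix b b (f - 1)) b b
  rw [Matrix.toLin_toMatrix, h2, Matrix.rank_diagonal] at h3
  rw [← h3, finrank_eq_card_basis b] at h1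
  rw [Nat.card_eq_fintype_card]
  have h4 : Fintype.card {i // lam i = 1} + Fintype.card {i // lam i - 1 ≠ 0} = Fintype.card ι := by
    have h6 := Fintype.card_subtype_compl (fun i => lam i = 1)
    have h7 := Fintype.card_subtype_le (fun i => lam i = 1)
    have h8 : Fintype.card {i // lam i - 1 ≠ 0} = Fintype.card {i // ¬ lam i = 1} := by
      apply Fintype.card_congr
      exact Equiv.subtypeEquivRight fun i => by rw [sub_ne_zero]
    omega
  omega

section quot

open Polynomial

variable [FiniteDimensional K V]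

omit [FiniteDimensional K V] in
theorem IsRow.mem_WW_iff [CharP K p] (h : IsRow a ρ l c) (hc : c < p - 1)
    (hS : ∀ v, ∑ b, l (ρ (gam b) v) = 0) (v : V) : v ∈ WW ρ l ↔ AA a ρ l v = 0 := by
  rw [mem_WW]
  constructor
  · intro h1
    rw [AA_apply]
    apply Finset.sum_eq_zero
    intro b _
    rw [h1, C_0, zero_mul]
  · intro h1 g
    rw [h.eval_hom hc hS, h1, hom]
    simp

omit [FiniteDimensional K V] in
theorem IsRow.range_AA [CharP K p] (h : IsRow a ρ l c) (hc : c < p - 1)
    (hS : ∀ v, ∑ b, l (ρ (gam b) v) = 0) {v : V} (hv : l v ≠ 0) :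
    LinearMap.range (AA a ρ l) = degreeLT K (c + 1) := by
  ext A
  rw [mem_degreeLT]
  constructor
  · rintro ⟨w, rfl⟩
    have h1 := h.AA_natDegree_le hc hS w
    exact lt_of_le_of_lt degree_le_natDegree (by exact_mod_cast Nat.lt_succ_of_le h1)
  · intro hA
    have h1 : A.natDegree ≤ c := by
      by_cases hA0 : A = 0
      · rw [hA0]
        simp
      · rw [degree_eq_natDegree hA0] at hA
        exact Nat.lt_succ_iff.1 (by exact_mod_cast hA)
    exact h.AA_surj hc hS hv c le_rfl A h1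

omit [Fact p.Prime] in
theorem finrank_degreeLT (n : ℕ) : finrank K (degreeLT K n) = n := by
  rw [(degreeLTEquiv K n).finrank_eq, Module.finrank_fin_fun]

theorem IsRow.finrank_quot [CharP K p] (h : IsRow a ρ l c) (hc : c < p - 1)
    (hS : ∀ v, ∑ b, l (ρ (gam b) v) = 0) {v : V} (hv : l v ≠ 0) : finrank K (V ⧸ WW ρ l) = c + 1 := by
  have h1 := LinearMap.finrank_range_add_finrank_ker (AA a ρ l)
  rw [h.range_AA hc hS hv, finrank_degreeLT] at h1
  have h2 := Submodule.finrank_quotient_add_finrank (WW ρ l)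
  have h3 : LinearMap.ker (AA a ρ l) = WW ρ l := by
    ext w
    rw [LinearMap.mem_ker, h.mem_WW_iff hc hS]
  rw [h3] at h1
  omega

theorem hom_smul (r : K) (A : K[X]) (x y : K) : hom c (r • A) x y = r * hom c A x y := by
  rw [hom, hom, Finset.mul_sum]
  refine Finset.sum_congr rfl fun j _ => ?_
  rw [coeff_smul, smul_eq_mul]
  ring

theorem IsRow.fx_quot [CharP K p] (h : IsRow a ρ l c) (hc : c < p - 1)
    (hS : ∀ v, ∑ b, l (ρ (gam b) v) = 0) {v : V} (hv : l v ≠ 0) {k : SS p} {μ : K}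
    (A : Fin (c + 1) → K[X]) (hdeg : ∀ i, (A i).natDegree ≤ c) (hli : LinearIndependent K A)
    (lam : Fin (c + 1) → K)
    (heig : ∀ i (x y : ZMod p), hom c (A i) (a (x * k 0 0 + y * k 1 0)) (a (x * k 0 1 + y * k 1 1)) =
      lam i * hom c (A i) (a x) (a y)) {f : V →ₗ[K] V} (hf : f = μ • ρ k) (hW : WW ρ l ≤ (WW ρ l).comap f) :
    fx ((WW ρ l).mapQ (WW ρ l) f hW) = Nat.card {i // μ * lam i = 1} := by
  subst hf
  choose w hw using fun i => h.AA_surj hc hS hv c le_rfl (A i) (hdeg i)
  have hlix : LinearIndependent K (fun i => (WW ρ l).mkQ (w i)) := by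
    rw [Fintype.linearIndependent_iff]
    intro g hg
    rw [Fintype.linearIndependent_iff] at hli
    apply hli g
    have h1 : (WW ρ l).mkQ (∑ i, g i • w i) = 0 := by
      rw [map_sum, ← hg]
      refine Finset.sum_congr rfl fun i _ => ?_
      rw [map_smul]
    rw [Submodule.mkQ_apply, Submodule.Quotient.mk_eq_zero, h.mem_WW_iff hc hS, map_sum] at h1
    rw [← h1]
    refine Finset.sum_congr rfl fun i _ => ?_
    rw [map_smul, hw]
  let b := basisOfLinearIndependentOfCardEqFinrank hlix (by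
    rw [h.finrank_quot hc hS hv, Fintype.card_fin])
  refine fx_eq_card b _ _ fun i => ?_
  have hb : b i = (WW ρ l).mkQ (w i) := by
    rw [coe_basisOfLinearIndependentOfCardEqFinrank]
  rw [hb, Submodule.mkQ_apply, Submodule.mapQ_apply, ← Submodule.Quotient.mk_smul, Submodule.Quotient.eq, mem_WW]
  intro g
  rw [map_sub, map_sub, LinearMap.smul_apply, map_smul, map_smul, map_smul, map_smul, ← Module.End.mul_apply, ← map_mul,
    h.eval_hom hc hS, h.eval_hom hc hS, hw, mul10, mul11]
  have h1 := heig i (g 1 0) (g 1 1)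
  rw [h1, smul_eq_mul, smul_eq_mul]
  ring

end quot

end Cfsg.Agent.H892.RowQuot
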