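import Mathlib
import Cfsg.Agent.H892.RowQuot

/-!
# Fixed points of the element of order three on the quotients defined by invariant functionals
-/

set_option autoImplicit false

namespace Cfsg.Agent.H892.QuotBounds

open Module Matrix Cfsg.Agent.H892.FixDim Cfsg.Agent.H892.CoprimeChar Cfsg.Agent.H892.RowQuot
open Cfsg.Agent.H892.GLTorus
open Cfsg.Agent.ClassicalGeometry.SplitTorus

variable {p : ℕ} [Fact p.Prime]

theorem exists_theta (hp : 3 < p) (h3 : p % 3 = 2) : ∃ θ ∈ Tor hp (p := p), (∀ t ∈ Tor hp, ∃ k : ℕ, t = θ ^ k) ∧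
    ∃ (z : (ZMod p)ˣ) (i : ℕ), θ ^ ((p + 1) / 3) = scal z * SpecialLinearGroup.toGL (y0 hp) ^ i := by
  obtain ⟨⟨θ, hθT⟩, hθ⟩ := (tor_isCyclic hp h3).exists_generator
  refine ⟨θ, hθT, ?_, ?_⟩
  · intro t ht
    have h1 := hθ ⟨t, ht⟩
    rw [← mem_powers_iff_mem_zpowers] at h1
    obtain ⟨k, hk⟩ := h1
    exact ⟨k, (congrArg Subtype.val hk).symm⟩
  · set n := (p + 1) / 3 with hn
    have hn3 : n * 3 = p + 1 := by omega
    obtain ⟨c, hc⟩ := tor_pow hp h3 hθT
    obtain ⟨z, hz⟩ := exists_cube h3 c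
    have hscal : ∀ k : ℕ, (scal z : GG p) ^ k = scal (z ^ k) := fun k => by
      rw [scal, scal, map_pow]
    have hcomm : ∀ g : GG p, Commute (scal z)⁻¹ g := fun g => by
      have : Commute (scal z) g := scal_comm z g
      exact this.inv_left
    obtain ⟨i, hi⟩ := tor_pow_three hp h3 (t := (scal z)⁻¹ * θ ^ n) (by
        apply mul_mem
        · apply inv_mem
          rw [Tor, Subgroup.mem_centralizer_singleton_iff]
          exact scal_comm z _
        · exact pow_mem hθT n) (by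
        rw [(hcomm _).mul_pow, ← pow_mul, hn3, inv_pow, hscal, hz, hc, inv_mul_cancel])
    refine ⟨z, i, ?_⟩
    rw [← hi, mul_inv_cancel_left]

theorem det_norm (M : GG p) : GeneralLinearGroup.det ((dd (GeneralLinearGroup.det M))⁻¹ * M) = 1 := by
  rw [map_mul, map_inv, det_dd, inv_mul_cancel]

/-- the matrix of determinant one with the same second row -/
noncomputable def sl (M : GG p) : SS p := (exists_sl (det_norm M)).choose

theorem toGL_sl (M : GG p) : SpecialLinearGroup.toGL (sl M) = (dd (GeneralLinearGroup.det M))⁻¹ * M :=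
  (exists_sl (det_norm M)).choose_spec

theorem sl_one (M : GG p) (j : Fin 2) : sl M 1 j = M 1 j := by
  have h1 : (SpecialLinearGroup.toGL (sl M) : GG p) 1 j = ((dd (GeneralLinearGroup.det M))⁻¹ * M : GG p) 1 j := by
    rw [toGL_sl]
  have h2 : (SpecialLinearGroup.toGL (sl M) : GG p) 1 j = sl M 1 j := rfl
  rw [← h2, h1, Units.val_mul, coe_dd_inv, Matrix.mul_apply, Fin.sum_univ_two]
  simp

variable {K V : Type*} [Field K] [AddCommGroup V] [Module K V]
variable {a : ZMod p →+* K} {ρ : Representation K (SS p) V} {l : Module.Dual K V} {c : ℕ}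

theorem psi_scal (h : IsRow a ρ l c) (M : GG p) (z : (ZMod p)ˣ) (v : V) :
    l (ρ (sl (M * scal z)) v) = a z ^ c * l (ρ (sl M) v) := by
  have h1 : ∀ j, (M * scal z : GG p) 1 j = z * M 1 j := by
    intro j
    rw [Units.val_mul, coe_scal, Matrix.mul_apply, Fin.sum_univ_two]
    fin_cases j <;> simp [mul_comm]
  apply h.eval_smul
  · rw [sl_one, sl_one, h1]
  · rw [sl_one, sl_one, h1]

theorem psi_mul (h : IsRow a ρ l c) (M : GG p) (g : SS p) (v : V) :
    l (ρ (sl (M * SpecialLinearGroup.toGL g)) v) = l (ρ (sl M) (ρ g v)) := by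
  rw [← Module.End.mul_apply, ← map_mul]
  have h1 : ∀ j, (M * SpecialLinearGroup.toGL g : GG p) 1 j = M 1 0 * g 0 j + M 1 1 * g 1 j := by
    intro j
    rw [Units.val_mul, Matrix.mul_apply, Fin.sum_univ_two]
    rfl
  apply h.congr
  · rw [sl_one, h1, mul10, sl_one, sl_one]
  · rw [sl_one, h1, mul11, sl_one, sl_one]

/-- A vector which is an eigenvector for `y₀` modulo `WW` is determined by few values. -/
theorem eigen_zero (h : IsRow a ρ l c) (hp : 3 < p) (h3 : p % 3 = 2) {θ : GG p}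
    (hθ : ∀ t ∈ Tor hp, ∃ k : ℕ, t = θ ^ k) {z : (ZMod p)ˣ} {i : ℕ}
    (hz : θ ^ ((p + 1) / 3) = scal z * SpecialLinearGroup.toGL (y0 hp) ^ i) {μ : K} {v : V}
    (hv : ∀ g, l (ρ g (ρ (y0 hp) v)) = μ * l (ρ g v))
    (h0 : ∀ k < (p + 1) / 3, l (ρ (sl (θ ^ k)) v) = 0) (g : SS p) : l (ρ g v) = 0 := by
  have hpow : ∀ (i : ℕ) (M : GG p), l (ρ (sl (M * SpecialLinearGroup.toGL (y0 hp) ^ i)) v) = μ ^ i * l (ρ (sl M) v) := by
    intro i
    induction i with
    | zero => intro M; simp
    | succ i ih =>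
      intro M
      rw [pow_succ, ← mul_assoc, psi_mul h, hv, ih, pow_succ]
      ring
  have hall : ∀ k : ℕ, l (ρ (sl (θ ^ k)) v) = 0 := by
    intro k
    induction k using Nat.strong_induction_on with
    | _ k ih =>
      by_cases hk : k < (p + 1) / 3
      · exact h0 k hk
      · have h1 : θ ^ k = θ ^ (k - (p + 1) / 3) * SpecialLinearGroup.toGL (y0 hp) ^ i * scal z := by
          have h2 : k = k - (p + 1) / 3 + (p + 1) / 3 := by omega
          conv_lhs => rw [h2]
          rw [pow_add, hz, scal_comm, mul_assoc]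
        rw [h1, psi_scal h, hpow, ih _ (by omega), mul_zero, mul_zero]
  have hrow : ¬ (g 1 1 = 0 ∧ g 1 0 = 0) := by
    rintro ⟨h1, h2⟩
    have := det_eq g
    rw [h1, h2] at this
    simp at this
  obtain ⟨t, ht, htm⟩ := exists_tor hp h3 hrow
  obtain ⟨k, hk⟩ := hθ t ht
  have h1 := hall k
  rw [← hk] at h1
  rw [← h1]
  apply h.congr
  · rw [sl_one, htm]
    rfl
  · rw [sl_one, htm]
    rfl

theorem finrank_eigen_le (h : IsRow a ρ l c) (hp : 3 < p) (h3 : p % 3 = 2) (μ : K) (hW : WW ρ l ≤ (WW ρ l).comap (ρ (y0 hp))) :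
    finrank K (LinearMap.ker ((WW ρ l).mapQ (WW ρ l) (ρ (y0 hp)) hW - μ • (1 : Module.End K (V ⧸ WW ρ l)))) ≤ (p + 1) / 3 := by
  obtain ⟨θ, _, hθ, z, i, hz⟩ := exists_theta hp h3 (p := p)
  let L : (V ⧸ WW ρ l) →ₗ[K] (Fin ((p + 1) / 3) → K) :=
    (WW ρ l).liftQ (LinearMap.pi fun k => l ∘ₗ ρ (sl (θ ^ (k : ℕ)))) (by
      intro v hv
      rw [LinearMap.mem_ker]
      funext k
      exact mem_WW.1 hv _)
  have hL : Function.Injective (L ∘ₗ (LinearMap.ker ((WW ρ l).mapQ (WW ρ l) (ρ (y0 hp)) hW -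
      μ • (1 : Module.End K (V ⧸ WW ρ l)))).subtype) := by
    rw [← LinearMap.ker_eq_bot, eq_bot_iff]
    rintro ⟨x, hx⟩ hx'
    obtain ⟨v, rfl⟩ := (WW ρ l).mkQ_surjective x
    rw [LinearMap.mem_ker, LinearMap.sub_apply, LinearMap.smul_apply, Module.End.one_apply, Submodule.mkQ_apply,
      Submodule.mapQ_apply, ← Submodule.Quotient.mk_smul, ← Submodule.Quotient.mk_sub, Submodule.Quotient.mk_eq_zero,
      mem_WW] at hx
    have hx2 : ∀ k : Fin ((p + 1) / 3), l (ρ (sl (θ ^ (k : ℕ))) v) = 0 := fun k => congrFun hx' k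
    have hv : v ∈ WW ρ l := by
      rw [mem_WW]
      refine eigen_zero h hp h3 hθ hz (μ := μ) (fun g => ?_) (fun k hk => hx2 ⟨k, hk⟩)
      have := hx g
      rw [map_sub, map_sub, map_smul, map_smul, sub_eq_zero] at this
      exact this
    rw [Submodule.mem_bot]
    apply Subtype.ext
    change (WW ρ l).mkQ v = 0
    rwa [Submodule.mkQ_apply, Submodule.Quotient.mk_eq_zero]
  have := LinearMap.finrank_le_finrank_of_injective hL
  rwa [Module.finrank_fin_fun] at this

variable [FiniteDimensional K V]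

/-- The general bound for the fixed points of `y₀` on the quotient. -/
theorem finrank_quot_le [IsAlgClosed K] (h : IsRow a ρ l c) (hp : 3 < p) (h3 : p % 3 = 2)
    (hW : WW ρ l ≤ (WW ρ l).comap (ρ (y0 hp))) :
    finrank K (V ⧸ WW ρ l) ≤ fx ((WW ρ l).mapQ (WW ρ l) (ρ (y0 hp)) hW) + 2 * ((p + 1) / 3) := by
  set f := (WW ρ l).mapQ (WW ρ l) (ρ (y0 hp)) hW with hf
  have hf3 : f * (f * f) = 1 := by
    ext x
    have h1 : ρ (y0 hp) (ρ (y0 hp) (ρ (y0 hp) x)) = x := by
      rw [← Module.End.mul_apply, ← Module.End.mul_apply, ← map_mul, ← map_mul, ← pow_two, ← pow_succ,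
        y0_pow_three, map_one, Module.End.one_apply]
    change f (f (f ((WW ρ l).mkQ x))) = (WW ρ l).mkQ x
    rw [hf, Submodule.mkQ_apply, Submodule.mapQ_apply, Submodule.mapQ_apply, Submodule.mapQ_apply, h1]
  obtain ⟨ω, hω⟩ := ThreeConf.exists_omega K
  have hprod : (f - (ω ^ 2) • (1 : Module.End K _)) ∘ₗ ((f - ω • (1 : Module.End K _)) ∘ₗ (f - 1)) = 0 := by
    have h1 : (f - (ω ^ 2) • (1 : Module.End K _)) * ((f - ω • (1 : Module.End K _)) * (f - 1)) = 0 := by
      simp only [sub_mul, mul_sub, smul_mul_assoc, mul_smul_comm, one_mul, mul_one]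
      rw [hf3]
      have h3 : ω * ω ^ 2 = 1 := by linear_combination (ω - 1) * hω
      have e3 : ω ^ 2 = -1 - ω := by linear_combination hω
      simp only [smul_sub, smul_smul, h3]
      rw [e3]
      module
    exact h1
  have h1 := finrank_ker_comp_le (f - (ω ^ 2) • (1 : Module.End K _)) ((f - ω • (1 : Module.End K _)) ∘ₗ (f - 1))
  have h2 := finrank_ker_comp_le (f - ω • (1 : Module.End K _)) (f - 1)
  rw [hprod, LinearMap.ker_zero, finrank_top] at h1
  have h4 := finrank_eigen_le h hp h3 ω hW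
  have h5 := finrank_eigen_le h hp h3 (ω ^ 2) hW
  rw [← hf] at h4 h5
  unfold fx
  omega

/-! ### The polynomial case -/

section poly

open Polynomial

omit [FiniteDimensional K V] [AddCommGroup V] [Module K V] in
theorem hom_X_pow {j : ℕ} (hj : j ≤ c) (x y : K) : hom c (X ^ j) x y = x ^ (c - j) * y ^ j := by
  rw [hom, Finset.sum_eq_single j]
  · simp
  · intro i _ hi
    rw [coeff_X_pow, if_neg hi]
    ring
  · intro h
    exact absurd (Finset.mem_range.2 (Nat.lt_succ_of_le hj)) h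

theorem li_X_pow : LinearIndependent K (fun j : Fin (c + 1) => (X ^ (j : ℕ) : K[X])) := by
  rw [Fintype.linearIndependent_iff]
  intro g hg i
  have h1 := congrArg (fun Q : K[X] => Q.coeff i) hg
  simp only [finsetSum_coeff, coeff_smul, coeff_X_pow, coeff_zero, smul_eq_mul, mul_ite, mul_one, mul_zero] at h1
  rw [Finset.sum_eq_single i] at h1
  · simpa using h1
  · intro j _ hj
    rw [if_neg]
    intro h
    exact hj (Fin.ext h).symm
  · intro h
    exact absurd (Finset.mem_univ _) h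

/-- weight spaces of the quotient -/
theorem fx_weight_quot [CharP K p] (h : IsRow a ρ l c) (hc : c < p - 1)
    (hS : ∀ v, ∑ b, l (ρ (gam b) v) = 0) {v : V} (hv : l v ≠ 0) (t : (ZMod p)ˣ) (μ : K)
    {f : V →ₗ[K] V} (hf : f = μ • ρ (dg t)) (hW : WW ρ l ≤ (WW ρ l).comap f) :
    fx ((WW ρ l).mapQ (WW ρ l) f hW) =
      Nat.card {j : Fin (c + 1) // μ * (a t ^ (c - (j : ℕ)) * a (t⁻¹ : (ZMod p)ˣ) ^ (j : ℕ)) = 1} := by
  refine h.fx_quot hc hS hv (fun j : Fin (c + 1) => (X ^ (j : ℕ) : K[X])) ?_ li_X_pow _ ?_ hf hW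
  · intro j
    rw [natDegree_X_pow]
    omega
  · intro j x y
    rw [hom_X_pow (by omega), hom_X_pow (by omega), dg00, dg10, dg01, dg11]
    simp only [mul_zero, add_zero, zero_add, map_mul, mul_pow]
    ring

theorem hom_prod {s : K} {i : ℕ} (hi : i ≤ c) (x y : K) :
    hom c ((X + C s) ^ i * (X - C s) ^ (c - i)) x y = (y + s * x) ^ i * (y - s * x) ^ (c - i) := by
  have hm : ((X + C s) ^ i * (X - C s) ^ (c - i)).Monic := ((monic_X_add_C s).pow i).mul ((monic_X_sub_C s).pow _)
  have hd : ((X + C s) ^ i * (X - C s) ^ (c - i)).natDegree = c := by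
    rw [((monic_X_add_C s).pow i).natDegree_mul ((monic_X_sub_C s).pow _), natDegree_pow, natDegree_pow,
      natDegree_X_add_C, natDegree_X_sub_C]
    omega
  by_cases hx : x = 0
  · rw [hx, hom_zero]
    have : ((X + C s) ^ i * (X - C s) ^ (c - i)).coeff c = 1 := by
      have := hm.coeff_natDegree
      rwa [hd] at this
    rw [this, mul_zero, add_zero, sub_zero, mul_one, ← pow_add]
    congr 1
    omega
  · rw [hom_of_ne hd.le hx]
    simp only [eval_mul, eval_pow, eval_add, eval_sub, eval_X, eval_C]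
    have h1 : x ^ c = x ^ i * x ^ (c - i) := by
      rw [← pow_add]
      congr 1
      omega
    rw [h1]
    calc x ^ i * x ^ (c - i) * ((y / x + s) ^ i * (y / x - s) ^ (c - i))
        = (x * (y / x + s)) ^ i * (x * (y / x - s)) ^ (c - i) := by rw [mul_pow, mul_pow]; ring
      _ = _ := by
        congr 2
        · field_simp
        · field_simp

theorem li_prod_aux {s : K} (hs : 2 * s ≠ 0) (c : ℕ) : ∀ e : ℕ → K,
    ∑ i ∈ Finset.range (c + 1), C (e i) * ((X + C s) ^ i * (X - C s) ^ (c - i)) = 0 → ∀ i ≤ c, e i = 0 := by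
  induction c with
  | zero =>
    intro e he i hi
    have : i = 0 := by omega
    subst this
    simpa using he
  | succ c ih =>
    intro e he
    have h0 : e 0 = 0 := by
      have h1 := congrArg (fun Q : K[X] => Q.eval (-s)) he
      simp only [eval_finsetSum, eval_mul, eval_C, eval_pow, eval_add, eval_sub, eval_X, neg_add_cancel, eval_zero] at h1
      rw [Finset.sum_eq_single 0] at h1
      · rw [pow_zero, one_mul, Nat.sub_zero] at h1
        have h2 : (-s - s) ^ (c + 1) ≠ 0 := by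
          apply pow_ne_zero
          intro h
          apply hs
          linear_combination -h
        exact (mul_eq_zero.1 h1).resolve_right h2
      · intro j _ hj
        rw [zero_pow hj]
        ring
      · intro h
        simp at h
    have h1 : (X + C s) * ∑ i ∈ Finset.range (c + 1), C (e (i + 1)) * ((X + C s) ^ i * (X - C s) ^ (c - i)) = 0 := by
      rw [← he, Finset.sum_range_succ' _ (c + 1), h0, C_0, zero_mul, add_zero, Finset.mul_sum]
      refine Finset.sum_congr rfl fun i _ => ?_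
      have h2 : c + 1 - (i + 1) = c - i := by omega
      rw [h2, pow_succ]
      ring
    have h2 : ∑ i ∈ Finset.range (c + 1), C (e (i + 1)) * ((X + C s) ^ i * (X - C s) ^ (c - i)) = 0 :=
      (mul_eq_zero.1 h1).resolve_left (X_add_C_ne_zero s)
    have h3 := ih (fun i => e (i + 1)) h2
    intro i hi
    rcases Nat.eq_zero_or_pos i with hi0 | hi0
    · rw [hi0, h0]
    · have := h3 (i - 1) (by omega)
      rwa [Nat.sub_add_cancel hi0] at this

theorem li_prod {s : K} (hs : 2 * s ≠ 0) :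
    LinearIndependent K (fun i : Fin (c + 1) => ((X + C s) ^ (i : ℕ) * (X - C s) ^ (c - (i : ℕ)) : K[X])) := by
  rw [Fintype.linearIndependent_iff]
  intro g hg i
  have h1 := li_prod_aux hs c (fun j => if h : j < c + 1 then g ⟨j, h⟩ else 0) (by
    rw [← Fin.sum_univ_eq_sum_range (fun i => C (if h : i < c + 1 then g ⟨i, h⟩ else 0) *
      ((X + C s) ^ i * (X - C s) ^ (c - i))) (c + 1), ← hg]
    refine Finset.sum_congr rfl fun j _ => ?_
    rw [dif_pos j.2, smul_eq_C_mul]) i (by omega)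
  rwa [dif_pos i.2] at h1

/-- the fixed points of `y₀` on the quotient -/
theorem fx_y0_quot [CharP K p] (hp : 3 < p) (h : IsRow a ρ l c) (hc : c < p - 1)
    (hS : ∀ v, ∑ b, l (ρ (gam b) v) = 0) {v : V} (hv : l v ≠ 0) {s : K} (hs : s ^ 2 = -3)
    {f : V →ₗ[K] V} (hf : f = ρ (y0 hp)) (hW : WW ρ l ≤ (WW ρ l).comap f) :
    fx ((WW ρ l).mapQ (WW ρ l) f hW) =
      Nat.card {i : Fin (c + 1) // ((s - 1) / 2) ^ ((i : ℕ) + 2 * (c - (i : ℕ))) = 1} := by
  have ha2 : (2 : K) ≠ 0 := by
    have := two_ne_zero' hp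
    rw [← map_ofNat a, Ne, map_eq_zero]
    exact this
  have ha3 : (3 : K) ≠ 0 := by
    have := three_ne_zero' hp
    rw [← map_ofNat a, Ne, map_eq_zero]
    exact this
  have hs2 : 2 * s ≠ 0 := by
    intro h1
    rcases mul_eq_zero.1 h1 with h2 | h2
    · exact ha2 h2
    · rw [h2] at hs
      apply ha3
      linear_combination hs
  have h1 := h.fx_quot hc hS hv (k := y0 hp) (μ := 1)
    (fun i : Fin (c + 1) => ((X + C s) ^ (i : ℕ) * (X - C s) ^ (c - (i : ℕ)) : K[X])) (by
      intro i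
      apply natDegree_mul_le.trans
      apply (Nat.add_le_add natDegree_pow_le natDegree_pow_le).trans
      rw [natDegree_X_add_C, natDegree_X_sub_C]
      omega) (li_prod hs2) (fun i => ((s - 1) / 2) ^ ((i : ℕ) + 2 * (c - (i : ℕ)))) (by
      intro i x y
      have hi : (i : ℕ) ≤ c := by omega
      rw [hom_prod hi, hom_prod hi]
      have e00 : (y0 hp) 0 0 = (-1 / 2 : ZMod p) := rfl
      have e01 : (y0 hp) 0 1 = (-3 * (1 / 2) : ZMod p) := rfl
      have e10 : (y0 hp) 1 0 = (1 / 2 : ZMod p) := rfl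
      have e11 : (y0 hp) 1 1 = (-1 / 2 : ZMod p) := rfl
      rw [e00, e01, e10, e11]
      simp only [map_add, map_mul, map_div₀, map_neg, map_one, map_ofNat]
      have f1 : a x * (-3 * (1 / 2)) + a y * (-1 / 2) + s * (a x * (-1 / 2) + a y * (1 / 2)) =
          ((s - 1) / 2) * (a y + s * a x) := by
        field_simp
        linear_combination (-a x) * hs
      have f2 : a x * (-3 * (1 / 2)) + a y * (-1 / 2) - s * (a x * (-1 / 2) + a y * (1 / 2)) =
          ((s - 1) / 2) ^ 2 * (a y - s * a x) := by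
        field_simp
        linear_combination (-a x * (2 - s) - a y) * hs
      rw [f1, f2, mul_pow, mul_pow, pow_add, pow_mul]
      ring) (f := f) (by rw [hf, one_smul]) hW
  rw [h1]
  simp only [one_mul]

end poly

end Cfsg.Agent.H892.QuotBounds
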