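import Mathlib
import Cfsg.Agent.H892.RowQuot

/-!
# Weights and the raising operator for `SL₂(p)` in characteristic `p`
-/

set_option autoImplicit false

namespace Cfsg.Agent.H892.Weights

open Module Matrix Cfsg.Agent.H892.FixDim Cfsg.Agent.H892.CoprimeChar Cfsg.Agent.H892.RowQuot
open Cfsg.Agent.H892.GLTorus
open Cfsg.Agent.ClassicalGeometry.SplitTorus

variable {p : ℕ} [Fact p.Prime]
variable {K V : Type*} [Field K] [AddCommGroup V] [Module K V]

/-- weight spaces -/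
def Wt (a : ZMod p →+* K) (ρ : Representation K (SS p) V) (i : ℤ) : Submodule K V :=
  ⨅ t : (ZMod p)ˣ, LinearMap.ker (ρ (dg t) - (a ((t ^ i : (ZMod p)ˣ) : ZMod p)) • (1 : Module.End K V))

variable {a : ZMod p →+* K} {ρ : Representation K (SS p) V}

theorem mem_Wt {i : ℤ} {v : V} : v ∈ Wt a ρ i ↔ ∀ t : (ZMod p)ˣ, ρ (dg t) v = a ((t ^ i : (ZMod p)ˣ) : ZMod p) • v := by
  rw [Wt, Submodule.mem_iInf]
  refine forall_congr' fun t => ?_
  rw [LinearMap.mem_ker, LinearMap.sub_apply, LinearMap.smul_apply, Module.End.one_apply, sub_eq_zero]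

theorem zpow_congr (t : (ZMod p)ˣ) {i j : ℤ} (h : ((p - 1 : ℕ) : ℤ) ∣ i - j) : t ^ i = t ^ j := by
  obtain ⟨k, hk⟩ := h
  have : i = j + ((p - 1 : ℕ) : ℤ) * k := by linarith
  rw [this, _root_.zpow_add, _root_.zpow_mul, zpow_natCast, ZMod.units_pow_card_sub_one_eq_one, _root_.one_zpow, mul_one]

theorem Wt_congr {i j : ℤ} (h : ((p - 1 : ℕ) : ℤ) ∣ i - j) : Wt a ρ i = Wt a ρ j := by
  ext v
  rw [mem_Wt, mem_Wt]
  refine forall_congr' fun t => ?_
  rw [zpow_congr t h]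

/-- the raising operator -/
noncomputable def EE (a : ZMod p →+* K) (ρ : Representation K (SS p) V) : Module.End K V :=
  ∑ k : (ZMod p)ˣ, a ((k⁻¹ : (ZMod p)ˣ) : ZMod p) • ρ (up (k : ZMod p))

theorem EE_apply (v : V) : EE a ρ v = ∑ k : (ZMod p)ˣ, a ((k⁻¹ : (ZMod p)ˣ) : ZMod p) • ρ (up (k : ZMod p)) v := by
  rw [EE, LinearMap.sum_apply]
  rfl

theorem dg_EE (t : (ZMod p)ˣ) (v : V) : ρ (dg t) (EE a ρ v) = a ((t ^ 2 : (ZMod p)ˣ) : ZMod p) • EE a ρ (ρ (dg t) v) := by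
  rw [EE_apply, EE_apply, map_sum, Finset.smul_sum]
  refine Fintype.sum_equiv (Equiv.mulLeft (t ^ 2)) _ _ fun k => ?_
  rw [map_smul, smul_smul, Equiv.coe_mulLeft, ← Module.End.mul_apply, ← map_mul, ← Module.End.mul_apply, ← map_mul]
  have h1 : dg t * up (k : ZMod p) = up ((t ^ 2 * k : (ZMod p)ˣ) : ZMod p) * dg t := by
    rw [← mul_inv_eq_iff_eq_mul, dg_conj_up]
    congr 1
  rw [h1, ← map_mul, ← Units.val_mul]
  congr 3
  rw [_root_.mul_inv_rev, mul_comm k⁻¹, mul_inv_cancel_left]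

theorem EE_mem {i : ℤ} {v : V} (hv : v ∈ Wt a ρ i) : EE a ρ v ∈ Wt a ρ (i + 2) := by
  rw [mem_Wt] at hv ⊢
  intro t
  rw [dg_EE, hv, map_smul, smul_smul, ← map_mul, ← Units.val_mul, _root_.zpow_add, mul_comm]
  rfl

theorem EE_pow_mem {i : ℤ} {v : V} (hv : v ∈ Wt a ρ i) (k : ℕ) : ((EE a ρ) ^ k) v ∈ Wt a ρ (i + 2 * k) := by
  induction k with
  | zero => simpa using hv
  | succ k ih =>
    rw [pow_succ', Module.End.mul_apply]
    have := EE_mem ih
    have e : i + 2 * (k : ℤ) + 2 = i + 2 * ((k + 1 : ℕ) : ℤ) := by push_cast; ring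
    rwa [e] at this

theorem up_one_pow_p [CharP K p] : (ρ (up 1) - 1 : Module.End K V) ^ p = 0 := by
  have h0 : CharP (Module.End K V) p ∨ Subsingleton V := by
    rcases subsingleton_or_nontrivial V with h | h
    · exact Or.inr h
    · left
      exact charP_of_injective_algebraMap (algebraMap K (Module.End K V)).injective p
  rcases h0 with h0 | h0
  · rw [sub_pow_char_of_commute _ (Commute.one_right _), one_pow, ← map_pow, up_pow, CharP.cast_eq_zero, zero_mul,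
      up_zero, map_one, sub_self]
  · ext v
    exact Subsingleton.elim _ _

open Polynomial in
theorem exists_unit [CharP K p] (hp : 3 < p) :
    ∃ U : (Module.End K V)ˣ, Commute (ρ (up 1) - 1 : Module.End K V) U ∧ EE a ρ = (ρ (up 1) - 1) * U := by
  set u := ρ (up 1) with hu
  let f : K[X] := ∑ k : (ZMod p)ˣ, C (a ((k⁻¹ : (ZMod p)ˣ) : ZMod p)) * X ^ (k : ZMod p).val
  have hf1 : f.eval 1 = 0 := by
    simp only [f, eval_finsetSum, eval_mul, eval_C, eval_pow, eval_X, one_pow, mul_one]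
    rw [← map_sum]
    have h1 : ∑ k : (ZMod p)ˣ, ((k⁻¹ : (ZMod p)ˣ) : ZMod p) = ∑ k : (ZMod p)ˣ, (k : ZMod p) :=
      Fintype.sum_equiv (Equiv.inv _) _ _ fun k => rfl
    have h2 := FiniteField.sum_pow_lt_card_sub_one (K := ZMod p) 1 (by rw [ZMod.card]; omega)
    simp only [pow_one] at h2
    rw [sum_eq_units, zero_add] at h2
    rw [h1, h2, map_zero]
  have hf' : (derivative f).eval 1 = -1 := by
    have h1 : ∀ k : (ZMod p)ˣ, eval 1 (derivative (C (a ((k⁻¹ : (ZMod p)ˣ) : ZMod p)) * X ^ (k : ZMod p).val)) = 1 := by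
      intro k
      rw [derivative_C_mul, derivative_X_pow, eval_mul, eval_mul, eval_C, eval_C, eval_pow, eval_X, one_pow, mul_one]
      have : (((k : ZMod p).val : ℕ) : K) = a (k : ZMod p) := by
        rw [← map_natCast a, ZMod.natCast_zmod_val]
      rw [this, ← map_mul, Units.inv_mul, map_one]
    simp only [f]
    rw [derivative_sum, eval_finsetSum, Finset.sum_congr rfl fun k _ => h1 k]
    rw [Finset.sum_const, Finset.card_univ, ZMod.card_units, nsmul_eq_mul, mul_one, Nat.cast_sub (by omega),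
      CharP.cast_eq_zero, Nat.cast_one, zero_sub]
  obtain ⟨g, hg⟩ := dvd_iff_isRoot.2 (show IsRoot f 1 from hf1)
  have hg1 : g.eval 1 = -1 := by
    rw [hg, derivative_mul, derivative_X_sub_C] at hf'
    simpa using hf'
  obtain ⟨h, hh⟩ := dvd_iff_isRoot.2 (show IsRoot (g + 1) 1 by rw [IsRoot.def, eval_add, hg1, eval_one]; ring)
  have hE : EE a ρ = aeval u f := by
    simp only [f]
    rw [map_sum, EE]
    refine Finset.sum_congr rfl fun k _ => ?_
    rw [map_mul, aeval_C, map_pow, aeval_X, hu, ← map_pow, up_pow, ZMod.natCast_zmod_val, mul_one,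
      Algebra.algebraMap_eq_smul_one, smul_mul_assoc, one_mul]
  have hX : aeval u (X - C (1 : K)) = u - 1 := by
    rw [map_sub, aeval_X, aeval_C, map_one]
  have hcomm : ∀ q : K[X], Commute (u - 1) (aeval u q) := by
    intro q
    rw [← hX]
    exact Commute.map (Commute.all _ _) (aeval u)
  have hnil : IsNilpotent ((u - 1) * aeval u h) := by
    apply (hcomm h).isNilpotent_mul_right
    exact ⟨p, up_one_pow_p⟩
  have hgu : aeval u g = (u - 1) * aeval u h - 1 := by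
    have : g = (X - C 1) * h - 1 := by rw [← hh]; ring
    rw [this, map_sub, map_mul, hX, map_one]
  have hunit : IsUnit (aeval u g) := by
    rw [hgu]
    exact hnil.isUnit_sub_one
  obtain ⟨U, hU⟩ := hunit
  refine ⟨U, ?_, ?_⟩
  · rw [hU]
    exact hcomm g
  · rw [hE, hg, map_mul, hX, hU]

theorem EE_eq_zero_iff [CharP K p] (hp : 3 < p) (v : V) : EE a ρ v = 0 ↔ ρ (up 1) v = v := by
  obtain ⟨U, h1, h2⟩ := exists_unit (a := a) (ρ := ρ) hp
  rw [h2, h1.eq, Module.End.mul_apply]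
  constructor
  · intro h
    have h3 : ((U⁻¹ : (Module.End K V)ˣ) : Module.End K V) ((U : Module.End K V) ((ρ (up 1) - 1 : Module.End K V) v)) = 0 := by
      rw [h, map_zero]
    rw [← Module.End.mul_apply, Units.inv_mul, Module.End.one_apply, LinearMap.sub_apply, Module.End.one_apply,
      sub_eq_zero] at h3
    exact h3
  · intro h
    rw [LinearMap.sub_apply, h, Module.End.one_apply, sub_self, map_zero]

theorem EE_range [CharP K p] (hp : 3 < p) : LinearMap.range (EE a ρ) = LinearMap.range (ρ (up 1) - 1) := by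
  obtain ⟨U, h1, h2⟩ := exists_unit (a := a) (ρ := ρ) hp
  apply le_antisymm
  · rintro _ ⟨v, rfl⟩
    rw [h2]
    exact ⟨_, rfl⟩
  · rintro _ ⟨v, rfl⟩
    refine ⟨((U⁻¹ : (Module.End K V)ˣ) : Module.End K V) v, ?_⟩
    rw [h2, Module.End.mul_apply, ← Module.End.mul_apply (U : Module.End K V), Units.mul_inv, Module.End.one_apply]

theorem EE_pow_eq_zero_iff [CharP K p] (hp : 3 < p) (k : ℕ) : (EE a ρ) ^ k = 0 ↔ (ρ (up 1) - 1 : Module.End K V) ^ k = 0 := by
  obtain ⟨U, h1, h2⟩ := exists_unit (a := a) (ρ := ρ) hp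
  rw [h2, h1.mul_pow, ← Units.val_pow_eq_pow_val]
  exact Units.mul_left_eq_zero _

/-! ### Projections to weight spaces -/

/-- projection to a weight space -/
noncomputable def pr (a : ZMod p →+* K) (ρ : Representation K (SS p) V) (i : ℤ) : Module.End K V :=
  - ∑ t : (ZMod p)ˣ, a ((t ^ (-i) : (ZMod p)ˣ) : ZMod p) • ρ (dg t)

theorem pr_apply (i : ℤ) (v : V) :
    pr a ρ i v = - ∑ t : (ZMod p)ˣ, a ((t ^ (-i) : (ZMod p)ˣ) : ZMod p) • ρ (dg t) v := by
  rw [pr, LinearMap.neg_apply, LinearMap.sum_apply]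
  rfl

theorem pr_mem (i : ℤ) (v : V) : pr a ρ i v ∈ Wt a ρ i := by
  rw [mem_Wt]
  intro s
  rw [pr_apply, map_neg, map_sum, smul_neg, Finset.smul_sum]
  congr 1
  refine Fintype.sum_equiv (Equiv.mulLeft s) _ _ fun t => ?_
  rw [map_smul, smul_smul, Equiv.coe_mulLeft, ← Module.End.mul_apply, ← map_mul, ← dg_mul, ← map_mul, ← Units.val_mul,
    mul_zpow, ← mul_assoc, _root_.zpow_neg s, mul_inv_cancel, one_mul]

theorem sum_pr [CharP K p] (v : V) : ∑ i ∈ Finset.range (p - 1), pr a ρ (i : ℤ) v = v := by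
  have hp := (Fact.out : p.Prime).two_le
  simp only [pr_apply]
  rw [Finset.sum_neg_distrib, Finset.sum_comm]
  rw [Finset.sum_eq_single 1]
  · simp only [_root_.one_zpow, Units.val_one, map_one, one_smul, dg_one, Module.End.one_apply, Finset.sum_const,
      Finset.card_range]
    rw [← Nat.cast_smul_eq_nsmul K, Nat.cast_sub (by omega), CharP.cast_eq_zero, Nat.cast_one, zero_sub, neg_smul,
      one_smul, neg_neg]
  · intro t _ ht
    rw [← Finset.sum_smul]
    have h1 : ∀ i : ℕ, a ((t ^ (-(i : ℤ)) : (ZMod p)ˣ) : ZMod p) = (a ((t⁻¹ : (ZMod p)ˣ) : ZMod p)) ^ i := by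
      intro i
      rw [← map_pow, ← Units.val_pow_eq_pow_val, _root_.zpow_neg, zpow_natCast, inv_pow]
    simp only [h1]
    have h2 : (a ((t⁻¹ : (ZMod p)ˣ) : ZMod p) - 1) * ∑ i ∈ Finset.range (p - 1), (a ((t⁻¹ : (ZMod p)ˣ) : ZMod p)) ^ i = 0 := by
      rw [mul_geom_sum, ← map_pow, ZMod.pow_card_sub_one_eq_one (Units.ne_zero _), map_one, sub_self]
    have h3 : a ((t⁻¹ : (ZMod p)ˣ) : ZMod p) - 1 ≠ 0 := by
      intro h
      rw [sub_eq_zero, ← map_one a] at h
      have h4 := a.injective h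
      apply ht
      rw [Units.val_eq_one, inv_eq_one] at h4
      exact h4
    rw [(mul_eq_zero.1 h2).resolve_left h3, zero_smul]
  · intro h
    exact absurd (Finset.mem_univ _) h

theorem exists_pr_ne [CharP K p] {W : Type*} [AddCommGroup W] [Module K W] (f : V →ₗ[K] W) (hf : f ≠ 0) :
    ∃ (i : ℤ) (x : V), x ∈ Wt a ρ i ∧ f x ≠ 0 := by
  by_contra hcon
  push Not at hcon
  apply hf
  ext v
  rw [← sum_pr (a := a) (ρ := ρ) v, map_sum]
  apply Finset.sum_eq_zero
  intro i _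
  exact hcon i _ (pr_mem _ _)

theorem exists_pr_notMem [CharP K p] (W : Submodule K V) (hW : W ≠ ⊤) : ∃ (i : ℤ) (x : V), x ∈ Wt a ρ i ∧ x ∉ W := by
  obtain ⟨i, x, h1, h2⟩ := exists_pr_ne (a := a) (ρ := ρ) W.mkQ (by
    intro h
    apply hW
    rw [eq_top_iff]
    intro x _
    rw [← Submodule.Quotient.mk_eq_zero, ← Submodule.mkQ_apply, h, LinearMap.zero_apply])
  refine ⟨i, x, h1, ?_⟩
  intro h3
  apply h2
  rwa [Submodule.mkQ_apply, Submodule.Quotient.mk_eq_zero]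

/-! ### Functionals -/

/-- the residue of `-i` modulo `p - 1` -/
theorem exists_res (p : ℕ) [Fact p.Prime] (i : ℤ) : ∃ c : ℕ, c < p - 1 ∧ ((p - 1 : ℕ) : ℤ) ∣ (i + c) := by
  have hp := (Fact.out : p.Prime).two_le
  have h0 : (0 : ℤ) < ((p - 1 : ℕ) : ℤ) := by
    have : 0 < p - 1 := by omega
    exact_mod_cast this
  have h1 := Int.emod_nonneg (-i) h0.ne'
  have h2 := Int.emod_lt_of_pos (-i) h0
  refine ⟨((-i) % ((p - 1 : ℕ) : ℤ)).toNat, ?_, ?_⟩
  · omega
  · rw [Int.toNat_of_nonneg h1]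
    have := Int.emod_add_mul_ediv (-i) ((p - 1 : ℕ) : ℤ)
    refine ⟨-((-i) / ((p - 1 : ℕ) : ℤ)), ?_⟩
    linarith

theorem exists_isRow [CharP K p] {i : ℤ} {x : V} (hx : x ∈ Wt a ρ i) (hx' : x ∉ LinearMap.range (ρ (up 1) - 1)) :
    ∃ (l : Module.Dual K V) (c : ℕ), IsRow a ρ l c ∧ c < p - 1 ∧ ((p - 1 : ℕ) : ℤ) ∣ (i + c) ∧ l x ≠ 0 := by
  have hp := (Fact.out : p.Prime).two_le
  obtain ⟨l0, hl0, hl0'⟩ := Submodule.exists_le_ker_of_notMem hx'
  have h1 : ∀ w, l0 (ρ (up 1) w) = l0 w := by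
    intro w
    have : l0 ((ρ (up 1) - 1 : Module.End K V) w) = 0 := hl0' ⟨w, rfl⟩
    rwa [LinearMap.sub_apply, Module.End.one_apply, map_sub, sub_eq_zero] at this
  have h2 : ∀ b w, l0 (ρ (up b) w) = l0 w := by
    intro b
    have h3 : ∀ (k : ℕ) w, l0 (ρ (up (k : ZMod p)) w) = l0 w := by
      intro k
      induction k with
      | zero => intro w; rw [Nat.cast_zero, up_zero, map_one, Module.End.one_apply]
      | succ k ih =>
        intro w
        rw [Nat.cast_succ, up_add, map_mul, Module.End.mul_apply, ih, h1]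
    intro w
    rw [← ZMod.natCast_zmod_val b]
    exact h3 _ w
  obtain ⟨c, hc, hc'⟩ := exists_res p i
  let l : Module.Dual K V := ∑ t : (ZMod p)ˣ, a ((t ^ (-i) : (ZMod p)ˣ) : ZMod p) • (l0 ∘ₗ ρ (dg t))
  have hl : ∀ v, l v = ∑ t : (ZMod p)ˣ, a ((t ^ (-i) : (ZMod p)ˣ) : ZMod p) * l0 (ρ (dg t) v) := by
    intro v
    simp only [l]
    rw [LinearMap.sum_apply]
    rfl
  have hdg : ∀ s v, l (ρ (dg s) v) = a ((s ^ i : (ZMod p)ˣ) : ZMod p) * l v := by
    intro s v
    rw [hl, hl, Finset.mul_sum]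
    refine Fintype.sum_equiv (Equiv.mulLeft s) _ _ fun t => ?_
    rw [Equiv.coe_mulLeft, ← mul_assoc, ← map_mul, ← Units.val_mul, mul_zpow, ← mul_assoc, _root_.zpow_neg s,
      mul_inv_cancel, one_mul]
    beta_reduce
    rw [mul_comm s t, dg_mul, map_mul, Module.End.mul_apply]
  refine ⟨l, c, ⟨?_, ?_⟩, hc, hc', ?_⟩
  · intro b v
    rw [hl, hl]
    refine Finset.sum_congr rfl fun t _ => ?_
    have h3 : dg t * up b = up ((t : ZMod p) ^ 2 * b) * dg t := by
      rw [← mul_inv_eq_iff_eq_mul, dg_conj_up]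
    rw [← Module.End.mul_apply, ← map_mul, h3, map_mul, Module.End.mul_apply, h2]
  · intro t v
    rw [← dg_inv, hdg, _root_.inv_zpow']
    congr 1
    rw [← map_pow, ← Units.val_pow_eq_pow_val, ← zpow_natCast]
    congr 2
    apply zpow_congr
    have : -i - (c : ℤ) = -(i + c) := by ring
    rw [this]
    exact (dvd_neg).2 hc'
  · rw [hl]
    have h3 : ∀ t : (ZMod p)ˣ, a ((t ^ (-i) : (ZMod p)ˣ) : ZMod p) * l0 (ρ (dg t) x) = l0 x := by
      intro t
      rw [mem_Wt.1 hx t, map_smul, smul_eq_mul, ← mul_assoc, ← map_mul, ← Units.val_mul, ← _root_.zpow_add,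
        neg_add_cancel, zpow_zero, Units.val_one, map_one, one_mul]
    simp only [h3, Finset.sum_const, Finset.card_univ, ZMod.card_units]
    rw [← Nat.cast_smul_eq_nsmul K, Nat.cast_sub (by omega), CharP.cast_eq_zero, Nat.cast_one, zero_sub, neg_smul,
      one_smul, neg_ne_zero]
    exact hl0

end Cfsg.Agent.H892.Weights
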