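import Mathlib
import Cfsg.Agent.H892.Weights
import Cfsg.Agent.H892.QuotBounds

/-!
# Dimensions of weight spaces, duals and quotients
-/

set_option autoImplicit false

namespace Cfsg.Agent.H892.WeightsDim

open Module Matrix Cfsg.Agent.H892.FixDim Cfsg.Agent.H892.CoprimeChar Cfsg.Agent.H892.RowQuot
open Cfsg.Agent.H892.GLTorus Cfsg.Agent.H892.Weights Cfsg.Agent.H892.QuotBounds
open Cfsg.Agent.ClassicalGeometry.SplitTorus

variable {p : ℕ} [Fact p.Prime]
variable {K V : Type*} [Field K] [AddCommGroup V] [Module K V]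

/-- The operator whose fixed space is a weight space. -/
noncomputable def wf (a : ZMod p →+* K) (ρ : Representation K (SS p) V) (t : (ZMod p)ˣ) (i : ℤ) : Module.End K V :=
  a ((t ^ (-i) : (ZMod p)ˣ) : ZMod p) • ρ (dg t)

variable {a : ZMod p →+* K} {ρ : Representation K (SS p) V}

theorem ker_wf {t : (ZMod p)ˣ} (ht : ∀ s : (ZMod p)ˣ, ∃ k : ℕ, s = t ^ k) (i : ℤ) :
    LinearMap.ker (wf a ρ t i - 1) = Wt a ρ i := by
  ext v
  rw [mem_ker_sub_one, mem_Wt, wf, LinearMap.smul_apply]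
  constructor
  · intro h
    have h1 : ρ (dg t) v = a ((t ^ i : (ZMod p)ˣ) : ZMod p) • v := by
      conv_rhs => rw [← h]
      rw [smul_smul, ← map_mul, ← Units.val_mul, ← _root_.zpow_add, add_neg_cancel, zpow_zero, Units.val_one, map_one,
        one_smul]
    intro s
    obtain ⟨k, rfl⟩ := ht s
    induction k with
    | zero => simp [dg_one]
    | succ k ih =>
      rw [pow_succ, dg_mul, map_mul, Module.End.mul_apply, h1, map_smul, ih, smul_smul, ← map_mul, ← Units.val_mul,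
        mul_comm, ← mul_zpow]
  · intro h
    rw [h t, smul_smul, ← map_mul, ← Units.val_mul, ← _root_.zpow_add, neg_add_cancel, zpow_zero, Units.val_one, map_one,
        one_smul]

theorem fx_wf {t : (ZMod p)ˣ} (ht : ∀ s : (ZMod p)ˣ, ∃ k : ℕ, s = t ^ k) (i : ℤ) :
    fx (wf a ρ t i) = finrank K (Wt a ρ i) := by
  rw [fx, ker_wf ht]

theorem wf_pow (t : (ZMod p)ˣ) (i : ℤ) : (wf a ρ t i) ^ (p - 1) = 1 := by
  rw [wf, smul_pow, ← map_pow, ← Units.val_pow_eq_pow_val, ZMod.units_pow_card_sub_one_eq_one, Units.val_one, map_one,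
    one_smul, ← map_pow]
  have h1 : ∀ k : ℕ, dg t ^ k = dg (t ^ k) := by
    intro k
    induction k with
    | zero => simp [dg_one]
    | succ k ih => rw [pow_succ, ih, ← dg_mul, pow_succ]
  rw [h1, ZMod.units_pow_card_sub_one_eq_one, dg_one, map_one]

/-! ### Duals -/

theorem up_fix {v : V} (hv : ρ (up 1) v = v) (b : ZMod p) : ρ (up b) v = v := by
  have h3 : ∀ (k : ℕ), ρ (up (k : ZMod p)) v = v := by
    intro k
    induction k with
    | zero => rw [Nat.cast_zero, up_zero, map_one, Module.End.one_apply]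
    | succ k ih =>
      rw [Nat.cast_succ, up_add, map_mul, Module.End.mul_apply, hv, ih]
  rw [← ZMod.natCast_zmod_val b]
  exact h3 _

theorem exists_dual_isRow {i : ℤ} {v : V} (hv : v ∈ Wt a ρ i) (hv1 : ρ (up 1) v = v) (hv0 : v ≠ 0) :
    ∃ (l : Module.Dual K (Module.Dual K V)) (c : ℕ), IsRow a ρ.dual l c ∧ c < p - 1 ∧
      ((p - 1 : ℕ) : ℤ) ∣ (i - c) ∧ l ≠ 0 := by
  obtain ⟨c, hc, hc'⟩ := exists_res p (-i)
  have hdvd : ((p - 1 : ℕ) : ℤ) ∣ (i - c) := by
    have : i - (c : ℤ) = -(-i + c) := by ring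
    rw [this]
    exact (dvd_neg).2 hc'
  refine ⟨Module.Dual.eval K V v, c, ⟨?_, ?_⟩, hc, hdvd, ?_⟩
  · intro b φ
    rw [Module.Dual.eval_apply, Module.Dual.eval_apply, Representation.dual_apply, Module.Dual.transpose_apply,
      LinearMap.comp_apply, ← up_neg, up_fix hv1]
  · intro t φ
    rw [Module.Dual.eval_apply, Module.Dual.eval_apply, Representation.dual_apply, Module.Dual.transpose_apply,
      LinearMap.comp_apply, inv_inv, mem_Wt.1 hv, map_smul, smul_eq_mul, ← map_pow, ← Units.val_pow_eq_pow_val,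
      zpow_congr t hdvd, zpow_natCast]
  · intro h
    apply hv0
    rw [← Module.forall_dual_apply_eq_zero_iff K]
    intro φ
    rw [← Module.Dual.eval_apply, h, LinearMap.zero_apply]

theorem fx_inv {G : Type*} [Group G] (ρ : Representation K G V) (g : G) : fx (ρ g⁻¹) = fx (ρ g) := by
  have : LinearMap.ker (ρ g⁻¹ - 1) = LinearMap.ker (ρ g - 1) := by
    ext v
    rw [mem_ker_sub_one, mem_ker_sub_one]
    constructor
    · intro h
      have : ρ g (ρ g⁻¹ v) = v := by rw [← Module.End.mul_apply, ← map_mul, mul_inv_cancel, map_one, Module.End.one_apply]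
      rwa [h] at this
    · intro h
      have : ρ g⁻¹ (ρ g v) = v := by rw [← Module.End.mul_apply, ← map_mul, inv_mul_cancel, map_one, Module.End.one_apply]
      rwa [h] at this
  rw [fx, fx, this]

theorem fx_dual [FiniteDimensional K V] {G : Type*} [Group G] (ρ : Representation K G V) (g : G) :
    fx (ρ.dual g) = fx (ρ g) := by
  rw [← fx_inv ρ g, ← fx_dualMap (ρ g⁻¹)]
  rfl

/-! ### Nilpotency on quotients -/

theorem le_finrank_of_pow_ne_zero [FiniteDimensional K V] {g : Module.End K V} {n m : ℕ} (hm : g ^ m = 0) (hn : g ^ n ≠ 0) :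
    n + 1 ≤ finrank K V := by
  by_contra hcon
  push Not at hcon
  have h1 : finrank K V ≤ n := by omega
  apply hn
  rcases Nat.lt_or_ge m n with h | h
  · have : n = m + (n - m) := by omega
    rw [this, pow_add, hm, zero_mul]
  · have h2 := Module.End.ker_pow_eq_ker_pow_finrank_of_le (f := g) h1
    have h3 := Module.End.ker_pow_eq_ker_pow_finrank_of_le (f := g) (h1.trans h)
    rw [hm, LinearMap.ker_zero] at h3
    rw [← h3] at h2
    exact LinearMap.ker_eq_top.1 h2

open Polynomial in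
theorem sum_up [CharP K p] : ∑ b : ZMod p, ρ (up b) = (ρ (up 1) - 1 : Module.End K V) ^ (p - 1) := by
  have hp := (Fact.out : p.Prime).two_le
  have h1 : ∑ k ∈ Finset.range p, (X : K[X]) ^ k = (X - 1) ^ (p - 1) := by
    have h2 : (X - 1 : K[X]) ≠ 0 := by
      have := X_sub_C_ne_zero (1 : K)
      rwa [C_1] at this
    apply mul_left_cancel₀ h2
    rw [mul_geom_sum, ← pow_succ', Nat.sub_add_cancel (by omega), sub_pow_char, one_pow]
  have h3 := congrArg (aeval (ρ (up 1))) h1
  simp only [map_sum, map_pow, aeval_X, map_sub, map_one] at h3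
  rw [← h3]
  refine Finset.sum_bij' (fun b _ => b.val) (fun k _ => (k : ZMod p)) ?_ ?_ ?_ ?_ ?_
  · intro b _
    exact Finset.mem_range.2 (ZMod.val_lt b)
  · intro k _
    exact Finset.mem_univ _
  · intro b _
    exact ZMod.natCast_zmod_val b
  · intro k hk
    exact ZMod.val_natCast_of_lt (Finset.mem_range.1 hk)
  · intro b _
    rw [← map_pow, up_pow, ZMod.natCast_zmod_val, mul_one]

/-! ### Case A -/

variable {l : Module.Dual K V} {c : ℕ}

theorem caseA_pow [CharP K p] {v : V} (hv : ∑ b, l (ρ (gam b) v) ≠ 0) :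
    l (ρ (gam 0) (((ρ (up 1) - 1 : Module.End K V) ^ (p - 1)) v)) ≠ 0 := by
  rw [← sum_up, LinearMap.sum_apply, map_sum, map_sum]
  have h1 : ∀ b : ZMod p, l (ρ (gam 0) (ρ (up b) v)) = l (ρ (gam b) v) := by
    intro b
    rw [← Module.End.mul_apply, ← map_mul, gam_mul_up, zero_add]
  simp only [h1]
  exact hv

theorem caseA_ne [CharP K p] {v : V} (hv : ∑ b, l (ρ (gam b) v) ≠ 0) :
    (ρ (up 1) - 1 : Module.End K V) ^ (p - 1) ≠ 0 := by
  intro h
  apply caseA_pow hv
  rw [h, LinearMap.zero_apply, map_zero, map_zero]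

theorem mapQ_sub_pow (W : Submodule K V) (g : Module.End K V) (hW : W ≤ W.comap g) (k : ℕ) (v : V) :
    ((W.mapQ W g hW - 1 : Module.End K (V ⧸ W)) ^ k) (W.mkQ v) = W.mkQ (((g - 1) ^ k) v) := by
  induction k with
  | zero => simp
  | succ k ih =>
    rw [pow_succ', pow_succ', Module.End.mul_apply, Module.End.mul_apply, ih, LinearMap.sub_apply,
      Module.End.one_apply, LinearMap.sub_apply, Module.End.one_apply, map_sub]
    rfl

theorem caseA_finrank [CharP K p] [FiniteDimensional K V] {v : V} (hv : ∑ b, l (ρ (gam b) v) ≠ 0) :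
    p ≤ finrank K (V ⧸ WW ρ l) := by
  have hp := (Fact.out : p.Prime).two_le
  have h1 := le_finrank_of_pow_ne_zero (g := ((WW ρ l).mapQ (WW ρ l) (ρ (up 1)) (WW_inv _) - 1 : Module.End K (V ⧸ WW ρ l)))
    (m := p) (n := p - 1) (by
      apply LinearMap.ext
      intro x
      obtain ⟨w, rfl⟩ := (WW ρ l).mkQ_surjective x
      rw [mapQ_sub_pow, up_one_pow_p, LinearMap.zero_apply, map_zero, LinearMap.zero_apply]) (by
      intro h
      have h2 := mapQ_sub_pow (WW ρ l) (ρ (up 1)) (WW_inv _) (p - 1) v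
      rw [h, LinearMap.zero_apply, eq_comm, Submodule.mkQ_apply, Submodule.Quotient.mk_eq_zero, mem_WW] at h2
      exact caseA_pow hv (h2 _))
  omega

theorem caseA_bound [CharP K p] [IsAlgClosed K] [FiniteDimensional K V] (hp : 11 ≤ p) (h3 : p % 3 = 2)
    (h : IsRow a ρ l c) {v : V} (hv : ∑ b, l (ρ (gam b) v) ≠ 0)
    (hW : WW ρ l ≤ (WW ρ l).comap (ρ (y0 (by omega)))) :
    finrank K (V ⧸ WW ρ l) ≤ 4 * fx ((WW ρ l).mapQ (WW ρ l) (ρ (y0 (by omega))) hW) := by
  have h1 := caseA_finrank (l := l) (ρ := ρ) hv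
  have h2 := finrank_quot_le h (by omega) h3 hW
  omega

/-! ### Case B -/

/-- the number of fixed eigenvectors -/
def nu (c : ℕ) : ℕ := ((Finset.range (c + 1)).filter (fun i => (i + 2 * (c - i)) % 3 = 0)).card

theorem nu_add_three (c : ℕ) : nu (c + 3) = nu c + 1 := by
  unfold nu
  have h0 : c + 3 + 1 = c + 1 + 1 + 1 + 1 := by ring
  rw [h0, Finset.range_add_one (n := c + 1 + 1 + 1), Finset.range_add_one (n := c + 1 + 1),
    Finset.range_add_one (n := c + 1), Finset.filter_insert, Finset.filter_insert, Finset.filter_insert]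
  have h1 : (Finset.range (c + 1)).filter (fun i => (i + 2 * (c + 3 - i)) % 3 = 0) =
      (Finset.range (c + 1)).filter (fun i => (i + 2 * (c - i)) % 3 = 0) := by
    apply Finset.filter_congr
    intro i hi
    rw [Finset.mem_range] at hi
    omega
  rw [h1]
  have hn : ∀ k, c + 1 ≤ k → k ∉ (Finset.range (c + 1)).filter (fun i => (i + 2 * (c - i)) % 3 = 0) := by
    intro k hk h
    have := Finset.mem_range.1 (Finset.mem_filter.1 h).1
    omega
  have hmod : c % 3 = 0 ∨ c % 3 = 1 ∨ c % 3 = 2 := by omega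
  rcases hmod with h | h | h
  · rw [if_pos (by omega), if_neg (by omega), if_neg (by omega), Finset.card_insert_of_notMem (hn _ (by omega))]
  · rw [if_neg (by omega), if_neg (by omega), if_pos (by omega), Finset.card_insert_of_notMem (hn _ (by omega))]
  · rw [if_neg (by omega), if_pos (by omega), if_neg (by omega), Finset.card_insert_of_notMem (hn _ (by omega))]

theorem nu_bound (c : ℕ) (h1 : c ≠ 1) (h4 : c ≠ 4) : c + 1 ≤ 4 * nu c := by
  induction c using Nat.strong_induction_on with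
  | _ c ih =>
    by_cases h0 : c = 0
    · subst h0; decide
    by_cases h2 : c = 2
    · subst h2; decide
    by_cases h7 : c = 7
    · subst h7; decide
    obtain ⟨d, rfl⟩ : ∃ d, c = d + 3 := ⟨c - 3, by omega⟩
    have := ih d (by omega) (by omega) (by omega)
    rw [nu_add_three]
    omega

theorem nu_four : nu 4 = 1 := by decide

theorem caseB_ne [CharP K p] (h : IsRow a ρ l c) (hc : c < p - 1)
    (hS : ∀ v, ∑ b, l (ρ (gam b) v) = 0) (hl : l ≠ 0) : (ρ (up 1) - 1 : Module.End K V) ^ c ≠ 0 := by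
  obtain ⟨v, hv⟩ : ∃ v, l v ≠ 0 := by
    by_contra hcon
    push Not at hcon
    exact hl (LinearMap.ext hcon)
  intro h0
  have h1 := (h.delta_pow hc hS hv (le_refl c)).2
  rw [h0, LinearMap.zero_apply, map_zero] at h1
  exact h1 rfl

theorem caseB_y [CharP K p] [IsAlgClosed K] [FiniteDimensional K V] (hp : 3 < p) (h : IsRow a ρ l c) (hc : c < p - 1)
    (hS : ∀ v, ∑ b, l (ρ (gam b) v) = 0) {v : V} (hv : l v ≠ 0)
    (hW : WW ρ l ≤ (WW ρ l).comap (ρ (y0 hp))) :
    fx ((WW ρ l).mapQ (WW ρ l) (ρ (y0 hp)) hW) = nu c := by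
  obtain ⟨s, hs⟩ : ∃ s : K, s ^ 2 = -3 := IsAlgClosed.exists_pow_nat_eq _ (by norm_num)
  have ha2 : (2 : K) ≠ 0 := by
    have := two_ne_zero' hp
    rw [← map_ofNat a, Ne, map_eq_zero]
    exact this
  have ha3 : (3 : K) ≠ 0 := by
    have := three_ne_zero' hp
    rw [← map_ofNat a, Ne, map_eq_zero]
    exact this
  have hord : orderOf ((s - 1) / 2) = 3 := by
    have : Fact (Nat.Prime 3) := ⟨by norm_num⟩
    apply orderOf_eq_prime
    · field_simp
      linear_combination (s - 3) * hs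
    · intro h1
      rw [div_eq_one_iff_eq ha2] at h1
      have h2 : s = 3 := by linear_combination h1
      rw [h2] at hs
      have h3 : (2 : K) * 2 * 3 = 0 := by linear_combination hs
      exact (mul_ne_zero (mul_ne_zero ha2 ha2) ha3) h3
  rw [fx_y0_quot hp h hc hS hv hs rfl hW]
  have h1 : ∀ i : Fin (c + 1), ((s - 1) / 2) ^ ((i : ℕ) + 2 * (c - (i : ℕ))) = 1 ↔ ((i : ℕ) + 2 * (c - (i : ℕ))) % 3 = 0 := by
    intro i
    rw [← orderOf_dvd_iff_pow_eq_one, hord, Nat.dvd_iff_mod_eq_zero]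
  rw [Nat.card_congr (Equiv.subtypeEquivRight h1), Nat.card_eq_fintype_card, Fintype.card_subtype, nu]
  rw [Finset.card_filter, Finset.card_filter, Finset.sum_range]

theorem caseB_wt [CharP K p] [FiniteDimensional K V] (h : IsRow a ρ l c) (hc : c < p - 1)
    (hS : ∀ v, ∑ b, l (ρ (gam b) v) = 0) {v : V} (hv : l v ≠ 0) {t : (ZMod p)ˣ}
    (ht : ∀ s : (ZMod p)ˣ, ∃ k : ℕ, s = t ^ k) (i : ℤ)
    (hW : WW ρ l ≤ (WW ρ l).comap (wf a ρ t i)) :
    fx ((WW ρ l).mapQ (WW ρ l) (wf a ρ t i) hW) =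
      Nat.card {j : Fin (c + 1) // ((p - 1 : ℕ) : ℤ) ∣ ((c : ℤ) - 2 * (j : ℕ) - i)} := by
  rw [fx_weight_quot h hc hS hv t (a ((t ^ (-i) : (ZMod p)ˣ) : ZMod p)) (f := wf a ρ t i) rfl hW]
  have hord : orderOf t = p - 1 := by
    rw [← ZMod.card_units p, ← Nat.card_eq_fintype_card]
    apply orderOf_eq_card_of_forall_mem_zpowers
    intro s
    obtain ⟨k, rfl⟩ := ht s
    exact Subgroup.npow_mem_zpowers t k
  apply Nat.card_congr
  apply Equiv.subtypeEquivRight
  intro j
  rw [← hord, orderOf_dvd_iff_zpow_eq_one]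
  have hj : (j : ℕ) ≤ c := by omega
  have h1 : a ((t ^ (-i) : (ZMod p)ˣ) : ZMod p) * (a t ^ (c - (j : ℕ)) * a (t⁻¹ : (ZMod p)ˣ) ^ (j : ℕ)) =
      a ((t ^ ((c : ℤ) - 2 * (j : ℕ) - i) : (ZMod p)ˣ) : ZMod p) := by
    rw [← map_pow, ← map_pow, ← map_mul, ← map_mul, ← Units.val_pow_eq_pow_val, ← Units.val_pow_eq_pow_val,
      ← Units.val_mul, ← Units.val_mul]
    congr 2
    rw [inv_pow, ← zpow_natCast, ← zpow_natCast, ← _root_.zpow_neg, ← _root_.zpow_add, ← _root_.zpow_add]
    congr 1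
    rw [Nat.cast_sub hj]
    ring
  rw [h1]
  constructor
  · intro h2
    rw [← map_one a] at h2
    have h3 := a.injective h2
    rwa [Units.val_eq_one] at h3
  · intro h2
    rw [h2, Units.val_one, map_one]

end Cfsg.Agent.H892.WeightsDim
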