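import Mathlib
import Cfsg.Agent.H892.WeightsDim

/-!
# Fixed points in the defining characteristic: `dim V ≤ 2 dim C_V(u) + 4 dim C_V(y)` for `SL₂(p)`
-/

set_option autoImplicit false

namespace Cfsg.Agent.H892.DefChar

open Module Matrix Cfsg.Agent.H892.FixDim Cfsg.Agent.H892.CoprimeChar Cfsg.Agent.H892.RowQuot
open Cfsg.Agent.H892.GLTorus Cfsg.Agent.H892.Weights Cfsg.Agent.H892.QuotBounds Cfsg.Agent.H892.WeightsDim
open Cfsg.Agent.ClassicalGeometry.SplitTorus

variable {p : ℕ} [Fact p.Prime]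

section basics

variable {K V : Type*} [Field K] [AddCommGroup V] [Module K V]
variable {a : ZMod p →+* K} {ρ : Representation K (SS p) V} {l : Module.Dual K V} {c : ℕ}

/-- the restriction to the kernel -/
noncomputable def sub (ρ : Representation K (SS p) V) (l : Module.Dual K V) : Representation K (SS p) (WW ρ l) :=
  ρ.subrepresentation (WW ρ l) (fun g => WW_inv g)

omit [Fact p.Prime] in
theorem sub_apply (g : SS p) : sub ρ l g = (ρ g).restrict (WW_inv g) := rfl

theorem exists_row [CharP K p] [Nontrivial V] : ∃ (l : Module.Dual K V) (c : ℕ), IsRow a ρ l c ∧ c < p - 1 ∧ l ≠ 0 := by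
  have h1 : LinearMap.range (ρ (up 1) - 1 : Module.End K V) ≠ ⊤ := by
    intro h
    rw [LinearMap.range_eq_top] at h
    have h2 : ∀ k : ℕ, Function.Surjective ((ρ (up 1) - 1 : Module.End K V) ^ k) := by
      intro k
      induction k with
      | zero => intro x; exact ⟨x, by simp⟩
      | succ k ih =>
        rw [pow_succ]
        exact ih.comp h
    obtain ⟨x, hx⟩ := exists_ne (0 : V)
    obtain ⟨y, hy⟩ := h2 p x
    rw [up_one_pow_p, LinearMap.zero_apply] at hy
    exact hx hy.symm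
  obtain ⟨i, x, hx, hx'⟩ := exists_pr_notMem (a := a) (ρ := ρ) _ h1
  obtain ⟨l, c, h2, h3, _, h4⟩ := exists_isRow hx hx'
  refine ⟨l, c, h2, h3, ?_⟩
  rintro rfl
  exact h4 rfl

theorem exists_ne_of_ne {l : Module.Dual K V} (hl : l ≠ 0) : ∃ v, l v ≠ 0 := by
  by_contra hcon
  push Not at hcon
  exact hl (LinearMap.ext hcon)

theorem row_parity (h : IsRow a ρ l c) (hl : l ≠ 0) {ε : K} (hε : ρ (dg (-1)) = ε • 1) : (-1 : K) ^ c = ε := by
  obtain ⟨v, hv⟩ := exists_ne_of_ne hl
  have h1 := h.dg_act (-1) v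
  have h2 : (dg (-1 : (ZMod p)ˣ))⁻¹ = dg (-1) := by
    rw [← dg_inv]
    congr 1
  rw [h2, hε, LinearMap.smul_apply, Module.End.one_apply, map_smul, smul_eq_mul] at h1
  have h3 := mul_right_cancel₀ hv h1
  rw [h3]
  simp

variable [FiniteDimensional K V]

omit [Fact p.Prime] in
theorem finrank_WW_lt (hl : l ≠ 0) : finrank K (WW ρ l) < finrank K V := by
  apply Submodule.finrank_lt
  intro h
  obtain ⟨v, hv⟩ := exists_ne_of_ne hl
  have h1 : v ∈ WW ρ l := by rw [h]; trivial
  have h2 := mem_WW.1 h1 1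
  rw [map_one, Module.End.one_apply] at h2
  exact hv h2

omit [FiniteDimensional K V] in
theorem wf_le_comap (t : (ZMod p)ˣ) (i : ℤ) : WW ρ l ≤ (WW ρ l).comap (wf a ρ t i) := by
  intro v hv
  rw [Submodule.mem_comap]
  exact Submodule.smul_mem _ _ (WW_inv _ hv)

theorem fx_wf_add [CharP K p] (t : (ZMod p)ˣ) (i : ℤ) :
    fx (wf a ρ t i) = fx (wf a (sub ρ l) t i) + fx ((WW ρ l).mapQ (WW ρ l) (wf a ρ t i) (wf_le_comap t i)) := by
  have hp := (Fact.out : p.Prime).two_le
  exact fx_add (n := p - 1) (by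
    rw [Nat.cast_sub (by omega), CharP.cast_eq_zero, Nat.cast_one, zero_sub]
    exact neg_ne_zero.2 one_ne_zero) (wf a ρ t i) (wf_pow t i) (WW ρ l) (wf_le_comap t i)

theorem fx_y0_add [CharP K p] (hp : 3 < p) :
    fx (ρ (y0 hp)) = fx (sub ρ l (y0 hp)) + fx ((WW ρ l).mapQ (WW ρ l) (ρ (y0 hp)) (WW_inv _)) := by
  refine fx_add (n := 3) ?_ (ρ (y0 hp)) ?_ (WW ρ l) (WW_inv _)
  · rw [Ne, CharP.cast_eq_zero_iff K p]
    intro h
    have := Nat.le_of_dvd (by norm_num) h
    omega
  · rw [← map_pow, y0_pow_three, map_one]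

omit [FiniteDimensional K V] in
theorem finset_exists (p : ℕ) [Fact p.Prime] : ∃ t : (ZMod p)ˣ, ∀ s : (ZMod p)ˣ, ∃ k : ℕ, s = t ^ k := by
  obtain ⟨t, ht⟩ := IsCyclic.exists_generator (α := (ZMod p)ˣ)
  refine ⟨t, fun s => ?_⟩
  have := ht s
  rw [← mem_powers_iff_mem_zpowers] at this
  obtain ⟨k, hk⟩ := this
  exact ⟨k, hk.symm⟩

/-! ### Bounds for the quotients -/

theorem quot_bound [CharP K p] [IsAlgClosed K] (hp : 11 ≤ p) (h3 : p % 3 = 2)
    (h : IsRow a ρ l c) (hc : c < p - 1) (hl : l ≠ 0) (hc1 : c ≠ 1) (hc4 : c ≠ 4) :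
    finrank K (V ⧸ WW ρ l) ≤ 4 * fx ((WW ρ l).mapQ (WW ρ l) (ρ (y0 (by omega))) (WW_inv _)) := by
  have hp3 : 3 < p := by omega
  obtain ⟨v, hv⟩ := exists_ne_of_ne hl
  by_cases hS : ∀ v, ∑ b, l (ρ (gam b) v) = 0
  · rw [h.finrank_quot hc hS hv, caseB_y hp3 h hc hS hv]
    exact nu_bound c hc1 hc4
  · push Not at hS
    obtain ⟨w, hw⟩ := hS
    exact caseA_bound hp h3 h hw _

theorem quot_even [CharP K p] [IsAlgClosed K] (hp : 11 ≤ p) (h3 : p % 3 = 2)
    (h : IsRow a ρ l c) (hc : c < p - 1) (hl : l ≠ 0) (hρ : ρ (dg (-1)) = 1) {t : (ZMod p)ˣ}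
    (ht : ∀ s : (ZMod p)ˣ, ∃ k : ℕ, s = t ^ k) :
    finrank K (V ⧸ WW ρ l) ≤ 4 * fx ((WW ρ l).mapQ (WW ρ l) (ρ (y0 (by omega))) (WW_inv _)) +
      fx ((WW ρ l).mapQ (WW ρ l) (wf a ρ t 0) (wf_le_comap t 0)) := by
  have hp3 : 3 < p := by omega
  have hpar := row_parity h hl (ε := 1) (by rw [hρ, one_smul])
  have h2 : (2 : K) ≠ 0 := by
    have := two_ne_zero' hp3
    rw [← map_ofNat a, Ne, map_eq_zero]
    exact this
  have heven : Even c := by
    rcases Nat.even_or_odd c with h1 | h1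
    · exact h1
    · exfalso
      rw [h1.neg_one_pow] at hpar
      apply h2
      linear_combination -hpar
  by_cases hc4 : c = 4
  · by_cases hS : ∀ v, ∑ b, l (ρ (gam b) v) = 0
    · obtain ⟨v, hv⟩ := exists_ne_of_ne hl
      rw [h.finrank_quot hc hS hv, caseB_y hp3 h hc hS hv, caseB_wt h hc hS hv ht]
      subst hc4
      have h4 : 0 < Nat.card {j : Fin (4 + 1) // ((p - 1 : ℕ) : ℤ) ∣ (((4 : ℕ) : ℤ) - 2 * (j : ℕ) - 0)} := by
        rw [Nat.card_pos_iff]
        exact ⟨⟨⟨⟨2, by norm_num⟩, by norm_num⟩⟩, inferInstance⟩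
      rw [nu_four]
      omega
    · push Not at hS
      obtain ⟨w, hw⟩ := hS
      have := caseA_bound hp h3 h hw (WW_inv _)
      omega
  · have hc1 : c ≠ 1 := by
      rintro rfl
      exact absurd heven (by decide)
    have := quot_bound hp h3 h hc hl hc1 hc4
    omega

theorem quot_odd [CharP K p] [IsAlgClosed K] (hp : 11 ≤ p)
    (h : IsRow a ρ l c) (hc : c < p - 1) (hl : l ≠ 0) (hρ : ρ (dg (-1)) = -1)
    (hnil : (ρ (up 1) - 1 : Module.End K V) ^ ((p + 3) / 2) = 0) {t : (ZMod p)ˣ}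
    (ht : ∀ s : (ZMod p)ˣ, ∃ k : ℕ, s = t ^ k) :
    finrank K (V ⧸ WW ρ l) + 2 * fx ((WW ρ l).mapQ (WW ρ l) (wf a ρ t 3) (wf_le_comap t 3)) ≤
      4 * fx ((WW ρ l).mapQ (WW ρ l) (ρ (y0 (by omega))) (WW_inv _)) +
      2 * fx ((WW ρ l).mapQ (WW ρ l) (wf a ρ t 1) (wf_le_comap t 1)) := by
  have hp3 : 3 < p := by omega
  have hpar := row_parity h hl (ε := -1) (by rw [hρ, neg_smul, one_smul])
  have h2 : (2 : K) ≠ 0 := by
    have := two_ne_zero' hp3
    rw [← map_ofNat a, Ne, map_eq_zero]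
    exact this
  have hodd : Odd c := by
    rcases Nat.even_or_odd c with h1 | h1
    · exfalso
      rw [h1.neg_one_pow] at hpar
      apply h2
      linear_combination hpar
    · exact h1
  by_cases hS : ∀ v, ∑ b, l (ρ (gam b) v) = 0
  · obtain ⟨v, hv⟩ := exists_ne_of_ne hl
    have hcc : c < (p + 3) / 2 := by
      by_contra hcon
      push Not at hcon
      apply caseB_ne h hc hS hl
      have : c = (p + 3) / 2 + (c - (p + 3) / 2) := by omega
      rw [this, pow_add, hnil, zero_mul]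
    rw [h.finrank_quot hc hS hv, caseB_y hp3 h hc hS hv, caseB_wt h hc hS hv ht, caseB_wt h hc hS hv ht]
    obtain ⟨k, hk⟩ := hodd
    have hM1 : 0 < Nat.card {j : Fin (c + 1) // ((p - 1 : ℕ) : ℤ) ∣ ((c : ℤ) - 2 * (j : ℕ) - 1)} := by
      rw [Nat.card_pos_iff]
      refine ⟨⟨⟨⟨k, by omega⟩, ?_⟩⟩, inferInstance⟩
      have : (c : ℤ) - 2 * ((k : ℕ) : ℤ) - 1 = 0 := by rw [hk]; push_cast; ring
      simp only
      rw [this]
      exact dvd_zero _
    have hpp : ((p - 1 : ℕ) : ℤ) = (p : ℤ) - 1 := by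
      rw [Nat.cast_sub (by omega)]
      simp
    have hM3 : ∀ j : Fin (c + 1), ((p - 1 : ℕ) : ℤ) ∣ ((c : ℤ) - 2 * (j : ℕ) - 3) → (c : ℤ) - 2 * (j : ℕ) - 3 = 0 := by
      intro j hj
      apply Int.eq_zero_of_abs_lt_dvd hj
      rw [hpp, abs_lt]
      have hj2 : (j : ℕ) < c + 1 := j.2
      constructor <;> omega
    by_cases hc1 : c = 1
    · have hM3' : Nat.card {j : Fin (c + 1) // ((p - 1 : ℕ) : ℤ) ∣ ((c : ℤ) - 2 * (j : ℕ) - 3)} = 0 := by
        rw [Nat.card_eq_zero]
        left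
        refine ⟨fun j => ?_⟩
        have := hM3 j.1 j.2
        omega
      rw [hM3']
      omega
    · have hM3' : Nat.card {j : Fin (c + 1) // ((p - 1 : ℕ) : ℤ) ∣ ((c : ℤ) - 2 * (j : ℕ) - 3)} ≤ 1 := by
        have : Subsingleton {j : Fin (c + 1) // ((p - 1 : ℕ) : ℤ) ∣ ((c : ℤ) - 2 * (j : ℕ) - 3)} := by
          refine ⟨fun j j' => ?_⟩
          have e1 := hM3 j.1 j.2
          have e2 := hM3 j'.1 j'.2
          apply Subtype.ext
          apply Fin.ext
          omega
        exact Finite.card_le_one_iff_subsingleton.2 this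
      have := nu_bound c hc1 (by omega)
      omega
  · exfalso
    push Not at hS
    obtain ⟨w, hw⟩ := hS
    apply caseA_ne hw
    have : p - 1 = (p + 3) / 2 + (p - 1 - (p + 3) / 2) := by omega
    rw [this, pow_add, hnil, zero_mul]

end basics

universe u v

theorem lin_even {K : Type u} [Field K] [CharP K p] [IsAlgClosed K] {a : ZMod p →+* K} (hp : 11 ≤ p) (h3 : p % 3 = 2)
    {t : (ZMod p)ˣ} (ht : ∀ s : (ZMod p)ˣ, ∃ k : ℕ, s = t ^ k) (n : ℕ) :
    ∀ (V : Type v) [AddCommGroup V] [Module K V] [FiniteDimensional K V] (ρ : Representation K (SS p) V),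
      ρ (dg (-1)) = 1 → finrank K V = n →
      finrank K V ≤ 4 * fx (ρ (y0 (by omega))) + fx (wf a ρ t 0) := by
  have hp3 : 3 < p := by omega
  induction n using Nat.strong_induction_on with
  | _ n ih =>
    intro V _ _ _ ρ hρ hn
    rcases subsingleton_or_nontrivial V with hV | hV
    · rw [Module.finrank_zero_of_subsingleton]
      exact Nat.zero_le _
    · obtain ⟨l, c, h, hc, hl⟩ := exists_row (a := a) (ρ := ρ)
      have h1 := finrank_WW_lt (ρ := ρ) hl
      have h2 := ih (finrank K (WW ρ l)) (by omega) (WW ρ l) (sub ρ l) (by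
        rw [sub_apply]
        ext x
        rw [LinearMap.restrict_apply, Module.End.one_apply]
        simp only [hρ, Module.End.one_apply]) rfl
      have h4 := quot_even hp h3 h hc hl hρ ht
      have h5 := Submodule.finrank_quotient_add_finrank (WW ρ l)
      have h6 := fx_wf_add (a := a) (ρ := ρ) (l := l) t 0
      have h7 := fx_y0_add (ρ := ρ) (l := l) hp3
      omega

theorem lin_odd {K : Type u} [Field K] [CharP K p] [IsAlgClosed K] {a : ZMod p →+* K} (hp : 11 ≤ p)
    {t : (ZMod p)ˣ} (ht : ∀ s : (ZMod p)ˣ, ∃ k : ℕ, s = t ^ k) (n : ℕ) :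
    ∀ (V : Type v) [AddCommGroup V] [Module K V] [FiniteDimensional K V] (ρ : Representation K (SS p) V),
      ρ (dg (-1)) = -1 → (ρ (up 1) - 1 : Module.End K V) ^ ((p + 3) / 2) = 0 → finrank K V = n →
      finrank K V + 2 * fx (wf a ρ t 3) ≤ 4 * fx (ρ (y0 (by omega))) + 2 * fx (wf a ρ t 1) := by
  have hp3 : 3 < p := by omega
  induction n using Nat.strong_induction_on with
  | _ n ih =>
    intro V _ _ _ ρ hρ hnil hn
    rcases subsingleton_or_nontrivial V with hV | hV
    · rw [Module.finrank_zero_of_subsingleton, fx, Module.finrank_zero_of_subsingleton]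
      exact Nat.zero_le _
    · obtain ⟨l, c, h, hc, hl⟩ := exists_row (a := a) (ρ := ρ)
      have h1 := finrank_WW_lt (ρ := ρ) hl
      have hres : ∀ (k : ℕ) (x : WW ρ l), ((((sub ρ l) (up 1) - 1 : Module.End K (WW ρ l)) ^ k) x : V) =
          ((ρ (up 1) - 1 : Module.End K V) ^ k) x := by
        intro k
        induction k with
        | zero => intro x; simp
        | succ k ihk =>
          intro x
          rw [pow_succ, pow_succ, Module.End.mul_apply, Module.End.mul_apply, ihk]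
          rfl
      have h2 := ih (finrank K (WW ρ l)) (by omega) (WW ρ l) (sub ρ l) (by
        rw [sub_apply]
        ext x
        rw [LinearMap.restrict_apply, LinearMap.neg_apply, Module.End.one_apply]
        simp only [hρ, LinearMap.neg_apply, Module.End.one_apply, NegMemClass.coe_neg]) (by
        ext x
        rw [hres, hnil]
        rfl) rfl
      have h4 := quot_odd hp h hc hl hρ hnil ht
      have h5 := Submodule.finrank_quotient_add_finrank (WW ρ l)
      have h6 := fx_wf_add (a := a) (ρ := ρ) (l := l) t 1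
      have h6' := fx_wf_add (a := a) (ρ := ρ) (l := l) t 3
      have h7 := fx_y0_add (ρ := ρ) (l := l) hp3
      omega

/-! ### Reduced modules -/

section reduced

variable {K : Type u} [Field K] [CharP K p] {a : ZMod p →+* K}
variable {V : Type v} [AddCommGroup V] [Module K V] {ρ : Representation K (SS p) V}

theorem red_range {c0 : ℕ} (hrow : ∀ (l : Module.Dual K V) (c : ℕ), IsRow a ρ l c → c < p - 1 → l ≠ 0 → c = c0)
    (hp : 3 < p) {i : ℤ} {x : V} (hx : x ∈ Wt a ρ i) (hx' : x ∉ LinearMap.range (EE a ρ)) :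
    ((p - 1 : ℕ) : ℤ) ∣ (i + c0) := by
  rw [EE_range hp] at hx'
  obtain ⟨l, c, h1, h2, h3, h4⟩ := exists_isRow hx hx'
  rw [← hrow l c h1 h2 (by rintro rfl; exact h4 rfl)]
  exact h3

theorem red_ker {c0 : ℕ} (hrow : ∀ (l : Module.Dual K (Module.Dual K V)) (c : ℕ), IsRow a ρ.dual l c → c < p - 1 →
      l ≠ 0 → c = c0)
    (hp : 3 < p) {i : ℤ} {x : V} (hx : x ∈ Wt a ρ i) (hx0 : x ≠ 0) (hx' : EE a ρ x = 0) :
    ((p - 1 : ℕ) : ℤ) ∣ (i - c0) := by
  rw [EE_eq_zero_iff hp] at hx'
  obtain ⟨l, c, h1, h2, h3, h4⟩ := exists_dual_isRow hx hx' hx0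
  rw [← hrow l c h1 h2 h4]
  exact h3

theorem odd_nil (hp : 11 ≤ p)
    (hrow : ∀ (l : Module.Dual K V) (c : ℕ), IsRow a ρ l c → c < p - 1 → l ≠ 0 → c = 1)
    (hdual : ∀ (l : Module.Dual K (Module.Dual K V)) (c : ℕ), IsRow a ρ.dual l c → c < p - 1 → l ≠ 0 → c = 1)
    (j : ℕ) : ∀ k, (p + 3) / 2 ≤ k → k + j = p → (EE a ρ) ^ k = 0 := by
  have hp3 : 3 < p := by omega
  induction j with
  | zero =>
    intro k _ hk
    rw [EE_pow_eq_zero_iff hp3]
    have : k = p := by omega
    rw [this]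
    exact up_one_pow_p
  | succ j ih =>
    intro k hk hkj
    have h1 := ih (k + 1) (by omega) (by omega)
    by_contra hne
    obtain ⟨i, x, hx, hx'⟩ := exists_pr_ne (a := a) (ρ := ρ) ((EE a ρ) ^ k) hne
    have h2 : x ∉ LinearMap.range (EE a ρ) := by
      rintro ⟨w, rfl⟩
      apply hx'
      rw [← Module.End.mul_apply, ← pow_succ, h1, LinearMap.zero_apply]
    have h3 := red_range hrow hp3 hx h2
    have h4 := red_ker hdual hp3 (EE_pow_mem hx k) hx' (by
      rw [← Module.End.mul_apply, ← pow_succ', h1, LinearMap.zero_apply])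
    have h5 : ((p - 1 : ℕ) : ℤ) ∣ 2 * (k : ℤ) - 2 := by
      have := dvd_sub h4 h3
      have e : i + 2 * (k : ℤ) - ((1 : ℕ) : ℤ) - (i + ((1 : ℕ) : ℤ)) = 2 * (k : ℤ) - 2 := by push_cast; ring
      rwa [e] at this
    have hpp : ((p - 1 : ℕ) : ℤ) = (p : ℤ) - 1 := by
      rw [Nat.cast_sub (by omega)]
      simp
    have h6 : ((p - 1 : ℕ) : ℤ) ∣ 2 * (k : ℤ) - 2 - ((p - 1 : ℕ) : ℤ) := dvd_sub h5 (dvd_refl _)
    rw [hpp] at h6
    have h7 := Int.eq_zero_of_abs_lt_dvd h6 (by
      rw [abs_lt]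
      constructor <;> omega)
    have hodd : p % 2 = 1 := Nat.odd_iff.1 ((Fact.out : p.Prime).odd_of_ne_two (by omega))
    omega

theorem even_kill {N : ℕ} (hN : 2 * N = p - 1) (hp : 11 ≤ p)
    (hdual : ∀ (l : Module.Dual K (Module.Dual K V)) (c : ℕ), IsRow a ρ.dual l c → c < p - 1 → l ≠ 0 → c = 4)
    {x : V} (hx : x ∈ Wt a ρ 4) (m : ℕ) (hm : m < N) (h : ((EE a ρ) ^ (m + 1)) x = 0) : EE a ρ x = 0 := by
  have hp3 : 3 < p := by omega
  induction m with
  | zero => simpa using h
  | succ m ih =>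
    apply ih (by omega)
    by_contra hne
    have h4 := red_ker hdual hp3 (EE_pow_mem hx (m + 1)) hne (by
      rw [← Module.End.mul_apply, ← pow_succ']
      exact h)
    have e : (4 : ℤ) + 2 * ((m + 1 : ℕ) : ℤ) - ((4 : ℕ) : ℤ) = 2 * ((m + 1 : ℕ) : ℤ) := by push_cast; ring
    rw [e, ← hN] at h4
    have h5 := Int.eq_zero_of_abs_lt_dvd h4 (by
      rw [abs_lt]
      push_cast
      constructor <;> omega)
    push_cast at h5
    omega

variable [FiniteDimensional K V]

theorem wt_one_le (hp : 3 < p) : finrank K (Wt a ρ 1) ≤ fx (ρ (up 1)) + finrank K (Wt a ρ 3) := by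
  have hmem : ∀ x ∈ Wt a ρ 1, EE a ρ x ∈ Wt a ρ 3 := by
    intro x hx
    have h0 := EE_mem hx
    have e : (1 : ℤ) + 2 = 3 := by norm_num
    rwa [e] at h0
  let f : Wt a ρ 1 →ₗ[K] Wt a ρ 3 := (EE a ρ).restrict hmem
  have h1 := LinearMap.finrank_range_add_finrank_ker f
  have h2 : finrank K (LinearMap.range f) ≤ finrank K (Wt a ρ 3) := Submodule.finrank_le _
  have h3 : finrank K (LinearMap.ker f) ≤ fx (ρ (up 1)) := by
    rw [← Submodule.finrank_map_subtype_eq (Wt a ρ 1) (LinearMap.ker f)]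
    apply Submodule.finrank_mono
    rintro _ ⟨x, hx, rfl⟩
    rw [mem_ker_sub_one, ← EE_eq_zero_iff (a := a) hp]
    exact congrArg Subtype.val hx
  omega

theorem wt_zero_le (hp : 11 ≤ p)
    (hdual : ∀ (l : Module.Dual K (Module.Dual K V)) (c : ℕ), IsRow a ρ.dual l c → c < p - 1 → l ≠ 0 → c = 4) :
    finrank K (Wt a ρ 0) ≤ 2 * fx (ρ (up 1)) := by
  have hp3 : 3 < p := by omega
  obtain ⟨N, hN⟩ : ∃ N, 2 * N = p - 1 := by
    have hodd : p % 2 = 1 := Nat.odd_iff.1 ((Fact.out : p.Prime).odd_of_ne_two (by omega))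
    exact ⟨(p - 1) / 2, by omega⟩
  have hE2 : ∀ x ∈ Wt a ρ 0, ((EE a ρ) ^ 2) x ∈ Wt a ρ 4 := by
    intro x hx
    have h0 := EE_pow_mem hx 2
    have e : (0 : ℤ) + 2 * ((2 : ℕ) : ℤ) = 4 := by norm_num
    rwa [e] at h0
  let f : Wt a ρ 0 →ₗ[K] V := ((EE a ρ) ^ (N + 2)) ∘ₗ (Wt a ρ 0).subtype
  have h1 := LinearMap.finrank_range_add_finrank_ker f
  have h2 : finrank K (LinearMap.range f) ≤ fx (ρ (up 1)) := by
    apply Submodule.finrank_mono
    rintro _ ⟨⟨x, hx⟩, rfl⟩
    rw [mem_ker_sub_one, ← EE_eq_zero_iff (a := a) hp3]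
    have h4 : ((EE a ρ) ^ (N + 2)) x ∈ Wt a ρ 4 := by
      have h5 := EE_pow_mem hx (N + 2)
      have h6 : Wt a ρ (0 + 2 * ((N + 2 : ℕ) : ℤ)) = Wt a ρ 4 := by
        apply Wt_congr
        refine ⟨1, ?_⟩
        rw [← hN]
        push_cast
        ring
      rwa [h6] at h5
    refine even_kill hN hp hdual h4 (N - 1) (by omega) ?_
    have e : N - 1 + 1 = N := by omega
    change ((EE a ρ) ^ (N - 1 + 1)) (((EE a ρ) ^ (N + 2)) x) = 0
    rw [e, ← Module.End.mul_apply, ← pow_add]
    have e2 : N + (N + 2) = p + 1 := by omega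
    rw [e2, pow_succ', (EE_pow_eq_zero_iff hp3 p).2 up_one_pow_p, mul_zero, LinearMap.zero_apply]
  have h3 : finrank K (LinearMap.ker f) ≤ fx (ρ (up 1)) := by
    let g : LinearMap.ker f →ₗ[K] LinearMap.ker (ρ (up 1) - 1) :=
      (((EE a ρ) ^ 2) ∘ₗ (Wt a ρ 0).subtype ∘ₗ (LinearMap.ker f).subtype).codRestrict _ (by
        rintro ⟨⟨x, hx⟩, hx'⟩
        rw [mem_ker_sub_one, ← EE_eq_zero_iff (a := a) hp3]
        refine even_kill hN hp hdual (hE2 x hx) (N - 1) (by omega) ?_
        have e : N - 1 + 1 = N := by omega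
        change ((EE a ρ) ^ (N - 1 + 1)) (((EE a ρ) ^ 2) x) = 0
        rw [e, ← Module.End.mul_apply, ← pow_add]
        exact hx')
    apply LinearMap.finrank_le_finrank_of_injective (f := g)
    rw [← LinearMap.ker_eq_bot, eq_bot_iff]
    rintro ⟨⟨x, hx⟩, hx'⟩ hg
    have hg2 : ((EE a ρ) ^ 2) x = 0 := congrArg Subtype.val hg
    have hEx : EE a ρ x = 0 := by
      by_contra hne
      have h4 := red_ker hdual hp3 (EE_mem hx) hne (by
        rw [← Module.End.mul_apply, ← pow_two]
        exact hg2)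
      have h5 := Int.eq_zero_of_abs_lt_dvd h4 (by
        rw [abs_lt, ← hN]
        push_cast
        constructor <;> omega)
      norm_num at h5
    have hx0 : x = 0 := by
      by_contra hne
      have h4 := red_ker hdual hp3 hx hne hEx
      have h5 := Int.eq_zero_of_abs_lt_dvd h4 (by
        rw [abs_lt, ← hN]
        push_cast
        constructor <;> omega)
      norm_num at h5
    rw [Submodule.mem_bot]
    apply Subtype.ext
    apply Subtype.ext
    exact hx0
  omega

end reduced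

/-! ### The main induction -/

theorem fx_superadd {K V : Type*} [Field K] [AddCommGroup V] [Module K V] [FiniteDimensional K V] (f : Module.End K V)
    {A B : Submodule K V} (hAB : Disjoint A B) (hA : ∀ x ∈ A, f x ∈ A) (hB : ∀ x ∈ B, f x ∈ B) :
    fx (f.restrict hA) + fx (f.restrict hB) ≤ fx f := by
  unfold fx
  rw [← Submodule.finrank_map_subtype_eq A (LinearMap.ker (f.restrict hA - 1)),
    ← Submodule.finrank_map_subtype_eq B (LinearMap.ker (f.restrict hB - 1))]
  have hd : Disjoint ((LinearMap.ker (f.restrict hA - 1)).map A.subtype) ((LinearMap.ker (f.restrict hB - 1)).map B.subtype) :=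
    hAB.mono (Submodule.map_subtype_le _ _) (Submodule.map_subtype_le _ _)
  have h1 := Submodule.finrank_sup_add_finrank_inf_eq ((LinearMap.ker (f.restrict hA - 1)).map A.subtype)
    ((LinearMap.ker (f.restrict hB - 1)).map B.subtype)
  rw [hd.eq_bot, finrank_bot, add_zero] at h1
  rw [← h1]
  apply Submodule.finrank_mono
  apply sup_le
  · rintro _ ⟨x, hx, rfl⟩
    rw [SetLike.mem_coe, mem_ker_sub_one] at hx
    rw [mem_ker_sub_one]
    exact congrArg Subtype.val hx
  · rintro _ ⟨x, hx, rfl⟩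
    rw [SetLike.mem_coe, mem_ker_sub_one] at hx
    rw [mem_ker_sub_one]
    exact congrArg Subtype.val hx

theorem bad_row {K : Type u} [Field K] [CharP K p] [IsAlgClosed K] {a : ZMod p →+* K} (hp : 11 ≤ p) (h3 : p % 3 = 2)
    {n : ℕ} (ih : ∀ m < n, ∀ (V : Type v) [AddCommGroup V] [Module K V] [FiniteDimensional K V]
      (ρ : Representation K (SS p) V), finrank K V = m →
      finrank K V ≤ 2 * fx (ρ (up 1)) + 4 * fx (ρ (y0 (by omega))))
    (V : Type v) [AddCommGroup V] [Module K V] [FiniteDimensional K V]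
    (ρ : Representation K (SS p) V) (hn : finrank K V = n) {l : Module.Dual K V} {c : ℕ}
    (h : IsRow a ρ l c) (hc : c < p - 1) (hl : l ≠ 0) (hc1 : c ≠ 1) (hc4 : c ≠ 4) :
    finrank K V ≤ 2 * fx (ρ (up 1)) + 4 * fx (ρ (y0 (by omega))) := by
  have hp3 : 3 < p := by omega
  have h1 := finrank_WW_lt (ρ := ρ) hl
  have h2 := ih (finrank K (WW ρ l)) (by omega) (WW ρ l) (sub ρ l) rfl
  have h4 := quot_bound hp h3 h hc hl hc1 hc4
  have h5 := Submodule.finrank_quotient_add_finrank (WW ρ l)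
  have h7 := fx_y0_add (ρ := ρ) (l := l) hp3
  have h8 : fx (sub ρ l (up 1)) ≤ fx (ρ (up 1)) := fx_restrict_le (ρ (up 1)) (WW ρ l) (WW_inv _)
  omega

theorem neg_comm (g : SS p) : dg (-1) * g = g * dg (-1) := by
  apply ext2
  · rw [mul00, mul00]; simp
  · rw [mul01, mul01]; simp
  · rw [mul10, mul10]; simp
  · rw [mul11, mul11]; simp

theorem main {K : Type u} [Field K] [CharP K p] [IsAlgClosed K] (a : ZMod p →+* K) (hp : 11 ≤ p) (h3 : p % 3 = 2)
    (n : ℕ) : ∀ (V : Type u) [AddCommGroup V] [Module K V] [FiniteDimensional K V]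
      (ρ : Representation K (SS p) V), finrank K V = n →
      finrank K V ≤ 2 * fx (ρ (up 1)) + 4 * fx (ρ (y0 (by omega))) := by
  have hp3 : 3 < p := by omega
  have h2K : (2 : K) ≠ 0 := by
    have := two_ne_zero' hp3
    rw [← map_ofNat a, Ne, map_eq_zero]
    exact this
  induction n using Nat.strong_induction_on with
  | _ n ih =>
    intro V _ _ _ ρ hn
    obtain ⟨t, ht⟩ := finset_exists p
    by_cases hbad : ∃ (l : Module.Dual K V) (c : ℕ), IsRow a ρ l c ∧ c < p - 1 ∧ l ≠ 0 ∧ c ≠ 1 ∧ c ≠ 4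
    · obtain ⟨l, c, h, hc, hl, hc1, hc4⟩ := hbad
      exact bad_row hp h3 ih V ρ hn h hc hl hc1 hc4
    by_cases hbad' : ∃ (l : Module.Dual K (Module.Dual K V)) (c : ℕ), IsRow a ρ.dual l c ∧ c < p - 1 ∧ l ≠ 0 ∧ c ≠ 1 ∧ c ≠ 4
    · obtain ⟨l, c, h, hc, hl, hc1, hc4⟩ := hbad'
      have := bad_row hp h3 ih (Module.Dual K V) ρ.dual (by rw [Subspace.dual_finrank_eq, hn]) h hc hl hc1 hc4
      rwa [Subspace.dual_finrank_eq, fx_dual, fx_dual] at this
    push Not at hbad hbad'
    by_cases hz1 : ρ (dg (-1)) = 1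
    · have hrow : ∀ (l : Module.Dual K (Module.Dual K V)) (c : ℕ), IsRow a ρ.dual l c → c < p - 1 → l ≠ 0 → c = 4 := by
        intro l c h hc hl
        apply hbad' l c h hc hl
        rintro rfl
        have h4 : ρ.dual (dg (-1)) = (1 : K) • 1 := by
          have h5 : (dg (-1 : (ZMod p)ˣ))⁻¹ = dg (-1) := by
            rw [← dg_inv]
            congr 1
          ext φ v
          rw [Representation.dual_apply, h5, hz1, one_smul]
          rfl
        have h6 := row_parity h hl h4
        apply h2K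
        linear_combination -h6
      have h7 := wt_zero_le hp hrow
      have h8 := lin_even (a := a) hp h3 ht n V ρ hz1 hn
      rw [fx_wf ht] at h8
      omega
    by_cases hz2 : ρ (dg (-1)) = -1
    · have hrow : ∀ (l : Module.Dual K V) (c : ℕ), IsRow a ρ l c → c < p - 1 → l ≠ 0 → c = 1 := by
        intro l c h hc hl
        by_contra hc1
        have hc4 := hbad l c h hc hl hc1
        subst hc4
        have h6 := row_parity h hl (ε := -1) (by rw [hz2, neg_smul, one_smul])
        apply h2K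
        linear_combination h6
      have hrow' : ∀ (l : Module.Dual K (Module.Dual K V)) (c : ℕ), IsRow a ρ.dual l c → c < p - 1 → l ≠ 0 → c = 1 := by
        intro l c h hc hl
        by_contra hc1
        have hc4 := hbad' l c h hc hl hc1
        subst hc4
        have h4 : ρ.dual (dg (-1)) = (-1 : K) • 1 := by
          have h5 : (dg (-1 : (ZMod p)ˣ))⁻¹ = dg (-1) := by
            rw [← dg_inv]
            congr 1
          ext φ v
          rw [Representation.dual_apply, h5, hz2]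
          change φ (-v) = (-1 : K) * φ v
          rw [map_neg, neg_mul, one_mul]
        have h6 := row_parity h hl h4
        apply h2K
        linear_combination h6
      have h7 := odd_nil hp hrow hrow' (p - (p + 3) / 2) ((p + 3) / 2) le_rfl (by omega)
      rw [EE_pow_eq_zero_iff hp3] at h7
      have h8 := lin_odd (a := a) hp ht n V ρ hz2 h7 hn
      have h9 := wt_one_le (a := a) (ρ := ρ) hp3
      rw [fx_wf ht, fx_wf ht] at h8
      omega
    · -- split
      set z := ρ (dg (-1)) with hz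
      have hzz : z * z = 1 := by
        rw [hz, ← map_mul, ← dg_mul]
        simp [dg_one]
      set A := LinearMap.ker (z - 1) with hA
      set B := LinearMap.ker (z + 1) with hB
      have hcomm : ∀ g v, z (ρ g v) = ρ g (z v) := by
        intro g v
        rw [hz, ← Module.End.mul_apply, ← map_mul, neg_comm, map_mul, Module.End.mul_apply]
      have mA : ∀ v, v ∈ A ↔ z v = v := fun v => mem_ker_sub_one
      have mB : ∀ v, v ∈ B ↔ z v = -v := by
        intro v
        rw [hB, LinearMap.mem_ker, LinearMap.add_apply, Module.End.one_apply, add_eq_zero_iff_eq_neg]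
      have hAi : ∀ g, A ≤ A.comap (ρ g) := by
        intro g v hv
        rw [Submodule.mem_comap, mA, hcomm, (mA v).1 hv]
      have hBi : ∀ g, B ≤ B.comap (ρ g) := by
        intro g v hv
        rw [Submodule.mem_comap, mB, hcomm, (mB v).1 hv, map_neg]
      have hdisj : Disjoint A B := by
        rw [Submodule.disjoint_def]
        intro v h4 h5
        rw [mA] at h4
        rw [mB, h4] at h5
        have h6 : (2 : K) • v = 0 := by
          rw [two_smul]
          nth_rewrite 1 [h5]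
          exact neg_add_cancel v
        exact (smul_eq_zero.1 h6).resolve_left h2K
      have hcod : Codisjoint A B := by
        rw [codisjoint_iff, eq_top_iff]
        intro v _
        have hzv : z (z v) = v := by rw [← Module.End.mul_apply, hzz, Module.End.one_apply]
        have h4 : v = (2 : K)⁻¹ • (v + z v) + (2 : K)⁻¹ • (v - z v) := by
          rw [← smul_add]
          have : v + z v + (v - z v) = (2 : K) • v := by rw [two_smul]; abel
          rw [this, smul_smul, inv_mul_cancel₀ h2K, one_smul]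
        rw [h4]
        apply Submodule.add_mem_sup
        · rw [mA, map_smul, map_add, hzv, add_comm]
        · rw [mB, map_smul, map_sub, hzv, ← smul_neg, neg_sub]
      have hsum := Submodule.finrank_add_eq_of_isCompl ⟨hdisj, hcod⟩
      have hA' : finrank K A < finrank K V := by
        apply Submodule.finrank_lt
        intro h4
        apply hz1
        ext v
        have : v ∈ A := by rw [h4]; trivial
        exact (mA v).1 this
      have hB' : finrank K B < finrank K V := by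
        apply Submodule.finrank_lt
        intro h4
        apply hz2
        ext v
        have : v ∈ B := by rw [h4]; trivial
        exact (mB v).1 this
      have h4 := ih (finrank K A) (by omega) A (ρ.subrepresentation A hAi) rfl
      have h5 := ih (finrank K B) (by omega) B (ρ.subrepresentation B hBi) rfl
      have h6 := fx_superadd (ρ (up 1)) hdisj (hAi _) (hBi _)
      have h7 := fx_superadd (ρ (y0 hp3)) hdisj (hAi _) (hBi _)
      have e1 : (ρ.subrepresentation A hAi) (up 1) = (ρ (up 1)).restrict (hAi _) := rfl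
      have e2 : (ρ.subrepresentation B hBi) (up 1) = (ρ (up 1)).restrict (hBi _) := rfl
      have e3 : (ρ.subrepresentation A hAi) (y0 hp3) = (ρ (y0 hp3)).restrict (hAi _) := rfl
      have e4 : (ρ.subrepresentation B hBi) (y0 hp3) = (ρ (y0 hp3)).restrict (hBi _) := rfl
      rw [e1, e3] at h4
      rw [e2, e4] at h5
      omega

end Cfsg.Agent.H892.DefChar
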