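import Mathlib
import Cfsg.Agent.H892.FixDim

/-!
# Large fixed spaces: elementary abelian groups of rank two and inverted elements
-/

set_option autoImplicit false

namespace Cfsg.Agent.H892.SmallConf

open Module Cfsg.Agent.H892.FixDim

variable {K V : Type*} [Field K] [AddCommGroup V] [Module K V] [FiniteDimensional K V]

/-- two elements (of order two) with small fixed spaces have a product with a large one -/
theorem involution_pair (f f' : V →ₗ[K] V) (hf : f * f = 1) (hf' : f' * f' = 1) :
    finrank K V ≤ fx f + fx f' + fx (f * f') := by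
  have key : ∀ φ : V →ₗ[K] V, φ * φ = 1 → finrank K V ≤ finrank K (LinearMap.ker (φ + 1)) + fx φ := by
    intro φ hφ
    have h1 := finrank_ker_comp_le (φ - 1) (φ + 1)
    have h2 : (φ - 1) ∘ₗ (φ + 1) = 0 := by
      change (φ - 1) * (φ + 1) = 0
      have : (φ - 1) * (φ + 1) = φ * φ - 1 := by noncomm_ring
      rw [this, hφ, sub_self]
    rw [h2, LinearMap.ker_zero, finrank_top] at h1
    exact h1
  have h1 := key f hf
  have h2 := key f' hf'
  set A := LinearMap.ker (f + 1)
  set B := LinearMap.ker (f' + 1)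
  have h3 : A ⊓ B ≤ LinearMap.ker (f * f' - 1) := by
    rintro v ⟨hA, hB⟩
    have hA' : f v = -v := by
      have : f v + v = 0 := hA
      exact eq_neg_of_add_eq_zero_left this
    have hB' : f' v = -v := by
      have : f' v + v = 0 := hB
      exact eq_neg_of_add_eq_zero_left this
    rw [mem_ker_sub_one, Module.End.mul_apply, hB', map_neg, hA', neg_neg]
  have h4 := Submodule.finrank_mono h3
  have h5 := Submodule.finrank_sup_add_finrank_inf_eq A B
  have h6 : finrank K (A ⊔ B : Submodule K V) ≤ finrank K V := Submodule.finrank_le _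
  have h7 : fx (f * f') = finrank K (LinearMap.ker (f * f' - 1)) := rfl
  omega

section pw

variable {G : Type*} [Group G] {r : ℕ} [NeZero r]

theorem pw_add {x : G} (hx : x ^ r = 1) (k l : ZMod r) :
    x ^ (k + l).val = x ^ k.val * x ^ l.val := by
  rw [ZMod.val_add, ← pow_eq_pow_mod _ hx, pow_add]

omit [NeZero r] in
theorem pw_mul {x : G} (hx : x ^ r = 1) (k l : ZMod r) :
    x ^ (k * l).val = (x ^ k.val) ^ l.val := by
  rw [ZMod.val_mul, ← pow_eq_pow_mod _ hx, pow_mul]

end pw

omit [FiniteDimensional K V] in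
/-- The sum of the powers of an element of order dividing `r` is fixed. -/
theorem sum_pow_fixed {G : Type*} [Group G] {r : ℕ} [NeZero r] (ρ : Representation K G V) {x : G} (hx : x ^ r = 1)
    (v : V) : (∑ k : ZMod r, ρ (x ^ k.val) v) ∈ LinearMap.ker (ρ x - 1) := by
  rw [mem_ker_sub_one, map_sum]
  have h1 : ∀ k : ZMod r, ρ x (ρ (x ^ k.val) v) = ρ (x ^ (k + 1).val) v := by
    intro k
    rw [← Module.End.mul_apply, ← map_mul]
    rcases Nat.lt_or_ge 1 r with h | h
    · have : Fact (1 < r) := ⟨h⟩
      rw [pw_add hx, ZMod.val_one, pow_one, ← pow_succ', pow_succ]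
    · have hr : r = 1 := le_antisymm h (NeZero.pos r)
      subst hr
      rw [pow_one] at hx
      simp [hx]
  rw [Finset.sum_congr rfl fun k _ => h1 k]
  exact Equiv.sum_comp (Equiv.addRight (1 : ZMod r)) (fun k : ZMod r => ρ (x ^ k.val) v)

/-- An elementary abelian group of rank two. -/
theorem rank_two {G : Type*} [Group G] (ρ : Representation K G V) {r : ℕ} (hr : r.Prime) (hrK : (r : K) ≠ 0)
    [NeZero r] (a b : G) (hab : Commute a b) (ha : a ^ r = 1) (hb : b ^ r = 1) :
    finrank K V ≤ (∑ i : ZMod r, fx (ρ (a * b ^ i.val))) + fx (ρ b) := by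
  have := Fact.mk hr
  set F : ZMod r → Submodule K V := fun i => LinearMap.ker (ρ (a * b ^ i.val) - 1) with hF
  set F' : Submodule K V := LinearMap.ker (ρ b - 1) with hF'
  have hx : ∀ i : ZMod r, (a * b ^ i.val) ^ r = 1 := by
    intro i
    rw [(hab.pow_right _).mul_pow, ha, one_mul, ← pow_mul, mul_comm, pow_mul, hb, one_pow]
  have htop : (⊤ : Submodule K V) ≤ (⨆ i, F i) ⊔ F' := by
    intro v _
    set B : V → V := fun w => ∑ l : ZMod r, ρ (b ^ l.val) w with hB
    have hBfix : ∀ w, B w ∈ F' := fun w => sum_pow_fixed ρ hb w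
    have h1 : ∀ i, (∑ k : ZMod r, ρ ((a * b ^ i.val) ^ k.val) v) ∈ F i := fun i => sum_pow_fixed ρ (hx i) v
    have h2 : ∑ i : ZMod r, ∑ k : ZMod r, ρ ((a * b ^ i.val) ^ k.val) v =
        (r : K) • v + ∑ k ∈ Finset.univ.erase (0 : ZMod r), ρ (a ^ k.val) (B v) := by
      rw [Finset.sum_comm, ← Finset.add_sum_erase _ _ (Finset.mem_univ (0 : ZMod r))]
      congr 1
      · simp only [ZMod.val_zero, pow_zero, map_one, Module.End.one_apply]
        rw [Finset.sum_const, Finset.card_univ, ZMod.card, ← Nat.cast_smul_eq_nsmul K]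
      · refine Finset.sum_congr rfl fun k hk => ?_
        have hk0 : k ≠ 0 := (Finset.mem_erase.1 hk).1
        rw [hB]
        simp only [map_sum]
        rw [← Equiv.sum_comp (Equiv.mulRight₀ k hk0) (fun l : ZMod r => ρ (a ^ k.val) (ρ (b ^ l.val) v))]
        refine Finset.sum_congr rfl fun i _ => ?_
        rw [← Module.End.mul_apply, ← map_mul, (hab.pow_right _).mul_pow]
        congr 3
        change (b ^ i.val) ^ k.val = b ^ (i * k).val
        rw [pw_mul hb]
    have h3 : ∀ k : ZMod r, ρ (a ^ k.val) (B v) ∈ F' := by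
      intro k
      have h4 : ρ (a ^ k.val) (B v) = B (ρ (a ^ k.val) v) := by
        rw [hB, map_sum]
        refine Finset.sum_congr rfl fun l _ => ?_
        rw [← Module.End.mul_apply, ← map_mul, ((hab.pow_pow _ _).eq), map_mul, Module.End.mul_apply]
      rw [h4]
      exact hBfix _
    have h5 : (r : K) • v = ∑ i : ZMod r, ∑ k : ZMod r, ρ ((a * b ^ i.val) ^ k.val) v -
        ∑ k ∈ Finset.univ.erase (0 : ZMod r), ρ (a ^ k.val) (B v) := by
      rw [h2, add_sub_cancel_right]
    have h6 : (r : K) • v ∈ (⨆ i, F i) ⊔ F' := by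
      rw [h5]
      refine Submodule.sub_mem _ (Submodule.mem_sup_left (Submodule.sum_mem _ fun i _ => ?_))
        (Submodule.mem_sup_right (Submodule.sum_mem _ fun k _ => h3 k))
      exact Submodule.mem_iSup_of_mem i (h1 i)
    have h7 := Submodule.smul_mem _ ((r : K)⁻¹) h6
    rwa [smul_smul, inv_mul_cancel₀ hrK, one_smul] at h7
  have h8 : finrank K (⊤ : Submodule K V) ≤ finrank K ((⨆ i, F i) ⊔ F' : Submodule K V) := Submodule.finrank_mono htop
  rw [finrank_top] at h8
  have h9 : finrank K ((⨆ i, F i) ⊔ F' : Submodule K V) ≤ finrank K (⨆ i, F i : Submodule K V) + finrank K F' :=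
    Submodule.finrank_add_le_finrank_add_finrank _ _
  have h10 : finrank K (⨆ i, F i : Submodule K V) ≤ ∑ i, finrank K (F i) := by
    have : ∀ s : Finset (ZMod r), finrank K (⨆ i ∈ s, F i : Submodule K V) ≤ ∑ i ∈ s, finrank K (F i) := by
      intro s
      induction s using Finset.induction_on with
      | empty => simp
      | insert i s his ih =>
        rw [Finset.sum_insert his, Finset.iSup_insert]
        exact (Submodule.finrank_add_le_finrank_add_finrank _ _).trans (by omega)
    have h11 := this Finset.univ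
    rwa [iSup_congr fun i => iSup_pos (Finset.mem_univ i)] at h11
  change _ ≤ ∑ i, finrank K (F i) + finrank K F'
  omega

/-- In every characteristic: an elementary abelian group of order `r ^ 2`, `r ≤ 5`. -/
theorem exists_of_rank_two {G : Type*} [Group G] (ρ : Representation K G V) {r : ℕ} (hr : r.Prime) (hr5 : r ≤ 5)
    (a b : G) (hab : Commute a b) (ha : orderOf a = r) (hb : orderOf b = r) (hnot : a ∉ Subgroup.zpowers b) :
    ∃ h : G, h ≠ 1 ∧ finrank K V ≤ 6 * fx (ρ h) := by
  have := Fact.mk hr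
  have ha1 : a ≠ 1 := by
    rintro rfl
    exact hnot (one_mem _)
  have hb1 : b ≠ 1 := by
    rintro rfl
    rw [orderOf_one] at hb
    exact hr.one_lt.ne hb
  by_cases hrK : (r : K) = 0
  · have := (CharP.charP_iff_prime_eq_zero hr).2 hrK
    refine ⟨a, ha1, ?_⟩
    have h1 : (ρ a) ^ r = 1 := by rw [← map_pow, ← ha, pow_orderOf_eq_one, map_one]
    have h2 := finrank_le_mul_fx (p := r) h1
    calc finrank K V ≤ r * fx (ρ a) := h2
      _ ≤ 6 * fx (ρ a) := Nat.mul_le_mul_right _ (by omega)
  · have hne : NeZero r := ⟨hr.ne_zero⟩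
    have h1 := rank_two ρ hr hrK a b hab (ha ▸ pow_orderOf_eq_one a) (hb ▸ pow_orderOf_eq_one b)
    by_contra hcon
    push Not at hcon
    have h2 : ∀ i : ZMod r, a * b ^ i.val ≠ 1 := by
      intro i hi
      apply hnot
      rw [eq_inv_of_mul_eq_one_left hi]
      exact inv_mem (pow_mem (Subgroup.mem_zpowers b) _)
    have h3 : ∀ i : ZMod r, 6 * fx (ρ (a * b ^ i.val)) < finrank K V := fun i => hcon _ (h2 i)
    have h4 := hcon _ hb1
    have h5 : 6 * ∑ i : ZMod r, fx (ρ (a * b ^ i.val)) ≤ r * (finrank K V - 1) := by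
      rw [Finset.mul_sum]
      calc ∑ i : ZMod r, 6 * fx (ρ (a * b ^ i.val)) ≤ ∑ i : ZMod r, (finrank K V - 1) :=
            Finset.sum_le_sum fun i _ => by have := h3 i; omega
        _ = r * (finrank K V - 1) := by
          rw [Finset.sum_const, Finset.card_univ, ZMod.card, smul_eq_mul]
    have h6 : r * (finrank K V - 1) ≤ 5 * (finrank K V - 1) := Nat.mul_le_mul_right _ hr5
    omega

/-- In every characteristic: an involution which inverts an element. -/
theorem exists_of_inverted {G : Type*} [Group G] (ρ : Representation K G V) (z x : G) (hz : orderOf z = 2)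
    (hx : x ≠ 1) (hzx : z * x ≠ 1) (h : z * x * z = x⁻¹) :
    ∃ h : G, h ≠ 1 ∧ finrank K V ≤ 6 * fx (ρ h) := by
  have hz2 : z * z = 1 := by
    have := pow_orderOf_eq_one z
    rwa [hz, pow_two] at this
  have hz1 : z ≠ 1 := by
    rintro rfl
    rw [orderOf_one] at hz
    omega
  have h2 : (z * x) * (z * x) = 1 := by
    rw [← mul_assoc, h, inv_mul_cancel]
  have h3 := involution_pair (ρ z) (ρ (z * x)) (by rw [← map_mul, hz2, map_one])
    (by rw [← map_mul, h2, map_one])
  rw [← map_mul, ← mul_assoc, hz2, one_mul] at h3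
  by_contra hcon
  push Not at hcon
  have h4 := hcon z hz1
  have h5 := hcon _ hzx
  have h6 := hcon x hx
  omega

end Cfsg.Agent.H892.SmallConf
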