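import Mathlib
import Cfsg.Agent.H892.DefChar
import Cfsg.Agent.H892.SmallConf
import Cfsg.Agent.H892.ThreeConf

/-!
# Large fixed spaces from four configurations
-/

set_option autoImplicit false

namespace Cfsg.Agent.H892.ModCase

open Module Matrix Cfsg.Agent.H892.FixDim Cfsg.Agent.H892.CoprimeChar
open Cfsg.Agent.ClassicalGeometry.SplitTorus

/-- Four configurations which force an element with a large fixed space in every representation. -/
inductive Conf (G : Type*) [Group G] : Prop
  | rank_two (r : ℕ) (hr : r.Prime) (hr5 : r ≤ 5) (a b : G) (hab : Commute a b) (ha : orderOf a = r)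
      (hb : orderOf b = r) (hnot : a ∉ Subgroup.zpowers b) : Conf G
  | inverted (z x : G) (hz : orderOf z = 2) (hx : x ≠ 1) (hzx : z * x ≠ 1) (h : z * x * z = x⁻¹) : Conf G
  | three (h g : G) (hh : orderOf h = 3) (hg : g ≠ 1) (r : ℕ) (hr : Nat.Coprime 3 r) (hgr : g ^ r = 1)
      (hcomm : Commute g (h * g * h⁻¹)) (hprod : g * (h * g * h⁻¹) * (h ^ 2 * g * (h ^ 2)⁻¹) = 1) : Conf G
  | sl (p : ℕ) (hpp : p.Prime) (hp : 11 ≤ p) (h3 : p % 3 = 2) (f : SS p →* G) (hf : Function.Injective f) : Conf G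

/-- Configurations pass to overgroups. -/
theorem Conf.map {G H : Type*} [Group G] [Group H] (φ : G →* H) (hφ : Function.Injective φ) (h : Conf G) : Conf H := by
  rcases h with ⟨r, hr, hr5, a, b, hab, ha, hb, hnot⟩ | ⟨z, x, hz, hx, hzx, h⟩ |
    ⟨h, g, hh, hg, r, hr, hgr, hcomm, hprod⟩ | ⟨p, hpp, hp, h3, f, hf⟩
  · refine Conf.rank_two r hr hr5 (φ a) (φ b) (hab.map φ) (by rw [orderOf_injective φ hφ, ha])
      (by rw [orderOf_injective φ hφ, hb]) ?_
    intro h
    obtain ⟨k, hk⟩ := h
    apply hnot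
    refine ⟨k, hφ ?_⟩
    simpa using hk
  · refine Conf.inverted (φ z) (φ x) (by rw [orderOf_injective φ hφ, hz]) ?_ ?_ ?_
    · intro h1
      exact hx (hφ (by rw [h1, map_one]))
    · intro h1
      exact hzx (hφ (by rw [map_mul, h1, map_one]))
    · rw [← map_mul, ← map_mul, h, map_inv]
  · refine Conf.three (φ h) (φ g) (by rw [orderOf_injective φ hφ, hh]) ?_ r hr (by rw [← map_pow, hgr, map_one]) ?_ ?_
    · intro h1
      exact hg (hφ (by rw [h1, map_one]))
    · have := hcomm.map φ
      simpa using this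
    · have := congrArg φ hprod
      simpa using this
  · exact Conf.sl p hpp hp h3 (φ.comp f) (hφ.comp hf)

universe u v w

theorem up_ne_one (p : ℕ) [Fact p.Prime] : (up 1 : SS p) ≠ 1 := by
  intro h
  have h1 : (up 1 : SS p) 0 1 = (1 : SS p) 0 1 := by rw [h]
  rw [up01] at h1
  have h2 : (1 : SS p) 0 1 = 0 := rfl
  rw [h2] at h1
  exact one_ne_zero h1

theorem sl_case {K : Type u} {V : Type v} [Field K] [IsAlgClosed K] [AddCommGroup V] [Module K V]
    [FiniteDimensional K V] {p : ℕ} [Fact p.Prime] (hp : 11 ≤ p) (h3 : p % 3 = 2) (ρ : Representation K (SS p) V) :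
    ∃ x : SS p, x ≠ 1 ∧ finrank K V ≤ 6 * fx (ρ x) := by
  by_cases hK : (p : K) = 0
  · have hch : CharP K p := (CharP.charP_iff_prime_eq_zero Fact.out).2 hK
    let e : V ≃ₗ[K] (Fin (finrank K V) → K) := (finBasis K V).equivFun
    let ρ' : Representation K (SS p) (Fin (finrank K V) → K) :=
      { toFun := fun g => e.toLinearMap ∘ₗ ρ g ∘ₗ e.symm.toLinearMap
        map_one' := by
          apply LinearMap.ext
          intro x
          simp
        map_mul' := fun g h => by
          apply LinearMap.ext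
          intro x
          simp }
    have hfx : ∀ g, fx (ρ' g) = fx (ρ g) := by
      intro g
      have : LinearMap.ker (ρ' g - 1) = (LinearMap.ker (ρ g - 1)).map (e : V →ₗ[K] _) := by
        ext x
        rw [mem_ker_sub_one]
        constructor
        · intro hx
          refine ⟨e.symm x, ?_, by simp⟩
          rw [SetLike.mem_coe, mem_ker_sub_one]
          have h1 : e (ρ g (e.symm x)) = x := hx
          apply e.injective
          change e (ρ g (e.symm x)) = e (e.symm x)
          rw [h1, e.apply_symm_apply]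
        · rintro ⟨y, hy, rfl⟩
          rw [SetLike.mem_coe, mem_ker_sub_one] at hy
          change e (ρ g (e.symm (e y))) = e y
          rw [e.symm_apply_apply, hy]
      unfold fx
      rw [this, ← LinearEquiv.finrank_map_eq e (LinearMap.ker (ρ g - 1))]
    have h1 := DefChar.main (K := K) (ZMod.castHom (dvd_refl p) K) hp h3 _ (Fin (finrank K V) → K) ρ' rfl
    rw [hfx, hfx, Module.finrank_fin_fun] at h1
    by_cases h2 : finrank K V ≤ 6 * fx (ρ (up 1))
    · exact ⟨up 1, up_ne_one p, h2⟩
    · exact ⟨y0 (by omega), y0_ne_one _, by omega⟩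
  · exact ⟨y0 (by omega), y0_ne_one _, coprime_case hp h3 hK ρ⟩

theorem Conf.algClosed {G : Type w} [Group G] (h : Conf G) {K : Type u} {V : Type v} [Field K] [IsAlgClosed K]
    [AddCommGroup V] [Module K V] [FiniteDimensional K V] (ρ : Representation K G V) :
    ∃ x : G, x ≠ 1 ∧ finrank K V ≤ 6 * fx (ρ x) := by
  rcases h with ⟨r, hr, hr5, a, b, hab, ha, hb, hnot⟩ | ⟨z, x, hz, hx, hzx, h⟩ |
    ⟨h, g, hh, hg, r, hr, hgr, hcomm, hprod⟩ | ⟨p, hpp, hp, h3, f, hf⟩
  · exact SmallConf.exists_of_rank_two ρ hr hr5 a b hab ha hb hnot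
  · exact SmallConf.exists_of_inverted ρ z x hz hx hzx h
  · exact ThreeConf.exists_of_three ρ h g hh hg hr hgr hcomm hprod
  · have := Fact.mk hpp
    obtain ⟨x, hx, hx'⟩ := sl_case hp h3 (ρ.comp f)
    exact ⟨f x, fun h => hx (hf (by rw [h, map_one])), hx'⟩

/-- **The module-theoretic part.** -/
theorem Conf.exists_fixed {G : Type w} [Group G] (h : Conf G) {K : Type u} {V : Type v} [Field K]
    [AddCommGroup V] [Module K V] [FiniteDimensional K V] (ρ : Representation K G V) :
    ∃ x : G, x ≠ 1 ∧ (finrank K V : ℚ) / 6 ≤ finrank K (LinearMap.ker (ρ x - 1)) := by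
  let ρ' : Representation (AlgebraicClosure K) G (TensorProduct K (AlgebraicClosure K) V) :=
    (Module.End.baseChangeHom K (AlgebraicClosure K) V).toMonoidHom.comp ρ
  obtain ⟨x, hx, hx'⟩ := h.algClosed ρ'
  refine ⟨x, hx, ?_⟩
  have h1 : fx (ρ' x) = fx (ρ x) := fx_baseChange (AlgebraicClosure K) (ρ x)
  rw [h1, Module.finrank_baseChange] at hx'
  unfold fx at hx'
  rw [div_le_iff₀ (by norm_num)]
  have : (finrank K V : ℚ) ≤ 6 * finrank K (LinearMap.ker (ρ x - 1)) := by exact_mod_cast hx'
  linarith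

end Cfsg.Agent.H892.ModCase
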