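import Mathlib
import Cfsg.Agent.H892.ModCase
import Cfsg.Agent.Solvable.UniqueOrderP

/-!
# Groups without the four configurations: involutions and small Sylow subgroups
-/

set_option autoImplicit false

namespace Cfsg.Agent.H892.GroupA

open Subgroup Cfsg.Agent.H892.ModCase Cfsg.Agent.Solvable.UniqueOrderP

variable {G : Type*} [Group G]

/-- Every involution is central. -/
theorem invol_central (hG : ¬ Conf G) {z : G} (hz : orderOf z = 2) (y : G) : y * z = z * y := by
  have hz2 : z * z = 1 := by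
    have := pow_orderOf_eq_one z
    rwa [hz, pow_two] at this
  have hzi : z⁻¹ = z := inv_eq_of_mul_eq_one_left hz2
  by_contra hne
  apply hG
  refine Conf.inverted z (y⁻¹ * z * y * z) hz ?_ ?_ ?_
  · intro h
    apply hne
    have h1 : z * y * z = y := by
      calc z * y * z = y * (y⁻¹ * z * y * z) := by group
        _ = y := by rw [h, mul_one]
    calc y * z = z * y * z * z := by rw [h1]
      _ = z * y := by rw [mul_assoc, hz2, mul_one]
  · intro h
    apply hne
    have h1 : y⁻¹ * z * y * z = z := by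
      calc y⁻¹ * z * y * z = z⁻¹ * (z * (y⁻¹ * z * y * z)) := by group
        _ = z := by rw [h, mul_one, hzi]
    have h2 : y⁻¹ * z * y = 1 := by
      calc y⁻¹ * z * y = y⁻¹ * z * y * z * z := by rw [mul_assoc _ z z, hz2, mul_one]
        _ = 1 := by rw [h1, hz2]
    have h3 : z = 1 := by
      calc z = y * (y⁻¹ * z * y) * y⁻¹ := by group
        _ = 1 := by rw [h2]; group
    rw [h3]
    simp
  · rw [_root_.mul_inv_rev, _root_.mul_inv_rev, _root_.mul_inv_rev, inv_inv, hzi]
    calc z * (y⁻¹ * z * y * z) * z = z * (y⁻¹ * z * y) * (z * z) := by group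
      _ = z * (y⁻¹ * (z * y)) := by rw [hz2, mul_one, mul_assoc y⁻¹]

theorem mem_zpowers_of_commute (hG : ¬ Conf G) {r : ℕ} (hr : r.Prime) (hr5 : r ≤ 5) {a b : G} (hab : Commute a b)
    (ha : orderOf a = r) (hb : orderOf b = r) : a ∈ zpowers b := by
  by_contra h
  exact hG (Conf.rank_two r hr hr5 a b hab ha hb h)

theorem uniqueP (hG : ¬ Conf G) {r : ℕ} [hr : Fact r.Prime] (hr5 : r ≤ 5) {P : Subgroup G} [Finite P] (hP : IsPGroup r P) :
    UniqueP r P := by
  intro x y hx hxr hyr
  have hnt : Nontrivial P := ⟨⟨x, 1, hx⟩⟩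
  have hcn : Nontrivial (center P) := hP.center_nontrivial
  have hcp : IsPGroup r (center P) := hP.to_subgroup _
  obtain ⟨c, hc⟩ : ∃ c : center P, orderOf c = r := by
    apply exists_prime_orderOf_dvd_card'
    obtain ⟨n, hn⟩ := IsPGroup.iff_card.1 hcp
    rw [hn]
    apply dvd_pow_self
    rintro rfl
    rw [pow_zero] at hn
    exact (Finite.one_lt_card_iff_nontrivial.2 hcn).ne' hn
  have key : ∀ y : P, y ^ r = 1 → y ≠ 1 → ∃ d : P, d ∈ zpowers (c : P) ∧ zpowers y = zpowers (c : P) := by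
    intro y hy hy1
    have hoy : orderOf y = r := orderOf_eq_prime hy hy1
    have hoc : orderOf (c : P) = r := by rw [Subgroup.orderOf_coe, hc]
    have hcomm : Commute (y : G) ((c : P) : G) := by
      have := mem_center_iff.1 c.2 y
      exact congrArg Subtype.val this
    have h1 := mem_zpowers_of_commute hG hr.out hr5 hcomm (by rw [Subgroup.orderOf_coe, hoy])
      (by rw [Subgroup.orderOf_coe, hoc])
    have h2 := mem_zpowers_of_commute hG hr.out hr5 hcomm.symm (by rw [Subgroup.orderOf_coe, hoc])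
      (by rw [Subgroup.orderOf_coe, hoy])
    refine ⟨1, one_mem _, ?_⟩
    apply le_antisymm
    · rw [zpowers_le]
      obtain ⟨k, hk⟩ := h1
      exact ⟨k, Subtype.ext (by simpa using hk)⟩
    · rw [zpowers_le]
      obtain ⟨k, hk⟩ := h2
      exact ⟨k, Subtype.ext (by simpa using hk)⟩
  obtain ⟨-, -, h1⟩ := key x hxr hx
  by_cases hy : y = 1
  · rw [hy]
    exact one_mem _
  · obtain ⟨-, -, h2⟩ := key y hyr hy
    rw [h1, ← h2]
    exact mem_zpowers y

theorem isCyclic (hG : ¬ Conf G) {r : ℕ} [hr : Fact r.Prime] (hr5 : r ≤ 5) (hr2 : r ≠ 2) {P : Subgroup G} [Finite P]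
    (hP : IsPGroup r P) : IsCyclic P := by
  rcases cyclic_or_quaternion hP (uniqueP hG hr5 hP) with h | h
  · exact h
  · exact absurd h.1 hr2

theorem two_cases (hG : ¬ Conf G) {P : Subgroup G} [Finite P] (hP : IsPGroup 2 P) :
    IsCyclic P ∨ ∃ m : ℕ, 1 ≤ m ∧ Nonempty (P ≃* QuaternionGroup (2 ^ m)) := by
  rcases cyclic_or_quaternion hP (uniqueP hG (by norm_num) hP) with h | ⟨-, m, hm, h⟩
  · exact Or.inl h
  · exact Or.inr ⟨m, Nat.one_le_iff_ne_zero.2 hm, h⟩

end Cfsg.Agent.H892.GroupA
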