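import Mathlib
import Cfsg.Agent.H892.GroupA
import Cfsg.Agent.Lib.Cores
import Cfsg.Agent.SylowSp4.QuatId
import Cfsg.Agent.TwoFusion.PerfectOnTwo

/-!
# Perfect groups without the four configurations: the quotient by the odd core
-/

set_option autoImplicit false

namespace Cfsg.Agent.H892.GroupB

open Subgroup Cfsg.Agent.H892.ModCase Cfsg.Agent.H892.GroupA Cfsg.Agent.SylowSp4

universe u

/-- the odd order theorem -/
def FT : Prop := ∀ (X : Type u) [Group X] [Finite X], Odd (Nat.card X) → Group.IsSolvable X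

/-- The last term of the derived series. -/
theorem exists_residual (H : Type*) [Group H] [Finite H] : ∃ (L : Subgroup H) (_ : L.Normal), ⁅L, L⁆ = L ∧
    Group.IsSolvable (H ⧸ L) := by
  obtain ⟨n, hn⟩ : ∃ n, derivedSeries H (n + 1) = derivedSeries H n := by
    by_contra hcon
    push Not at hcon
    have h1 : StrictAnti (derivedSeries H) := by
      apply strictAnti_nat_of_succ_lt
      intro n
      exact lt_of_le_of_ne (derivedSeries_antitone H (Nat.le_succ n)) (hcon n)
    exact not_injective_infinite_finite _ h1.injective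
  refine ⟨derivedSeries H n, derivedSeries_normal H n, hn, ⟨⟨n, ?_⟩⟩⟩
  rw [← map_derivedSeries_eq (QuotientGroup.mk'_surjective (derivedSeries H n)), Subgroup.map_eq_bot_iff, QuotientGroup.ker_mk']

theorem perfect_of_commutator_eq {H : Type*} [Group H] {L : Subgroup H} (h : ⁅L, L⁆ = L) : commutator L = ⊤ := by
  apply (map_injective L.subtype_injective)
  rw [commutator_def, map_commutator, ← MonoidHom.range_eq_map, L.range_subtype, h]

theorem perfect_map {L N : Type*} [Group L] [Group N] (hL : commutator L = ⊤) {f : L →* N} (hf : Function.Surjective f) :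
    commutator N = ⊤ := by
  have h1 : (commutator L).map f = commutator N := by
    rw [commutator_def, commutator_def, map_commutator, ← MonoidHom.range_eq_map, MonoidHom.range_eq_top.2 hf]
  rw [← h1, hL, ← MonoidHom.range_eq_map, MonoidHom.range_eq_top.2 hf]

theorem subsingleton_of_solvable {L : Type*} [Group L] (hL : commutator L = ⊤) (h : Group.IsSolvable L) : Subsingleton L := by
  refine ⟨fun a b => ?_⟩
  have h1 := fun a => TwoFusion.PerfectOnTwo.hom_eq_one hL (MonoidHom.id L) a
  have h2 := h1 a
  have h3 := h1 b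
  simp only [MonoidHom.id_apply] at h2 h3
  rw [h2, h3]

theorem not_isCyclic {L : Type*} [Group L] [Finite L] (hL : commutator L = ⊤) (he : 2 ∣ Nat.card L) (P : Sylow 2 L) :
    ¬ IsCyclic P := by
  intro hc
  have hne : Nat.card L ≠ 1 := by
    intro h
    rw [h] at he
    norm_num at he
  have hmin : (Nat.card L).minFac = 2 := (Nat.minFac_eq_two_iff _).2 he
  have h1 := IsCyclic.isComplement' hmin hc
  have hcomm : IsMulCommutative P := IsCyclic.isMulCommutative
  have h2 : (MonoidHom.transferSylow P (hc.normalizer_le_centralizer hmin)).ker = ⊤ := by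
    rw [eq_top_iff, ← hL, commutator_def, commutator_le]
    intro a _ b _
    rw [MonoidHom.mem_ker, map_commutatorElement, commutatorElement_eq_one_iff_mul_comm]
    exact hcomm.is_comm.comm _ _
  rw [h2, isComplement'_top_left] at h1
  have h3 := P.card_eq_multiplicity
  rw [h1, Subgroup.card_bot] at h3
  have h4 : 0 < (Nat.card L).factorization 2 :=
    Nat.Prime.factorization_pos_of_dvd Nat.prime_two Nat.card_pos.ne' he
  have h5 : 1 < 2 ^ (Nat.card L).factorization 2 := Nat.one_lt_pow h4.ne' (by norm_num)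
  omega

/-- The structure of `L / O(L)`. -/
theorem exists_sl_or (hFT : FT.{u}) (hGW : Hyps.GW.{u}) {L : Type u} [Group L] [Finite L] [Nontrivial L]
    (hL : commutator L = ⊤) (hC : ¬ Conf L) :
    ∃ z : L, orderOf z = 2 ∧ (∀ y, y * z = z * y) ∧
    ((∃ (F : Type) (_ : Field F) (_ : Fintype F), Odd (Fintype.card F) ∧
        Nonempty (L ⧸ Cfsg.oddCore L ≃* Matrix.SpecialLinearGroup (Fin 2) F)) ∨
      (∃ f : L →* alternatingGroup (Fin 7), Function.Surjective f)) := by
  have hfact : Fact (Nat.Prime 2) := ⟨Nat.prime_two⟩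
  have hn : (Cfsg.oddCore L).Normal := Cfsg.Agent.Lib.Cores.pPrimeCore_normal 2
  have heven : 2 ∣ Nat.card L := by
    rw [← even_iff_two_dvd]
    by_contra h
    rw [Nat.not_even_iff_odd] at h
    have := subsingleton_of_solvable hL (hFT L h)
    exact not_subsingleton L this
  obtain ⟨z, hz⟩ := exists_prime_orderOf_dvd_card' 2 heven
  have hzc := invol_central hC hz
  refine ⟨z, hz, hzc, ?_⟩
  obtain ⟨P⟩ : Nonempty (Sylow 2 L) := inferInstance
  rcases two_cases hC P.2 with h | ⟨k, hk, ⟨e⟩⟩
  · exact absurd h (not_isCyclic hL heven P)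
  set π := QuotientGroup.mk' (Cfsg.oddCore L) with hπ
  have hsurj : Function.Surjective π := QuotientGroup.mk'_surjective _
  have hodd := Cfsg.Agent.Lib.Cores.pPrimeCore_coprime (G := L) 2
  have hdisj : ∀ x ∈ (P : Subgroup L), x ∈ Cfsg.oddCore L → x = 1 := by
    intro x hx hx'
    have h1 : IsPGroup 2 (P : Subgroup L) := P.2
    have h2 : Disjoint (P : Subgroup L) (Cfsg.oddCore L) := by
      obtain ⟨n, hn⟩ := IsPGroup.iff_card.1 h1
      apply Subgroup.disjoint_of_coprime_natCard
      rw [hn]
      exact (Nat.Coprime.pow_right n hodd).symm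
    exact Subgroup.disjoint_def.1 h2 hx hx'
  let P' : Sylow 2 (L ⧸ Cfsg.oddCore L) := P.mapSurjective hsurj
  have hbij : Function.Bijective (π.subgroupMap (P : Subgroup L)) := by
    refine ⟨?_, π.subgroupMap_surjective _⟩
    rw [injective_iff_map_eq_one]
    rintro ⟨x, hx⟩ h
    have h1 : π x = 1 := congrArg Subtype.val h
    rw [hπ, QuotientGroup.mk'_apply, QuotientGroup.eq_one_iff] at h1
    exact Subtype.ext (hdisj x hx h1)
  have e' : (P' : Subgroup (L ⧸ Cfsg.oddCore L)) ≃* QuaternionGroup (2 ^ k) :=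
    (MulEquiv.ofBijective _ hbij).symm.trans e
  have hzO : z ∉ Cfsg.oddCore L := by
    intro h
    have h1 : orderOf (⟨z, h⟩ : Cfsg.oddCore L) ∣ Nat.card (Cfsg.oddCore L) := orderOf_dvd_natCard _
    rw [← Subgroup.orderOf_coe, hz] at h1
    have := (Nat.Prime.coprime_iff_not_dvd Nat.prime_two).1 hodd.symm
    exact this h1
  have ht : orderOf (π z) = 2 := by
    apply orderOf_eq_prime
    · rw [← map_pow, ← hz, pow_orderOf_eq_one, map_one]
    · intro h
      rw [hπ, QuotientGroup.mk'_apply, QuotientGroup.eq_one_iff] at h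
      exact hzO h
  have htc : π z ∈ center (L ⧸ Cfsg.oddCore L) := by
    rw [mem_center_iff]
    intro y
    obtain ⟨x, rfl⟩ := hsurj y
    rw [← map_mul, ← map_mul, hzc]
  have hzn : (zpowers (π z)).Normal := by
    refine ⟨fun n hn' g => ?_⟩
    have h1 : n ∈ center (L ⧸ Cfsg.oddCore L) := (zpowers_le.2 htc) hn'
    rw [mem_center_iff.1 h1 g, mul_inv_cancel_right]
    exact hn'
  have hperf := perfect_map hL hsurj
  rcases QuatId.exists_sl hGW (Cfsg.Agent.Lib.Cores.pPrimeCore_quotient_pPrimeCore 2) hperf P' hk e' ht htc with h | ⟨-, ⟨h⟩⟩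
  · exact Or.inl h
  · right
    refine ⟨h.toMonoidHom.comp ((QuotientGroup.mk' (zpowers (π z))).comp π), ?_⟩
    exact h.surjective.comp ((QuotientGroup.mk'_surjective _).comp hsurj)

theorem mem_zpowers_of_isCyclic {C : Type*} [Group C] [Finite C] [IsCyclic C] {a b : C} {r : ℕ} (hr : 0 < r)
    (ha : a ^ r = 1) (hb : orderOf b = r) : a ∈ zpowers b := by
  classical
  have := Fintype.ofFinite C
  have h1 := IsCyclic.card_pow_eq_one_le (α := C) hr
  set S := Finset.univ.filter (fun x : C => x ^ r = 1) with hS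
  set T := (zpowers b : Set C).toFinset with hT
  have hTS : T ⊆ S := by
    intro x hx
    rw [hT, Set.mem_toFinset] at hx
    obtain ⟨k, rfl⟩ := hx
    rw [hS, Finset.mem_filter]
    refine ⟨Finset.mem_univ _, ?_⟩
    simp only
    rw [← zpow_natCast, ← zpow_mul, mul_comm, zpow_mul, zpow_natCast, ← hb, pow_orderOf_eq_one, one_zpow]
  have hcard : T.card = r := by
    rw [hT, Set.toFinset_card, ← Nat.card_eq_fintype_card]
    change Nat.card (zpowers b) = r
    rw [Nat.card_zpowers, hb]
  have h2 := Finset.eq_of_subset_of_card_le hTS (by rw [hcard]; exact h1)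
  have h3 : a ∈ S := by
    rw [hS, Finset.mem_filter]
    exact ⟨Finset.mem_univ _, ha⟩
  rw [← h2, hT, Set.mem_toFinset] at h3
  exact h3

/-- Commuting elements of order `r` in quotients of groups with cyclic Sylow `r`-subgroups. -/
theorem quot_unique {L Q : Type*} [Group L] [Finite L] [Group Q] {f : L →* Q} (hf : Function.Surjective f) {r : ℕ}
    [hr : Fact r.Prime] (hcyc : ∀ P : Sylow r L, IsCyclic P) {a b : Q} (ha : orderOf a = r) (hb : orderOf b = r)
    (hab : Commute a b) : a ∈ zpowers b := by
  have hQ : Finite Q := Finite.of_surjective f hf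
  -- `⟨a, b⟩` is an `r`-group
  have h1 : IsPGroup r (closure {a, b} : Subgroup Q) := by
    have h2 : ∀ x ∈ closure {a, b}, x ^ r = 1 ∧ Commute x a ∧ Commute x b := by
      intro x hx
      induction hx using closure_induction with
      | mem x hx =>
        rcases hx with rfl | rfl
        · exact ⟨by rw [← ha, pow_orderOf_eq_one], Commute.refl _, hab⟩
        · exact ⟨by rw [← hb, pow_orderOf_eq_one], hab.symm, Commute.refl _⟩
      | one => exact ⟨one_pow _, Commute.one_left _, Commute.one_left _⟩
      | mul x y hx hy hx' hy' =>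
        refine ⟨?_, hx'.2.1.mul_left hy'.2.1, hx'.2.2.mul_left hy'.2.2⟩
        have hxy : Commute x y := by
          have : closure {a, b} ≤ centralizer {x} := by
            rw [closure_le]
            rintro y (rfl | rfl)
            · exact mem_centralizer_singleton_iff.2 hx'.2.1.symm
            · exact mem_centralizer_singleton_iff.2 hx'.2.2.symm
          exact (mem_centralizer_singleton_iff.1 (this hy)).symm
        rw [hxy.mul_pow, hx'.1, hy'.1, one_mul]
      | inv x hx hx' => exact ⟨by rw [inv_pow, hx'.1, inv_one], hx'.2.1.inv_left, hx'.2.2.inv_left⟩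
    intro x
    refine ⟨1, ?_⟩
    rw [pow_one]
    exact Subtype.ext (h2 x x.2).1
  obtain ⟨S, hS⟩ := h1.exists_le_sylow
  obtain ⟨P, rfl⟩ := Sylow.mapSurjective_surjective hf r S
  have hcP := hcyc P
  have hcS : IsCyclic (P.mapSurjective hf : Subgroup Q) := by
    rw [Sylow.coe_mapSurjective]
    exact isCyclic_of_surjective (f.subgroupMap (P : Subgroup L)) (f.subgroupMap_surjective _)
  have haS : a ∈ (P.mapSurjective hf : Subgroup Q) := hS (subset_closure (by simp))
  have hbS : b ∈ (P.mapSurjective hf : Subgroup Q) := hS (subset_closure (by simp))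
  have h4 := mem_zpowers_of_isCyclic (a := (⟨a, haS⟩ : (P.mapSurjective hf : Subgroup Q))) (b := ⟨b, hbS⟩) (r := r)
    hr.out.pos (Subtype.ext (by change a ^ r = 1; rw [← ha, pow_orderOf_eq_one]))
    (by rw [← Subgroup.orderOf_coe]; exact hb)
  obtain ⟨k, hk⟩ := h4
  exact ⟨k, congrArg Subtype.val hk⟩

end Cfsg.Agent.H892.GroupB
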