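import Mathlib
import Cfsg.Agent.H892.GroupB
import Cfsg.Agent.GTwoRows.Base

/-!
# Perfect groups without the four configurations: the field
-/

set_option autoImplicit false

namespace Cfsg.Agent.H892.GroupC

open Subgroup Cfsg.Agent.H892.ModCase Cfsg.Agent.H892.GroupA Cfsg.Agent.H892.GroupB
open Cfsg.Agent.ClassicalGeometry.SplitTorus

/-- `A₇` is not a quotient. -/
theorem no_alt_seven {L : Type*} [Group L] [Finite L] (hC : ¬ Conf L) {f : L →* alternatingGroup (Fin 7)}
    (hf : Function.Surjective f) : False := by
  have hfact : Fact (Nat.Prime 3) := ⟨by norm_num⟩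
  let a : alternatingGroup (Fin 7) := ⟨c[0, 1, 2], by rw [Equiv.Perm.mem_alternatingGroup]; decide⟩
  let b : alternatingGroup (Fin 7) := ⟨c[3, 4, 5], by rw [Equiv.Perm.mem_alternatingGroup]; decide⟩
  have ha : orderOf a = 3 := by
    apply orderOf_eq_prime
    · apply Subtype.ext
      decide
    · intro h
      have := congrArg (fun x : alternatingGroup (Fin 7) => (x : Equiv.Perm (Fin 7)) 0) h
      revert this
      decide
  have hb : orderOf b = 3 := by
    apply orderOf_eq_prime
    · apply Subtype.ext
      decide
    · intro h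
      have := congrArg (fun x : alternatingGroup (Fin 7) => (x : Equiv.Perm (Fin 7)) 3) h
      revert this
      decide
  have hab : Commute a b := by
    apply Subtype.ext
    decide
  have h1 := quot_unique hf (fun P => GroupA.isCyclic hC (by norm_num) (by norm_num) P.2) ha hb hab
  have h2 : zpowers b ≤ (MulAction.stabilizer (Equiv.Perm (Fin 7)) (0 : Fin 7)).comap (alternatingGroup (Fin 7)).subtype := by
    rw [zpowers_le, mem_comap, MulAction.mem_stabilizer_iff]
    decide
  have h3 := h2 h1
  rw [mem_comap, MulAction.mem_stabilizer_iff] at h3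
  revert h3
  decide

theorem orderOf_up {F : Type*} [Field F] {p : ℕ} [Fact p.Prime] [CharP F p] {c : F} (hc : c ≠ 0) : orderOf (up c) = p := by
  have hpow : ∀ k : ℕ, (up c) ^ k = up (k * c) := by
    intro k
    induction k with
    | zero => simp [up_zero]
    | succ k ih =>
      rw [pow_succ, ih, ← up_add]
      congr 1
      push_cast
      ring
  apply orderOf_eq_prime
  · rw [hpow, CharP.cast_eq_zero, zero_mul, up_zero]
  · intro h
    apply hc
    have := congrArg (fun x : Matrix.SpecialLinearGroup (Fin 2) F => x 0 1) h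
    simpa using this

/-- If Sylow `p`-subgroups are cyclic in characteristic `p` then the field is the prime field. -/
theorem card_eq_char {F : Type*} [Field F] [Fintype F] {p : ℕ} [hp : Fact p.Prime] [CharP F p] {L : Type*} [Group L] [Finite L]
    (hcyc : ∀ P : Sylow p L, IsCyclic P) {f : L →* Matrix.SpecialLinearGroup (Fin 2) F} (hf : Function.Surjective f) :
    Fintype.card F = p := by
  let i : ZMod p →+* F := ZMod.castHom (dvd_refl p) F
  by_contra hne
  obtain ⟨c, hc⟩ : ∃ c : F, c ∉ Set.range i := by
    by_contra hcon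
    push Not at hcon
    apply hne
    have hb : Function.Bijective i := ⟨i.injective, hcon⟩
    rw [← Fintype.card_of_bijective hb, ZMod.card]
  have hc0 : c ≠ 0 := by
    rintro rfl
    exact hc ⟨0, map_zero i⟩
  have hcomm : Commute (up (1 : F)) (up c) := by
    rw [Commute, SemiconjBy, ← up_add, ← up_add, add_comm]
  have h1 := quot_unique hf hcyc (orderOf_up one_ne_zero) (orderOf_up hc0) hcomm.symm.symm
  -- all powers of `up c` are `up (i k * c)`
  have h2 : ∀ x ∈ zpowers (up c), ∃ k : ZMod p, x = up (i k * c) := by
    intro x hx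
    rw [mem_zpowers_iff] at hx
    obtain ⟨k, rfl⟩ := hx
    refine ⟨(k : ZMod p), ?_⟩
    rw [map_intCast]
    induction k with
    | zero => simp [up_zero]
    | succ k ih =>
      rw [zpow_add_one, ih, ← up_add]
      congr 1
      push_cast
      ring
    | pred k ih =>
      rw [zpow_sub_one, ih, ← up_neg, ← up_add]
      congr 1
      push_cast
      ring
  obtain ⟨k, hk⟩ := h2 _ h1
  have h3 := congrArg (fun x : Matrix.SpecialLinearGroup (Fin 2) F => x 0 1) hk
  simp only [up01] at h3
  apply hc
  have hk0 : k ≠ 0 := by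
    rintro rfl
    rw [map_zero, zero_mul] at h3
    exact one_ne_zero h3
  refine ⟨k⁻¹, ?_⟩
  rw [map_inv₀]
  rw [inv_eq_iff_eq_inv]
  exact (eq_inv_of_mul_eq_one_left h3.symm)

theorem char_cases {F : Type} [Field F] [Fintype F] (hodd : Odd (Fintype.card F)) {p : ℕ} [hp : Fact p.Prime] [CharP F p]
    {L : Type*} [Group L] [Finite L] (hL : commutator L = ⊤) (hC : ¬ Conf L)
    {f : L →* Matrix.SpecialLinearGroup (Fin 2) F} (hf : Function.Surjective f) :
    Fintype.card F = 5 ∨ 7 ≤ p := by
  have hpF : p ∣ Fintype.card F := by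
    obtain ⟨n, hn, hn'⟩ := FiniteField.card F p
    rw [hn']
    exact dvd_pow_self p n.ne_zero
  have hp2 : p ≠ 2 := by
    rintro rfl
    exact (Nat.not_even_iff_odd.2 hodd) (even_iff_two_dvd.2 hpF)
  have hp3 : p ≠ 3 := by
    rintro rfl
    have h1 := card_eq_char (F := F) (fun P => GroupA.isCyclic hC (by norm_num) (by norm_num) P.2) hf
    have h2 := GTwoRows.isSolvable_sl_three h1
    have h3 := subsingleton_of_solvable (perfect_map hL hf) h2
    exact absurd (Subsingleton.elim (up (1 : F)) 1) (by
      intro h
      have := congrArg (fun x : Matrix.SpecialLinearGroup (Fin 2) F => x 0 1) h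
      simp at this)
  have hpp := hp.out
  by_cases hp5 : p = 5
  · subst hp5
    left
    exact card_eq_char (F := F) (fun P => GroupA.isCyclic hC (by norm_num) (by norm_num) P.2) hf
  · right
    have h2 := hpp.two_le
    by_contra hcon
    push Not at hcon
    interval_cases p
    · exact hp2 rfl
    · exact hp3 rfl
    · exact absurd hpp (by norm_num)
    · exact hp5 rfl
    · exact absurd hpp (by norm_num)

end Cfsg.Agent.H892.GroupC
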