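import Mathlib
import Cfsg.Prelude.Def_RootSubgroups
import Cfsg.Agent.H892.GroupB
import Cfsg.Agent.S0265
import Cfsg.Agent.S0813
import Cfsg.Agent.LieClassical.SLGen

/-!
# The index of the solvable radical when the residual involves one simple group
-/

set_option autoImplicit false

namespace Cfsg.Agent.H892.GroupD

open Subgroup Cfsg.Agent.H892.GroupB

/-- automorphisms act on characteristic quotients -/
def quotAut {L : Type*} [Group L] (K : Subgroup L) [K.Normal] [hK : K.Characteristic] : MulAut L →* MulAut (L ⧸ K) where
  toFun e := QuotientGroup.congr K K e (characteristic_iff_map_eq.1 hK e)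
  map_one' := by
    ext x
    induction x using QuotientGroup.induction_on with
    | _ x => rfl
  map_mul' e e' := by
    ext x
    induction x using QuotientGroup.induction_on with
    | _ x => rfl

theorem quotAut_mk {L : Type*} [Group L] (K : Subgroup L) [K.Normal] [hK : K.Characteristic] (e : MulAut L) (x : L) :
    quotAut K e (x : L ⧸ K) = ((e x : L) : L ⧸ K) := rfl

theorem index_le {H : Type*} [Group H] [Finite H] (L : Subgroup H) [L.Normal] (hperf : commutator L = ⊤)
    (hsol : Group.IsSolvable (H ⧸ L)) {Q : Type*} [Group Q] [Finite Q] [IsSimpleGroup Q]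
    (f : L →* Q) (hf : Function.Surjective f) (hker : Group.IsSolvable f.ker) :
    (Cfsg.solvableRadical H).index ≤ Nat.card (MulAut Q) := by
  have hQp := perfect_map hperf hf
  have hQns : ¬ Group.IsSolvable Q := fun h => by
    have := subsingleton_of_solvable hQp h
    exact not_subsingleton Q this
  have hQc : center Q = ⊥ := by
    rcases IsSimpleGroup.eq_bot_or_eq_top_of_normal (center Q) inferInstance with h | h
    · exact h
    · exfalso
      apply hQns
      have : IsMulCommutative Q := center_eq_top_iff.1 h
      apply Group.isSolvable_of_comm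
      exact fun a b => this.is_comm.comm a b
  have hchar : f.ker.Characteristic := by
    rw [characteristic_iff_map_le]
    intro e
    have hn1 : (f.ker.map e.toMonoidHom).Normal := (inferInstance : f.ker.Normal).map _ e.surjective
    have hn2 : ((f.ker.map e.toMonoidHom).map f).Normal := hn1.map f hf
    rcases IsSimpleGroup.eq_bot_or_eq_top_of_normal _ hn2 with h | h
    · intro x hx
      rw [MonoidHom.mem_ker]
      have : f x ∈ (f.ker.map e.toMonoidHom).map f := mem_map_of_mem f hx
      rw [h, mem_bot] at this
      exact this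
    · exfalso
      apply hQns
      have h1 : Function.Surjective ((f.comp e.toMonoidHom).comp f.ker.subtype) := by
        intro y
        have hy : y ∈ (f.ker.map e.toMonoidHom).map f := by rw [h]; trivial
        obtain ⟨_, ⟨k, hk, rfl⟩, rfl⟩ := hy
        exact ⟨⟨k, hk⟩, rfl⟩
      exact Group.isSolvable_of_surjective h1
  set Φ : H →* MulAut (L ⧸ f.ker) := (quotAut f.ker).comp MulAut.conjNormal with hΦ
  set C := Φ.ker with hC
  have hCmem : ∀ c ∈ C, ∀ l : L, (MulAut.conjNormal c l : L)⁻¹ * l ∈ f.ker := by
    intro c hc l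
    rw [hC, MonoidHom.mem_ker, hΦ] at hc
    have h1 : quotAut f.ker (MulAut.conjNormal c) (l : L ⧸ f.ker) = l := by
      have := congrArg (fun e : MulAut (L ⧸ f.ker) => e (l : L ⧸ f.ker)) hc
      exact this
    rw [quotAut_mk, QuotientGroup.eq] at h1
    exact h1
  have hCL : ∀ c ∈ C, ∀ (hcL : c ∈ L), (⟨c, hcL⟩ : L) ∈ f.ker := by
    intro c hc hcL
    have h1 : f ⟨c, hcL⟩ ∈ center Q := by
      rw [mem_center_iff]
      intro y
      obtain ⟨l, rfl⟩ := hf y
      have h2 := hCmem c hc l
      have h3 : (MulAut.conjNormal c l : L) = ⟨c, hcL⟩ * l * ⟨c, hcL⟩⁻¹ := by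
        apply Subtype.ext
        rw [MulAut.conjNormal_apply]
        rfl
      rw [h3, MonoidHom.mem_ker, map_mul, map_inv, inv_mul_eq_one, map_mul, map_mul, map_inv] at h2
      rw [mul_inv_eq_iff_eq_mul] at h2
      exact h2.symm
    rw [hQc, mem_bot] at h1
    exact h1
  have hCsol : Group.IsSolvable C := by
    let g : C →* H ⧸ L := (QuotientGroup.mk' L).comp C.subtype
    have hg : ∀ x : g.ker, ((x : C) : H) ∈ L := by
      intro x
      have h1 : g x = 1 := x.2
      have h2 : (QuotientGroup.mk' L) ((x : C) : H) = 1 := h1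
      rwa [QuotientGroup.mk'_apply, QuotientGroup.eq_one_iff] at h2
    have h1 : Group.IsSolvable g.ker := by
      let i : g.ker →* f.ker :=
        { toFun := fun x => ⟨⟨((x : C) : H), hg x⟩, hCL _ (x : C).2 (hg x)⟩
          map_one' := rfl
          map_mul' := fun x y => rfl }
      have hi : Function.Injective i := by
        intro x y hxy
        apply Subtype.ext
        apply Subtype.ext
        exact congrArg (fun z : f.ker => ((z : L) : H)) hxy
      exact Group.isSolvable_of_isSolvable_injective hi
    exact Group.isSolvable_of_ker_le_range g.ker.subtype g (by rw [range_subtype])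
  have hCle : C ≤ Cfsg.solvableRadical H := by
    apply le_sSup
    exact ⟨inferInstance, hCsol⟩
  have h1 : (Cfsg.solvableRadical H).index ≤ C.index :=
    Nat.le_of_dvd (Nat.pos_of_ne_zero index_ne_zero_of_finite) (index_dvd_of_le hCle)
  have h2 : C.index = Nat.card Φ.range := index_ker Φ
  have hfin : Finite (L ⧸ f.ker) := inferInstance
  have h3 : Nat.card Φ.range ≤ Nat.card (MulAut (L ⧸ f.ker)) := card_le_card_group _
  have h4 : Nat.card (MulAut (L ⧸ f.ker)) = Nat.card (MulAut Q) :=
    Nat.card_congr (MulAut.congr (QuotientGroup.quotientKerEquivOfSurjective f hf)).toEquiv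
  omega

theorem card_mulAut_psl_five {F : Type*} [Field F] [Fintype F] (hF : Fintype.card F = 5) :
    Nat.card (MulAut (Matrix.ProjectiveSpecialLinearGroup (Fin 2) F)) = 120 := by
  have : Fact (Nat.Prime 5) := ⟨by norm_num⟩
  rw [S0813.result (F := F) 5 1 le_rfl (by rw [hF, pow_one]) 2 le_rfl (by norm_num)]
  have h1 := S0265.card_GL_eq_PGL (F := F) (n := 2) (by norm_num)
  rw [Matrix.card_GL_field, Fin.prod_univ_two, hF, Nat.card_units, Nat.card_eq_fintype_card, hF] at h1
  simp only [if_true]
  norm_num at h1
  omega

end Cfsg.Agent.H892.GroupD
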