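import Mathlib
import Cfsg.Agent.H892.GroupB
import Cfsg.Agent.Transfer.ResidualComplement

/-!
# Perfect groups with cyclic Sylow `3`-subgroups: normal subgroups of odd order
-/

set_option autoImplicit false

namespace Cfsg.Agent.H892.GroupE

open Subgroup Cfsg.Agent.H892.GroupB
open scoped commutatorElement

theorem isCyclic_of_le {G : Type*} [Group G] {A B : Subgroup G} (h : A ≤ B) (hB : IsCyclic B) : IsCyclic A :=
  isCyclic_of_injective (inclusion h) (inclusion_injective h)

/-- Elements normalising a cyclic group act on it by commuting automorphisms. -/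
theorem comm_of_cyclic {G : Type*} [Group G] {T : Subgroup G} (hT : IsCyclic T) {a b : G}
    (ha : a ∈ normalizer (T : Set G)) (hb : b ∈ normalizer (T : Set G)) {x : G} (hx : x ∈ T) :
    a * b * x * (a * b)⁻¹ = b * a * x * (b * a)⁻¹ := by
  obtain ⟨⟨g, hg⟩, hgen⟩ := hT.exists_generator
  have hz : ∀ y ∈ T, ∃ k : ℤ, y = g ^ k := by
    intro y hy
    obtain ⟨k, hk⟩ := mem_zpowers_iff.1 (hgen ⟨y, hy⟩)
    exact ⟨k, (congrArg Subtype.val hk).symm⟩
  obtain ⟨i, hi⟩ := hz _ ((mem_normalizer_iff.1 ha g).1 hg)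
  obtain ⟨j, hj⟩ := hz _ ((mem_normalizer_iff.1 hb g).1 hg)
  have ha' : ∀ k : ℤ, a * g ^ k * a⁻¹ = g ^ (i * k) := by
    intro k
    rw [← conj_zpow, hi, zpow_mul]
  have hb' : ∀ k : ℤ, b * g ^ k * b⁻¹ = g ^ (j * k) := by
    intro k
    rw [← conj_zpow, hj, zpow_mul]
  obtain ⟨k, rfl⟩ := hz x hx
  have h1 : a * b * g ^ k * (a * b)⁻¹ = a * (b * g ^ k * b⁻¹) * a⁻¹ := by group
  have h2 : b * a * g ^ k * (b * a)⁻¹ = b * (a * g ^ k * a⁻¹) * b⁻¹ := by group
  rw [h1, h2, ha', hb', ha', hb']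
  congr 1
  ring

/-- In a perfect group with cyclic Sylow `3`-subgroups, normal subgroups of odd order have order prime to `3`. -/
theorem not_three_dvd {L : Type*} [Group L] [Finite L] (hL : commutator L = ⊤)
    (hcyc : ∀ P : Sylow 3 L, IsCyclic P) (M : Subgroup L) [hM : M.Normal] (hodd : ¬ 2 ∣ Nat.card M) :
    ¬ 3 ∣ Nat.card M := by
  intro h3
  have hfact : Fact (Nat.Prime 3) := ⟨by norm_num⟩
  obtain ⟨P0⟩ : Nonempty (Sylow 3 M) := inferInstance
  set T0 := (P0 : Subgroup M).map M.subtype with hT0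
  have hT0p : IsPGroup 3 T0 := P0.2.map _
  obtain ⟨T, hT⟩ := hT0p.exists_le_sylow
  have hTc := hcyc T
  have hT0c : IsCyclic T0 := isCyclic_of_le hT hTc
  have hP0c : IsCyclic P0 := isCyclic_of_injective (M.subtype.subgroupMap (P0 : Subgroup M)) (by
    intro x y hxy
    apply Subtype.ext
    apply Subtype.ext
    exact congrArg (fun w : (P0 : Subgroup M).map M.subtype => (w : L)) hxy)
  have hmin : (Nat.card M).minFac = 3 := by
    have h1 := Nat.minFac_le_of_dvd (by norm_num) h3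
    have hne : Nat.card M ≠ 1 := by
      intro h
      rw [h] at h3
      norm_num at h3
    have h2 := (Nat.minFac_prime hne).two_le
    have h4 : (Nat.card M).minFac ≠ 2 := by
      intro h
      rw [Nat.minFac_eq_two_iff] at h
      exact hodd h
    omega
  have hNC := hP0c.normalizer_le_centralizer hmin
  set Y := normalizer (T0 : Set L) with hY
  have hfr : Y ⊔ M = ⊤ := Sylow.normalizer_sup_eq_top P0
  -- `Y ∩ M` centralises `T0`
  have hYM : ∀ y ∈ Y, y ∈ M → ∀ x ∈ T0, y * x = x * y := by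
    intro y hy hyM x hx
    obtain ⟨x', hx', rfl⟩ := hx
    have h1 : (⟨y, hyM⟩ : M) ∈ normalizer ((P0 : Subgroup M) : Set M) := by
      rw [mem_normalizer_iff]
      intro w
      have h2 := mem_normalizer_iff.1 hy (w : L)
      have h3 : ∀ w : M, (w : L) ∈ T0 ↔ w ∈ P0 := by
        intro w
        rw [hT0]
        constructor
        · rintro ⟨w', hw', h⟩
          have : w' = w := Subtype.ext h
          rwa [← this]
        · intro h
          exact ⟨w, h, rfl⟩
      change w ∈ P0 ↔ (⟨y, hyM⟩ : M) * w * (⟨y, hyM⟩ : M)⁻¹ ∈ P0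
      rw [← h3 w, ← h3]
      exact h2
    have h2 := mem_centralizer_iff.1 (hNC h1) x' hx'
    have := congrArg (M.subtype) h2
    simpa using this.symm
  -- the derived subgroup of `Y` centralises `T0`
  have hYY : ⁅Y, Y⁆ ≤ centralizer (T0 : Set L) := by
    rw [commutator_le]
    intro a ha b hb
    rw [mem_centralizer_iff]
    intro x hx
    have h1 : a⁻¹ ∈ Y := inv_mem ha
    have h2 : b⁻¹ ∈ Y := inv_mem hb
    have h4 : b⁻¹ * a⁻¹ * x * (b⁻¹ * a⁻¹)⁻¹ ∈ T0 := (mem_normalizer_iff.1 (mul_mem h2 h1) x).1 hx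
    have h5 := comm_of_cyclic hT0c h1 h2 hx
    have h6 : ⁅a, b⁆ * x * ⁅a, b⁆⁻¹ = x := by
      have h7 := comm_of_cyclic hT0c ha hb ((mem_normalizer_iff.1 (mul_mem h1 h2) x).1 hx)
      calc ⁅a, b⁆ * x * ⁅a, b⁆⁻¹ = a * b * (a⁻¹ * b⁻¹ * x * (a⁻¹ * b⁻¹)⁻¹) * (a * b)⁻¹ := by
            rw [commutatorElement_def]; group
        _ = b * a * (a⁻¹ * b⁻¹ * x * (a⁻¹ * b⁻¹)⁻¹) * (b * a)⁻¹ := h7
        _ = x := by group
    calc x * ⁅a, b⁆ = ⁅a, b⁆ * x * ⁅a, b⁆⁻¹ * ⁅a, b⁆ := by rw [h6]
      _ = ⁅a, b⁆ * x := by group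
  have hYC : Y ≤ centralizer (T0 : Set L) := by
    intro c hc
    set q := QuotientGroup.mk' M with hq
    have hmap : Y.map q = ⊤ := by
      rw [eq_top_iff]
      intro w _
      obtain ⟨w, rfl⟩ := QuotientGroup.mk'_surjective M w
      have hw : w ∈ Y ⊔ M := by rw [hfr]; trivial
      obtain ⟨y, hy, m, hm, rfl⟩ := mem_sup_of_normal_right.1 hw
      refine ⟨y, hy, ?_⟩
      rw [map_mul]
      have : (QuotientGroup.mk' M) m = 1 := by rwa [QuotientGroup.mk'_apply, QuotientGroup.eq_one_iff]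
      rw [this, mul_one]
    have hD : (⁅Y, Y⁆ : Subgroup L).map q = ⊤ := by
      rw [map_commutator, hmap, ← _root_.commutator_def]
      exact perfect_map hL (QuotientGroup.mk'_surjective M)
    have h1 : q c ∈ (⁅Y, Y⁆ : Subgroup L).map q := by rw [hD]; trivial
    obtain ⟨d, hd, hdc⟩ := h1
    have hdY : d ∈ Y := (commutator_le_self Y) hd
    have h2 : d⁻¹ * c ∈ M := by
      rw [← QuotientGroup.eq_one_iff, ← QuotientGroup.mk'_apply, map_mul, map_inv]
      rw [← hq, hdc, inv_mul_cancel]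
    have h4 : d⁻¹ * c ∈ centralizer (T0 : Set L) := by
      rw [mem_centralizer_iff]
      intro x hx
      exact (hYM _ (mul_mem (inv_mem hdY) hc) h2 x hx).symm
    have := mul_mem (hYY hd) h4
    rwa [mul_inv_cancel_left] at this
  -- `T0 = T ∩ M`
  have hTM : T0 = (T : Subgroup L) ⊓ M := by
    apply le_antisymm
    · apply le_inf hT
      rintro _ ⟨x, _, rfl⟩
      exact x.2
    · have h1 : IsPGroup 3 ((T : Subgroup L).subgroupOf M) := by
        have : IsPGroup 3 ((T : Subgroup L) ⊓ M : Subgroup L) := T.2.to_le inf_le_left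
        exact T.2.comap_subtype
      have h2 : (P0 : Subgroup M) ≤ (T : Subgroup L).subgroupOf M := by
        intro x hx
        rw [mem_subgroupOf]
        exact hT ⟨x, hx, rfl⟩
      have h4 := P0.3 h1 h2
      rintro x ⟨hx, hxM⟩
      refine ⟨⟨x, hxM⟩, ?_, rfl⟩
      rw [← h4]
      exact hx
  have hTcomm : IsMulCommutative T := IsCyclic.isMulCommutative
  have hhom : ∀ (f : L →* T) (x : L), f x = 1 := by
    intro f x
    have : Group.IsSolvable T := Group.isSolvable_of_comm fun a b => hTcomm.is_comm.comm a b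
    exact TwoFusion.PerfectOnTwo.hom_eq_one hL f x
  obtain ⟨z, hz⟩ := exists_prime_orderOf_dvd_card' (G := P0) 3 (by
    rw [P0.card_eq_multiplicity]
    apply dvd_pow_self
    exact (Nat.Prime.factorization_pos_of_dvd hfact.out Nat.card_pos.ne' h3).ne')
  have hzT0 : ((z : M) : L) ∈ T0 := ⟨z, z.2, rfl⟩
  have h1 := Transfer.ResidualComplement.eq_one_of_mem_center_normalizer T hhom ((z : M) : L) (hT hzT0) (by
    intro n hn
    have hnY : n ∈ Y := by
      rw [hY, mem_normalizer_iff]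
      intro w
      rw [hTM]
      have h5 := mem_normalizer_iff.1 hn w
      constructor
      · rintro ⟨h6, h7⟩
        exact ⟨h5.1 h6, hM.conj_mem w h7 n⟩
      · rintro ⟨h6, h7⟩
        refine ⟨h5.2 h6, ?_⟩
        have := hM.conj_mem _ h7 n⁻¹
        have e : n⁻¹ * (n * w * n⁻¹) * n⁻¹⁻¹ = w := by group
        rwa [e] at this
    exact (mem_centralizer_iff.1 (hYC hnY) _ hzT0).symm)
  have h2 : z = 1 := by
    apply Subtype.ext
    apply Subtype.ext
    exact h1
  rw [h2, orderOf_one] at hz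
  norm_num at hz

end Cfsg.Agent.H892.GroupE
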