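import Mathlib
import Cfsg.Agent.H892.GroupB
import Cfsg.Agent.Transfer.SL23Recog

/-!
# `SL₂(3)` acting on a normal subgroup of order prime to six
-/

set_option autoImplicit false
set_option linter.unusedSimpArgs false

namespace Cfsg.Agent.H892.GroupF

open Subgroup Cfsg.Agent.H892.ModCase Cfsg.Agent.H892.GroupB Cfsg.Agent.Transfer.SL23Recog
open scoped commutatorElement

universe u

variable {L : Type u} [Group L]

theorem comm_of_sq {a b : L} {n : ℕ} (hn : Odd n) (ha : a ^ n = 1) (h : a ^ 2 * b = b * a ^ 2) : a * b = b * a := by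
  obtain ⟨k, hk⟩ := hn
  have h1 : Commute (a ^ 2) b := h
  have h2 : Commute ((a ^ 2) ^ (k + 1)) b := h1.pow_left _
  have h3 : (a ^ 2) ^ (k + 1) = a := by
    rw [← pow_mul]
    have : 2 * (k + 1) = n + 1 := by omega
    rw [this, pow_succ, ha, one_mul]
  rw [h3] at h2
  exact h2

theorem eq_one_of_sq {a : L} {n : ℕ} (hn : Odd n) (ha : a ^ n = 1) (h : a * a = 1) : a = 1 := by
  obtain ⟨k, hk⟩ := hn
  have h1 : a ^ n = a := by
    rw [hk, pow_succ, pow_mul, pow_two, h, one_pow, one_mul]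
  rw [← h1, ha]

/-- fixed points of a product `x x^g` -/
theorem fixed_of_sq {D : Subgroup L} {n : ℕ} (hn : Odd n) (hD : ∀ d ∈ D, d ^ n = 1) {g : L}
    (hgg : ∀ x, g * g * x = x * (g * g)) (hgD : ∀ d ∈ D, g * d * g⁻¹ ∈ D)
    (hgD' : ∀ d ∈ ⁅D, D⁆, g * d * g⁻¹ = d) {x : L} (hx : x ∈ D) :
    g * (x * (g * x * g⁻¹)) * g⁻¹ = x * (g * x * g⁻¹) := by
  have h1 : g * (g * x * g⁻¹) * g⁻¹ = x := by
    calc g * (g * x * g⁻¹) * g⁻¹ = g * g * x * (g * g)⁻¹ := by group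
      _ = x := by rw [hgg, mul_inv_cancel_right]
  set q := x * (g * x * g⁻¹) with hq
  have h2 : g * q * g⁻¹ = (g * x * g⁻¹) * x := by
    calc g * q * g⁻¹ = (g * x * g⁻¹) * (g * (g * x * g⁻¹) * g⁻¹) := by rw [hq]; group
      _ = _ := by rw [h1]
  set d := q⁻¹ * (g * q * g⁻¹) with hd
  have hd' : d ∈ ⁅D, D⁆ := by
    have : d = ⁅(g * x * g⁻¹)⁻¹, x⁻¹⁆ := by
      rw [hd, h2, hq, commutatorElement_def]
      group
    rw [this]
    exact commutator_mem_commutator (inv_mem (hgD x hx)) (inv_mem hx)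
  have h3 : g * q * g⁻¹ = q * d := by rw [hd, mul_inv_cancel_left]
  have h4 : g * (g * q * g⁻¹) * g⁻¹ = q := by
    calc g * (g * q * g⁻¹) * g⁻¹ = g * g * q * (g * g)⁻¹ := by group
      _ = q := by rw [hgg, mul_inv_cancel_right]
  have h5 : q = q * (d * d) := by
    calc q = g * (g * q * g⁻¹) * g⁻¹ := h4.symm
      _ = g * (q * d) * g⁻¹ := by rw [h3]
      _ = (g * q * g⁻¹) * (g * d * g⁻¹) := by group
      _ = q * d * d := by rw [h3, hgD' d hd']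
      _ = q * (d * d) := by rw [mul_assoc]
  have h6 : d * d = 1 := (mul_eq_left.1 h5.symm)
  have h7 : d = 1 := eq_one_of_sq hn (hD d (commutator_le_self D hd')) h6
  rw [h3, h7, mul_one]

theorem exists_three [Finite L] (hFT : FT.{u}) {M : Subgroup L} [hM : M.Normal] (hodd : Odd (Nat.card M))
    (h3 : Nat.Coprime 3 (Nat.card M)) {i j w : L} (hrel : SLRel i j w) (hw : orderOf w = 3)
    (hz : ∀ x, i * i * x = x * (i * i)) (hjj : j * j = i * i) (hne : ∃ m ∈ M, i * m ≠ m * i) : Conf L := by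
  have hw3 : w ^ 3 = 1 := by rw [← hw, pow_orderOf_eq_one]
  have hMn : ∀ m ∈ M, m ^ Nat.card M = 1 := by
    intro m hm
    have := pow_card_eq_one' (x := (⟨m, hm⟩ : M))
    exact congrArg Subtype.val this
  -- the minimal subgroup
  let S : Set (Subgroup L) := {D | D ≤ M ∧ (∀ d ∈ D, i * d * i⁻¹ ∈ D) ∧ (∀ d ∈ D, j * d * j⁻¹ ∈ D) ∧
    (∀ d ∈ D, w * d * w⁻¹ ∈ D) ∧ ∃ d ∈ D, i * d ≠ d * i}
  have hSne : S.Nonempty := ⟨M, le_rfl, fun d hd => hM.conj_mem d hd i, fun d hd => hM.conj_mem d hd j,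
    fun d hd => hM.conj_mem d hd w, hne⟩
  obtain ⟨D, ⟨hDM, hDi, hDj, hDw, hDne⟩, hDmin⟩ := WellFounded.has_min (wellFounded_lt (α := Subgroup L)) S hSne
  have hDn : ∀ m ∈ D, m ^ Nat.card M = 1 := fun m hm => hMn m (hDM hm)
  have hDw' : ∀ d ∈ D, w⁻¹ * d * w ∈ D := by
    intro d hd
    have h1 := hDw _ (hDw d hd)
    have h2 : w * (w * d * w⁻¹) * w⁻¹ = w⁻¹ * d * w := by
      calc w * (w * d * w⁻¹) * w⁻¹ = w⁻¹ * w ^ 3 * d * (w ^ 3)⁻¹ * w := by simp only [pow_succ, pow_zero, one_mul, mul_inv_rev, inv_inv, mul_assoc, mul_inv_cancel_left, inv_mul_cancel_left, mul_inv_cancel, inv_mul_cancel, mul_one, inv_one]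
        _ = w⁻¹ * d * w := by rw [hw3]; group
    rwa [h2] at h1
  have hwi : w * i * w⁻¹ = j := hrel.hti
  have hwj : w * j * w⁻¹ = i * j := hrel.htj
  have hji : j * i * j = i := by
    have h1 : j * i * j⁻¹ = i⁻¹ := hrel.hji
    calc j * i * j = (j * i * j⁻¹) * (j * j) := by group
      _ = i := by rw [h1, hjj]; group
  have hwk : w * (i * j) * w⁻¹ = i := by
    calc w * (i * j) * w⁻¹ = (w * i * w⁻¹) * (w * j * w⁻¹) := by group
      _ = i := by rw [hwi, hwj, ← mul_assoc, hji]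
  -- the commutator subgroup of `D` is centralised by `i`
  have hD'lt : ⁅D, D⁆ < D := by
    refine lt_of_le_of_ne (commutator_le_self D) ?_
    intro h
    have h1 := perfect_of_commutator_eq h
    have h2 : Odd (Nat.card D) := Odd.of_dvd_nat hodd (card_dvd_of_le hDM)
    have h4 := subsingleton_of_solvable h1 (hFT D h2)
    obtain ⟨d, hd, hd'⟩ := hDne
    apply hd'
    have h5 : (⟨d, hd⟩ : D) = 1 := Subsingleton.elim _ _
    have h6 : d = 1 := congrArg Subtype.val h5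
    rw [h6, mul_one, one_mul]
  have hconj : ∀ g : L, (∀ d ∈ D, g * d * g⁻¹ ∈ D) → ∀ d ∈ ⁅D, D⁆, g * d * g⁻¹ ∈ ⁅D, D⁆ := by
    intro g hg d hd
    have h1 : ⁅D, D⁆ ≤ (⁅D, D⁆).comap (MulAut.conj g).toMonoidHom := by
      rw [commutator_le]
      intro a ha b hb
      rw [mem_comap]
      have h2 : (MulAut.conj g).toMonoidHom ⁅a, b⁆ = ⁅g * a * g⁻¹, g * b * g⁻¹⁆ := by
        rw [map_commutatorElement]
        rfl
      rw [h2]
      exact commutator_mem_commutator (hg a ha) (hg b hb)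
    exact h1 hd
  have hD'i : ∀ d ∈ ⁅D, D⁆, i * d = d * i := by
    by_contra hcon
    push Not at hcon
    exact hDmin ⁅D, D⁆ ⟨hD'lt.le.trans hDM, hconj i hDi, hconj j hDj, hconj w hDw, hcon⟩ hD'lt
  have hD'i' : ∀ d ∈ ⁅D, D⁆, i * d * i⁻¹ = d := fun d hd => by rw [hD'i d hd, mul_inv_cancel_right]
  have hw'conj : ∀ d ∈ ⁅D, D⁆, w⁻¹ * d * w ∈ ⁅D, D⁆ := by
    intro d hd
    have h1 := hconj w⁻¹ (fun d hd => by
      have := hDw' d hd
      rwa [inv_inv]) d hd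
    rwa [inv_inv] at h1
  have hD'j' : ∀ d ∈ ⁅D, D⁆, j * d * j⁻¹ = d := by
    intro d hd
    have h1 := hD'i' _ (hw'conj d hd)
    calc j * d * j⁻¹ = w * (i * (w⁻¹ * d * w) * i⁻¹) * w⁻¹ := by rw [← hwi]; group
      _ = d := by rw [h1]; group
  have hD'k' : ∀ d ∈ ⁅D, D⁆, (i * j) * d * (i * j)⁻¹ = d := by
    intro d hd
    calc (i * j) * d * (i * j)⁻¹ = i * (j * d * j⁻¹) * i⁻¹ := by group
      _ = d := by rw [hD'j' d hd, hD'i' d hd]
  have hzj : ∀ x, j * j * x = x * (j * j) := by rw [hjj]; exact hz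
  have hkk : (i * j) * (i * j) = i * i := by
    calc (i * j) * (i * j) = i * (j * i * j) := by group
      _ = i * i := by rw [hji]
  have hzk : ∀ x, (i * j) * (i * j) * x = x * ((i * j) * (i * j)) := by rw [hkk]; exact hz
  have hDk : ∀ d ∈ D, (i * j) * d * (i * j)⁻¹ ∈ D := by
    intro d hd
    have := hDi _ (hDj d hd)
    have e : i * (j * d * j⁻¹) * i⁻¹ = (i * j) * d * (i * j)⁻¹ := by group
    rwa [e] at this
  -- an element fixed by `i` and not by `j`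
  obtain ⟨y0, hy0D, hy0i, hy0j⟩ : ∃ y ∈ D, i * y * i⁻¹ = y ∧ j * y * j⁻¹ ≠ y := by
    by_contra hcon
    push Not at hcon
    have H1 : ∀ y ∈ D, j * y * j⁻¹ = y → (i * j) * y * (i * j)⁻¹ = y := by
      intro y hy hyj
      have h1 := hcon (w⁻¹ * y * w) (hDw' y hy) (by
        calc i * (w⁻¹ * y * w) * i⁻¹ = w⁻¹ * ((w * i * w⁻¹) * y * (w * i * w⁻¹)⁻¹) * w := by group
          _ = w⁻¹ * y * w := by rw [hwi, hyj])
      calc (i * j) * y * (i * j)⁻¹ = (w * j * w⁻¹) * y * (w * j * w⁻¹)⁻¹ := by rw [hwj]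
        _ = w * (j * (w⁻¹ * y * w) * j⁻¹) * w⁻¹ := by group
        _ = y := by rw [h1]; group
    have H2 : ∀ y ∈ D, (i * j) * y * (i * j)⁻¹ = y → i * y * i⁻¹ = y := by
      intro y hy hyk
      have h1 := H1 (w⁻¹ * y * w) (hDw' y hy) (by
        calc j * (w⁻¹ * y * w) * j⁻¹ = w⁻¹ * ((w * j * w⁻¹) * y * (w * j * w⁻¹)⁻¹) * w := by group
          _ = w⁻¹ * y * w := by rw [hwj, hyk])
      calc i * y * i⁻¹ = (w * (i * j) * w⁻¹) * y * (w * (i * j) * w⁻¹)⁻¹ := by rw [hwk]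
        _ = w * ((i * j) * (w⁻¹ * y * w) * (i * j)⁻¹) * w⁻¹ := by group
        _ = y := by rw [h1]; group
    obtain ⟨x, hx, hxi⟩ := hDne
    apply hxi
    set c1 := x * (i * x * i⁻¹) with hc1
    set c2 := x * (j * x * j⁻¹) with hc2
    set c3 := x * ((i * j) * x * (i * j)⁻¹) with hc3
    have m1 : c1 ∈ D := mul_mem hx (hDi x hx)
    have m2 : c2 ∈ D := mul_mem hx (hDj x hx)
    have m3 : c3 ∈ D := mul_mem hx (hDk x hx)
    have f1 : i * c1 * i⁻¹ = c1 := fixed_of_sq hodd hDn hz hDi hD'i' hx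
    have f2 : j * c2 * j⁻¹ = c2 := fixed_of_sq hodd hDn hzj hDj hD'j' hx
    have f3 : (i * j) * c3 * (i * j)⁻¹ = c3 := fixed_of_sq hodd hDn hzk hDk hD'k' hx
    have f2' : i * c2 * i⁻¹ = c2 := H2 _ m2 (H1 _ m2 f2)
    have f3' : i * c3 * i⁻¹ = c3 := H2 _ m3 f3
    have e1 : i * x * i⁻¹ = x⁻¹ * c1 := by rw [hc1, inv_mul_cancel_left]
    have e2 : j * x * j⁻¹ = x⁻¹ * c2 := by rw [hc2, inv_mul_cancel_left]
    have e3 : (i * j) * x * (i * j)⁻¹ = x⁻¹ * c3 := by rw [hc3, inv_mul_cancel_left]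
    have e4 : (i * j) * x * (i * j)⁻¹ = c1⁻¹ * x * c2 := by
      calc (i * j) * x * (i * j)⁻¹ = i * (j * x * j⁻¹) * i⁻¹ := by group
        _ = i * (x⁻¹ * c2) * i⁻¹ := by rw [e2]
        _ = (i * x * i⁻¹)⁻¹ * (i * c2 * i⁻¹) := by group
        _ = c1⁻¹ * x * c2 := by rw [e1, f2']; group
    have e5 : x * c1⁻¹ * x * c2 = c3 := by
      calc x * c1⁻¹ * x * c2 = x * (c1⁻¹ * x * c2) := by group
        _ = c3 := by rw [← e4, e3, mul_inv_cancel_left]
    have e6 : x⁻¹ * x⁻¹ * c1 * c2 = c3 := by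
      calc x⁻¹ * x⁻¹ * c1 * c2 = (x⁻¹ * c1) * c1⁻¹ * (x⁻¹ * c1) * c2 := by group
        _ = (i * x * i⁻¹) * (i * c1 * i⁻¹)⁻¹ * (i * x * i⁻¹) * (i * c2 * i⁻¹) := by rw [e1, f1, f2']
        _ = i * (x * c1⁻¹ * x * c2) * i⁻¹ := by group
        _ = c3 := by rw [e5, f3']
    have e7 : x * x = c1 * c2 * c3⁻¹ := by
      rw [← e6]
      simp only [pow_succ, pow_zero, one_mul, mul_inv_rev, inv_inv, mul_assoc, mul_inv_cancel_left, inv_mul_cancel_left, mul_inv_cancel, inv_mul_cancel, mul_one, inv_one]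
    have e8 : i * (x * x) * i⁻¹ = x * x := by
      calc i * (x * x) * i⁻¹ = (i * c1 * i⁻¹) * (i * c2 * i⁻¹) * (i * c3 * i⁻¹)⁻¹ := by rw [e7]; group
        _ = x * x := by rw [f1, f2', f3', e7]
    have e9 : x ^ 2 * i = i * x ^ 2 := by
      rw [pow_two]
      calc x * x * i = (i * (x * x) * i⁻¹) * i := by rw [e8]
        _ = i * (x * x) := by group
    exact (comm_of_sq hodd (hDn x hx) e9).symm
  -- the inverted element
  set y := y0⁻¹ * (j * y0 * j⁻¹) with hy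
  have hyD : y ∈ D := mul_mem (inv_mem hy0D) (hDj _ hy0D)
  have hy1 : y ≠ 1 := by
    intro h
    apply hy0j
    rw [hy, inv_mul_eq_one] at h
    exact h.symm
  have hjy : j * y * j⁻¹ = y⁻¹ := by
    calc j * y * j⁻¹ = (j * y0 * j⁻¹)⁻¹ * (j * j * y0 * (j * j)⁻¹) := by rw [hy]; group
      _ = y⁻¹ := by rw [hzj, mul_inv_cancel_right, hy]; group
  have hiy : i * y * i⁻¹ = y := by
    have h1 : i * (j * y0 * j⁻¹) * i⁻¹ = j * y0 * j⁻¹ := by
      have h2 : i * j = j * i * (i * i)⁻¹ := by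
        have h4 : j * i * j⁻¹ = i⁻¹ := hrel.hji
        have h5 : i * i * (i * i) = 1 := by
          have := hrel.hi
          rw [← this]
          simp only [pow_succ, pow_zero, one_mul, mul_inv_rev, inv_inv, mul_assoc, mul_inv_cancel_left, inv_mul_cancel_left, mul_inv_cancel, inv_mul_cancel, mul_one, inv_one]
        calc i * j = (j * i * j⁻¹)⁻¹ * j := by rw [h4, inv_inv]
          _ = j * i⁻¹ := by group
          _ = j * i * (i * i)⁻¹ := by group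
      calc i * (j * y0 * j⁻¹) * i⁻¹ = (i * j) * y0 * (i * j)⁻¹ := by group
        _ = j * i * ((i * i)⁻¹ * y0) * (i * i) * i⁻¹ * j⁻¹ := by rw [h2]; group
        _ = j * i * (y0 * (i * i)⁻¹) * (i * i) * i⁻¹ * j⁻¹ := by
          have h6 : (i * i)⁻¹ * y0 = y0 * (i * i)⁻¹ := by
            rw [inv_mul_eq_iff_eq_mul, ← mul_assoc, hz, mul_inv_cancel_right]
          rw [h6]
        _ = j * (i * y0 * i⁻¹) * j⁻¹ := by group
        _ = j * y0 * j⁻¹ := by rw [hy0i]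
    calc i * y * i⁻¹ = (i * y0 * i⁻¹)⁻¹ * (i * (j * y0 * j⁻¹) * i⁻¹) := by rw [hy]; group
      _ = y := by rw [hy0i, h1]
  set y1 := w * y * w⁻¹ with hy1'
  have hy1D : y1 ∈ D := hDw y hyD
  have hjy1 : j * y1 * j⁻¹ = y1 := by
    calc j * y1 * j⁻¹ = w * (i * y * i⁻¹) * w⁻¹ := by rw [hy1', ← hwi]; group
      _ = y1 := by rw [hiy]
  have hky1 : (i * j) * y1 * (i * j)⁻¹ = y1⁻¹ := by
    calc (i * j) * y1 * (i * j)⁻¹ = w * (j * y * j⁻¹) * w⁻¹ := by rw [hy1', ← hwj]; group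
      _ = y1⁻¹ := by rw [hjy, hy1']; group
  have hiy1 : i * y1 * i⁻¹ = y1⁻¹ := by
    calc i * y1 * i⁻¹ = i * (j * y1 * j⁻¹) * i⁻¹ := by rw [hjy1]
      _ = (i * j) * y1 * (i * j)⁻¹ := by group
      _ = y1⁻¹ := hky1
  have hcomm : y1 * y = y * y1 := by
    have h1 := hD'i' ⁅y, y1⁆ (commutator_mem_commutator hyD hy1D)
    have h2 : i * ⁅y, y1⁆ * i⁻¹ = y * y1⁻¹ * y⁻¹ * y1 := by
      calc i * ⁅y, y1⁆ * i⁻¹ = (i * y * i⁻¹) * (i * y1 * i⁻¹) * (i * y * i⁻¹)⁻¹ * (i * y1 * i⁻¹)⁻¹ := by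
            rw [commutatorElement_def]; group
        _ = y * y1⁻¹ * y⁻¹ * y1 := by rw [hiy, hiy1, inv_inv]
    rw [h2, commutatorElement_def] at h1
    have h4 : y1⁻¹ * y⁻¹ * y1 = y1 * y⁻¹ * y1⁻¹ := by
      calc y1⁻¹ * y⁻¹ * y1 = y⁻¹ * (y * y1⁻¹ * y⁻¹ * y1) := by group
        _ = y1 * y⁻¹ * y1⁻¹ := by rw [h1]; group
    have h5 : y1 ^ 2 * y⁻¹ = y⁻¹ * y1 ^ 2 := by
      calc y1 ^ 2 * y⁻¹ = y1 * (y1 * y⁻¹ * y1⁻¹) * y1 := by simp only [pow_succ, pow_zero, one_mul, mul_inv_rev, inv_inv, mul_assoc, mul_inv_cancel_left, inv_mul_cancel_left, mul_inv_cancel, inv_mul_cancel, mul_one, inv_one]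
        _ = y1 * (y1⁻¹ * y⁻¹ * y1) * y1 := by rw [h4]
        _ = y⁻¹ * y1 ^ 2 := by simp only [pow_succ, pow_zero, one_mul, mul_inv_rev, inv_inv, mul_assoc, mul_inv_cancel_left, inv_mul_cancel_left, mul_inv_cancel, inv_mul_cancel, mul_one, inv_one]
    have h6 := comm_of_sq hodd (hDn y1 hy1D) h5
    have h7 : Commute y1 y⁻¹ := h6
    exact (Commute.inv_right_iff.1 h7)
  set y2 := w * y1 * w⁻¹ with hy2
  have hwy2 : w * y2 * w⁻¹ = y := by
    calc w * y2 * w⁻¹ = w ^ 3 * y * (w ^ 3)⁻¹ := by rw [hy2, hy1']; simp only [pow_succ, pow_zero, one_mul, mul_inv_rev, inv_inv, mul_assoc, mul_inv_cancel_left, inv_mul_cancel_left, mul_inv_cancel, inv_mul_cancel, mul_one, inv_one]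
      _ = y := by rw [hw3]; group
  have c01 : Commute y y1 := hcomm.symm
  have c12 : Commute y1 y2 := by
    have : y1 * y2 = y2 * y1 := by
      calc y1 * y2 = w * (y * y1) * w⁻¹ := by rw [hy2]; nth_rewrite 1 [hy1']; group
        _ = w * (y1 * y) * w⁻¹ := by rw [hcomm]
        _ = y2 * y1 := by rw [hy2]; nth_rewrite 3 [hy1']; group
    exact this
  have c20 : Commute y2 y := by
    have : y2 * y = y * y2 := by
      calc y2 * y = w * (y1 * y2) * w⁻¹ := by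
            conv_lhs => rw [← hwy2]
            rw [hy2]; group
        _ = w * (y2 * y1) * w⁻¹ := by rw [c12.eq]
        _ = y * y2 := by
            conv_rhs => rw [← hwy2]
            rw [hy2]; group
    exact this
  have hgw : w * (y * y1⁻¹) * w⁻¹ = y1 * y2⁻¹ := by rw [hy2, hy1']; group
  have hgw2 : w ^ 2 * (y * y1⁻¹) * (w ^ 2)⁻¹ = y2 * y⁻¹ := by
    calc w ^ 2 * (y * y1⁻¹) * (w ^ 2)⁻¹ = w * (w * (y * y1⁻¹) * w⁻¹) * w⁻¹ := by simp only [pow_succ, pow_zero, one_mul, mul_inv_rev, inv_inv, mul_assoc, mul_inv_cancel_left, inv_mul_cancel_left, mul_inv_cancel, inv_mul_cancel, mul_one, inv_one]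
      _ = w * (y1 * y2⁻¹) * w⁻¹ := by rw [hgw]
      _ = (w * y1 * w⁻¹) * (w * y2 * w⁻¹)⁻¹ := by group
      _ = y2 * y⁻¹ := by rw [hwy2]
  refine Conf.three w (y * y1⁻¹) hw ?_ (Nat.card M) h3 (hDn _ (mul_mem hyD (inv_mem hy1D))) ?_ ?_
  · intro h
    have h1 : y = y1 := mul_inv_eq_one.1 h
    have h2 : y = y⁻¹ := by
      calc y = i * y * i⁻¹ := hiy.symm
        _ = i * y1 * i⁻¹ := by rw [← h1]
        _ = y⁻¹ := by rw [hiy1, ← h1]
    apply hy1
    apply eq_one_of_sq hodd (hDn y hyD)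
    nth_rewrite 2 [h2]
    exact mul_inv_cancel y
  · rw [hgw]
    exact (c01.mul_right c20.symm.inv_right).mul_left ((Commute.refl y1).mul_right c12.inv_right).inv_left
  · rw [hgw, hgw2]
    calc y * y1⁻¹ * (y1 * y2⁻¹) * (y2 * y⁻¹) = 1 := by group

end Cfsg.Agent.H892.GroupF
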