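import Mathlib
import Cfsg.Agent.H892.GroupC
import Cfsg.Agent.H892.GroupD
import Cfsg.Agent.H892.GroupE
import Cfsg.Agent.H892.GroupF
import Cfsg.Agent.GH.Cov.SLTwoFacts
import Cfsg.Agent.Lib.PSL2Mult

/-!
# Finite groups whose solvable radical has index more than 120 contain one of four configurations
-/

set_option autoImplicit false

namespace Cfsg.Agent.H892.GroupG

open Subgroup Cfsg.Agent.H892.ModCase Cfsg.Agent.H892.GroupA Cfsg.Agent.H892.GroupB Cfsg.Agent.H892.CoprimeChar
open Cfsg.Agent.Transfer.SL23Recog Cfsg.Agent.ClassicalGeometry.SplitTorus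
open Cfsg.Agent.SylowSp4

universe u

/-- Subgroups of order prime to the kernel lift. -/
theorem exists_section {L N : Type*} [Group L] [Finite L] [Group N] {π : L →* N} (hπ : Function.Surjective π)
    {X : Subgroup N} (hX : Nat.Coprime (Nat.card π.ker) (Nat.card X)) : ∃ σ : X →* L, ∀ x, π (σ x) = x := by
  let f : X.comap π →* X := π.subgroupComap X
  have hf : Function.Surjective f := by
    rintro ⟨x, hx⟩
    obtain ⟨l, rfl⟩ := hπ x
    exact ⟨⟨l, hx⟩, rfl⟩
  have hk : Nat.card f.ker ∣ Nat.card π.ker := by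
    let i : f.ker →* π.ker :=
      { toFun := fun x => ⟨((x : X.comap π) : L), by
          have h1 : f x = 1 := x.2
          exact congrArg Subtype.val h1⟩
        map_one' := rfl
        map_mul' := fun _ _ => rfl }
    apply Subgroup.card_dvd_of_injective i
    intro x y hxy
    apply Subtype.ext
    apply Subtype.ext
    exact congrArg (fun z : π.ker => (z : L)) hxy
  have hi : f.ker.index = Nat.card X := by
    rw [index_ker, MonoidHom.range_eq_top.2 hf, Subgroup.card_top]
  obtain ⟨C, hC⟩ := Subgroup.exists_right_complement'_of_coprime (N := f.ker) (by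
    rw [hi]
    exact Nat.Coprime.coprime_dvd_left hk hX)
  have hbij : Function.Bijective (f.comp C.subtype) := by
    constructor
    · rw [injective_iff_map_eq_one]
      intro x hx
      have h1 : (x : X.comap π) ∈ f.ker ⊓ C := ⟨hx, x.2⟩
      rw [hC.disjoint.eq_bot, mem_bot] at h1
      exact Subtype.ext h1
    · intro y
      obtain ⟨x, rfl⟩ := hf y
      obtain ⟨⟨a, b⟩, rfl⟩ := hC.2 x
      refine ⟨b, ?_⟩
      have h2 : f a = 1 := a.2
      rw [map_mul, h2, one_mul]
      rfl
  let e : C ≃* X := MulEquiv.ofBijective _ hbij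
  refine ⟨(X.comap π).subtype.comp (C.subtype.comp e.symm.toMonoidHom), fun x => ?_⟩
  have h1 : e (e.symm x) = x := e.apply_symm_apply x
  exact congrArg Subtype.val h1

theorem conf_sl {p : ℕ} [hp : Fact p.Prime] (hp7 : 7 ≤ p) : Conf (SS p) := by
  have hpp := hp.out
  by_cases h3 : p % 3 = 2
  · refine Conf.sl p hpp ?_ h3 (MonoidHom.id _) Function.injective_id
    by_contra hcon
    push Not at hcon
    interval_cases p
    · norm_num at h3
    · exact absurd hpp (by norm_num)
    · exact absurd hpp (by norm_num)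
    · exact absurd hpp (by norm_num)
  · have h30 : p % 3 ≠ 0 := by
      intro h
      have h1 : 3 ∣ p := Nat.dvd_of_mod_eq_zero h
      rw [Nat.prime_dvd_prime_iff_eq Nat.prime_three hpp] at h1
      omega
    have h31 : 3 ∣ p - 1 := by omega
    have : Fact (Nat.Prime 3) := ⟨Nat.prime_three⟩
    obtain ⟨ω, hω⟩ : ∃ ω : (ZMod p)ˣ, orderOf ω = 3 := by
      apply exists_prime_orderOf_dvd_card
      rw [ZMod.card_units]
      exact h31
    have hω3 : ω ^ 3 = 1 := by rw [← hω, pow_orderOf_eq_one]
    have hω1 : ω ≠ 1 := by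
      intro h
      rw [h, orderOf_one] at hω
      norm_num at hω
    set a : ZMod p := (ω : ZMod p) with ha
    have ha3 : a ^ 3 = 1 := by
      rw [ha, ← Units.val_pow_eq_pow_val, hω3, Units.val_one]
    have ha1 : a ≠ 1 := by
      intro h
      exact hω1 (Units.ext h)
    have haa : 1 + a + a ^ 2 = 0 := by
      have h1 : (a - 1) * (1 + a + a ^ 2) = 0 := by
        calc (a - 1) * (1 + a + a ^ 2) = a ^ 3 - 1 := by ring
          _ = 0 := by rw [ha3, sub_self]
      rcases mul_eq_zero.1 h1 with h | h
      · exact absurd (sub_eq_zero.1 h) ha1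
      · exact h
    have hc1 : dg ω * up 1 * (dg ω)⁻¹ = up (a ^ 2) := by rw [dg_conj_up, mul_one]
    have hc2 : dg ω ^ 2 * up 1 * (dg ω ^ 2)⁻¹ = up a := by
      rw [pow_two, ← dg_mul, dg_conj_up]
      congr 1
      rw [Units.val_mul]
      calc (a * a) ^ 2 * 1 = a ^ 3 * a := by ring
        _ = a := by rw [ha3, one_mul]
    refine Conf.three (dg ω) (up 1) ?_ (up_ne_one p) p ?_ ?_ ?_ ?_
    · apply orderOf_eq_prime
      · have : dg ω ^ 3 = dg (ω ^ 3) := by
          have := (dgHom (ZMod p)).map_pow ω 3
          exact this.symm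
        rw [this, hω3, dg_one]
      · intro h
        have h1 := congrArg (fun x : SS p => x 0 0) h
        simp only [dg00] at h1
        exact ha1 h1
    · rw [Nat.coprime_primes Nat.prime_three hpp]
      omega
    · have h1 := pow_orderOf_eq_one (up 1 : SS p)
      rwa [GroupC.orderOf_up (F := ZMod p) (p := p) one_ne_zero] at h1
    · rw [hc1, Commute, SemiconjBy, ← up_add, ← up_add, add_comm]
    · rw [hc1, hc2, ← up_add, ← up_add]
      have : (1 : ZMod p) + a ^ 2 + a = 0 := by
        calc (1 : ZMod p) + a ^ 2 + a = 1 + a + a ^ 2 := by ring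
          _ = 0 := haa
      rw [this, up_zero]

theorem conf_of_sl {F : Type} [Field F] {p : ℕ} [hp : Fact p.Prime] [CharP F p] (hp7 : 7 ≤ p)
    {L : Type*} [Group L] (e : Matrix.SpecialLinearGroup (Fin 2) F ≃* L) : Conf L := by
  let i : ZMod p →+* F := ZMod.castHom (dvd_refl p) F
  let f : SS p →* Matrix.SpecialLinearGroup (Fin 2) F := Matrix.SpecialLinearGroup.map i
  have hf : Function.Injective f := by
    intro x y hxy
    ext a b
    have h1 : i (x a b) = i (y a b) := congrArg (fun z : Matrix.SpecialLinearGroup (Fin 2) F => z a b) hxy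
    exact i.injective h1
  exact (conf_sl hp7).map (e.toMonoidHom.comp f) (e.injective.comp hf)

/-- The kernel of the map to `PSL₂`. -/
theorem ker_cases {L : Type*} [Group L] {F : Type*} [Field F]
    {π : L →* Matrix.SpecialLinearGroup (Fin 2) F} {c i j w : Matrix.SpecialLinearGroup (Fin 2) F}
    (h : GH.Cov.SLTwoFacts.SLFacts c i j w) {x : L}
    (hx : x ∈ ((QuotientGroup.mk' (center (Matrix.SpecialLinearGroup (Fin 2) F))).comp π).ker) :
    π x = 1 ∨ π x = c := by
  rw [MonoidHom.mem_ker, MonoidHom.comp_apply, QuotientGroup.mk'_apply, QuotientGroup.eq_one_iff, mem_center_iff] at hx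
  exact h.cent _ (hx i).symm (hx j).symm

theorem solvable_ker {L : Type*} [Group L] {F : Type*} [Field F]
    {π : L →* Matrix.SpecialLinearGroup (Fin 2) F} (hk : Group.IsSolvable π.ker) :
    Group.IsSolvable ((QuotientGroup.mk' (center (Matrix.SpecialLinearGroup (Fin 2) F))).comp π).ker := by
  set f := (QuotientGroup.mk' (center (Matrix.SpecialLinearGroup (Fin 2) F))).comp π with hf
  have hle : π.ker ≤ f.ker := by
    intro x hx
    rw [MonoidHom.mem_ker] at hx
    rw [hf, MonoidHom.mem_ker, MonoidHom.comp_apply, hx, map_one]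
  have hmem : ∀ x : f.ker, π x ∈ center (Matrix.SpecialLinearGroup (Fin 2) F) := by
    intro x
    have hx : (QuotientGroup.mk' (center (Matrix.SpecialLinearGroup (Fin 2) F))) (π x) = 1 := x.2
    rwa [QuotientGroup.mk'_apply, QuotientGroup.eq_one_iff] at hx
  have hcs : Group.IsSolvable (center (Matrix.SpecialLinearGroup (Fin 2) F)) :=
    Group.isSolvable_of_comm (fun a b => Subtype.ext (mem_center_iff.1 b.2 a))
  let g : f.ker →* center (Matrix.SpecialLinearGroup (Fin 2) F) :=
    { toFun := fun x => ⟨π x, hmem x⟩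
      map_one' := Subtype.ext (map_one π)
      map_mul' := fun x y => Subtype.ext (map_mul π _ _) }
  refine Group.isSolvable_of_ker_le_range (inclusion hle) g ?_
  intro x hx
  have h1 : π x = 1 := congrArg Subtype.val (show g x = 1 from hx)
  exact ⟨⟨x, h1⟩, rfl⟩

theorem main_case (hFT : FT.{u}) {L : Type u} [Group L] [Finite L] (hL : commutator L = ⊤) (hC : ¬ Conf L)
    {z : L} (hz2 : orderOf z = 2)
    (hzc : ∀ y, y * z = z * y) {F : Type} [Field F] [Fintype F] (hodd : Odd (Fintype.card F))
    (e : L ⧸ Cfsg.oddCore L ≃* Matrix.SpecialLinearGroup (Fin 2) F) {p : ℕ} [hp : Fact p.Prime] [CharP F p]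
    (hp7 : 7 ≤ p) : False := by
  classical
  have hn : (Cfsg.oddCore L).Normal := Cfsg.Agent.Lib.Cores.pPrimeCore_normal 2
  set M := Cfsg.oddCore L with hM
  have hMco := Cfsg.Agent.Lib.Cores.pPrimeCore_coprime (G := L) 2
  have h2M : ¬ 2 ∣ Nat.card M := (Nat.Prime.coprime_iff_not_dvd Nat.prime_two).1 hMco.symm
  have hModd : Odd (Nat.card M) := by
    rw [← Nat.not_even_iff_odd, even_iff_two_dvd]
    exact h2M
  have h3M : ¬ 3 ∣ Nat.card M := by
    have : Fact (Nat.Prime 3) := ⟨Nat.prime_three⟩
    exact GroupE.not_three_dvd hL (fun P => GroupA.isCyclic hC (by norm_num) (by norm_num) P.2) M h2M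
  have h3M' : Nat.Coprime 3 (Nat.card M) := (Nat.Prime.coprime_iff_not_dvd Nat.prime_three).2 h3M
  set π : L →* Matrix.SpecialLinearGroup (Fin 2) F := e.toMonoidHom.comp (QuotientGroup.mk' M) with hπ
  have hπs : Function.Surjective π := e.surjective.comp (QuotientGroup.mk'_surjective M)
  have hπk : π.ker = M := by
    ext x
    rw [MonoidHom.mem_ker, hπ, MonoidHom.comp_apply]
    change e ((QuotientGroup.mk' M) x) = 1 ↔ _
    rw [EmbeddingLike.map_eq_one_iff, QuotientGroup.mk'_apply, QuotientGroup.eq_one_iff]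
  obtain ⟨c, i, j, w, h⟩ := GH.Cov.SLTwoFacts.exists_sl (K := F) hodd
  -- lift `SL₂(3)`
  have hXM : Nat.Coprime (Nat.card π.ker) (Nat.card (closure ({i, j, w} : Set (Matrix.SpecialLinearGroup (Fin 2) F)))) := by
    rw [h.card_B, hπk]
    have : (24 : ℕ) = 2 ^ 3 * 3 := by norm_num
    rw [this]
    exact Nat.Coprime.mul_right (Nat.Coprime.pow_right 3 hMco) h3M'.symm
  obtain ⟨σ, hσ⟩ := exists_section hπs hXM
  have hi : i ∈ closure ({i, j, w} : Set (Matrix.SpecialLinearGroup (Fin 2) F)) := subset_closure (by simp)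
  have hj : j ∈ closure ({i, j, w} : Set (Matrix.SpecialLinearGroup (Fin 2) F)) := subset_closure (by simp)
  have hw : w ∈ closure ({i, j, w} : Set (Matrix.SpecialLinearGroup (Fin 2) F)) := subset_closure (by simp)
  set i' := σ ⟨i, hi⟩ with hi'
  set j' := σ ⟨j, hj⟩ with hj'
  set w' := σ ⟨w, hw⟩ with hw'
  have hπi : π i' = i := hσ _
  have hπw : π w' = w := hσ _
  have hrel : SLRel i' j' w' :=
    { hi := by rw [hi', ← map_pow, ← map_one σ]; exact congrArg σ (Subtype.ext h.rel.hi)
      hj := by rw [hi', hj', ← map_pow, ← map_pow]; exact congrArg σ (Subtype.ext h.rel.hj)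
      hji := by rw [hi', hj', ← map_inv, ← map_inv, ← map_mul, ← map_mul]; exact congrArg σ (Subtype.ext h.rel.hji)
      hti := by rw [hi', hj', hw', ← map_inv, ← map_mul, ← map_mul]; exact congrArg σ (Subtype.ext h.rel.hti)
      htj := by
        rw [hi', hj', hw', ← map_inv, ← map_mul, ← map_mul, ← map_mul]
        exact congrArg σ (Subtype.ext h.rel.htj) }
  have hw3 : orderOf w' = 3 := by
    have : Fact (Nat.Prime 3) := ⟨Nat.prime_three⟩
    apply orderOf_eq_prime
    · rw [hw', ← map_pow, ← map_one σ]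
      exact congrArg σ (Subtype.ext h.w3)
    · intro h1
      have h2 := h.orderOf_w
      rw [← hπw, h1, map_one, orderOf_one] at h2
      norm_num at h2
  have hii : orderOf (i' * i') = 2 := by
    apply orderOf_eq_prime
    · have := hrel.hi
      rw [← this]
      simp only [pow_succ, pow_zero, one_mul, mul_assoc]
    · intro h1
      apply h.c_ne
      rw [← h.ii, ← hπi, ← map_mul, h1, map_one]
  have hiic : ∀ x, i' * i' * x = x * (i' * i') := fun x => (invol_central hC hii x).symm
  have hjj : j' * j' = i' * i' := by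
    have := hrel.hj
    rwa [pow_two, pow_two] at this
  have hcent : ∀ m ∈ M, i' * m = m * i' := by
    by_contra hcon
    push Not at hcon
    exact hC (GroupF.exists_three hFT hModd h3M' hrel hw3 hiic hjj hcon)
  -- the map to `PSL₂`
  set f : L →* Matrix.ProjectiveSpecialLinearGroup (Fin 2) F :=
    (QuotientGroup.mk' (center (Matrix.SpecialLinearGroup (Fin 2) F))).comp π with hf
  have hfs : Function.Surjective f := (QuotientGroup.mk'_surjective _).comp hπs
  have hperf : commutator (Matrix.SpecialLinearGroup (Fin 2) F) = ⊤ := perfect_map hL hπs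
  have hsimple : IsSimpleGroup (Matrix.ProjectiveSpecialLinearGroup (Fin 2) F) :=
    LieClassical.SLGen.psl_isSimpleGroup_of_perfect hperf
  have hMsol : Group.IsSolvable M := hFT M hModd
  have hKsol : Group.IsSolvable f.ker := solvable_ker (by rw [hπk]; exact hMsol)
  set C := centralizer (M : Set L) with hCdef
  have hCn : C.Normal := by
    rw [hCdef]
    infer_instance
  have hi'C : i' ∈ C := by
    rw [hCdef, mem_centralizer_iff]
    intro m hm
    exact (hcent m hm).symm
  have hCf : C.map f = ⊤ := by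
    rcases IsSimpleGroup.eq_bot_or_eq_top_of_normal _ (hCn.map f hfs) with h1 | h1
    · exfalso
      have h2 : f i' ∈ C.map f := mem_map_of_mem f hi'C
      rw [h1, mem_bot] at h2
      have h3 : π i' = 1 ∨ π i' = c := ker_cases h h2
      rw [hπi] at h3
      have h4 : ∀ x, i * x = x * i := by
        rcases h3 with h3 | h3
        · intro x
          rw [h3, one_mul, mul_one]
        · rw [h3]
          exact h.central
      have h5 := h.rel.hji
      rw [← h4, mul_inv_cancel_right] at h5
      apply h.c_ne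
      rw [← h.ii]
      nth_rewrite 2 [h5]
      exact mul_inv_cancel i
    · exact h1
  have hCtop : C = ⊤ := by
    have h1 : Function.Surjective ((QuotientGroup.mk' C).comp f.ker.subtype) := by
      intro y
      obtain ⟨x, rfl⟩ := QuotientGroup.mk'_surjective C y
      have h2 : f x ∈ C.map f := by rw [hCf]; trivial
      obtain ⟨k, hk, hkx⟩ := h2
      refine ⟨⟨x * k⁻¹, ?_⟩, ?_⟩
      · rw [MonoidHom.mem_ker, map_mul, map_inv, hkx, mul_inv_cancel]
      · change (QuotientGroup.mk' C) (x * k⁻¹) = _
        rw [map_mul, map_inv]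
        have h3 : (QuotientGroup.mk' C) k = 1 := by
          rw [QuotientGroup.mk'_apply, QuotientGroup.eq_one_iff]
          exact hk
        rw [h3, inv_one, mul_one]
    have h2 : Group.IsSolvable (L ⧸ C) := Group.isSolvable_of_surjective h1
    have h3 := subsingleton_of_solvable (perfect_map hL (QuotientGroup.mk'_surjective C)) h2
    exact QuotientGroup.subsingleton_iff.1 h3
  have hMc : M ≤ center L := by
    intro m hm
    rw [mem_center_iff]
    intro g
    have h1 : g ∈ C := by rw [hCtop]; trivial
    rw [hCdef, mem_centralizer_iff] at h1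
    exact (h1 m hm).symm
  have hπz : π z = c := by
    have h1 : π z * π z = 1 := by
      rw [← map_mul]
      have h2 := pow_orderOf_eq_one z
      rw [hz2, pow_two] at h2
      rw [h2, map_one]
    rcases h.uniq _ h1 with h2 | h2
    · exfalso
      have h3 : z ∈ M := by rw [← hπk]; exact h2
      have h4 : orderOf (⟨z, h3⟩ : M) ∣ Nat.card M := orderOf_dvd_natCard _
      rw [← Subgroup.orderOf_coe, hz2] at h4
      exact h2M h4
    · exact h2
  have hKc : f.ker ≤ center L := by
    intro x hx
    rcases ker_cases h hx with h1 | h1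
    · apply hMc
      rw [← hπk]
      exact h1
    · have h2 : x * z⁻¹ ∈ M := by
        rw [← hπk, MonoidHom.mem_ker, map_mul, map_inv, h1, hπz, mul_inv_cancel]
      have h3 : z ∈ center L := mem_center_iff.2 hzc
      have h4 := mul_mem (hMc h2) h3
      rwa [inv_mul_cancel_right] at h4
  have hpF : p ∣ Fintype.card F := by
    obtain ⟨n, hn, hn'⟩ := FiniteField.card F p
    rw [hn']
    exact dvd_pow_self p n.ne_zero
  have hpc : p ≤ Fintype.card F := Nat.le_of_dvd Fintype.card_pos hpF
  have h9 : Fintype.card F ≠ 9 := by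
    intro h1
    rw [h1] at hpF
    have h2 : p ∣ 3 ^ 2 := hpF
    have h3 := (Nat.prime_dvd_prime_iff_eq hp.out Nat.prime_three).1 (hp.out.dvd_of_dvd_pow h2)
    omega
  have hMbot : M = ⊥ := by
    by_contra hne
    have h1 : Nat.card M ≠ 1 := fun h => hne (Subgroup.card_eq_one.1 h)
    obtain ⟨q, hq, hqd⟩ := Nat.exists_prime_and_dvd h1
    have := Fact.mk hq
    refine Lib.PSL2Mult.not_dvd_ker hodd (by omega) h9 hfs hKc hL (p := q) ?_ (hqd.trans (card_dvd_of_le ?_))
    · rintro rfl
      exact h2M hqd
    · intro x hx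
      rw [← hπk, MonoidHom.mem_ker] at hx
      rw [hf, MonoidHom.mem_ker, MonoidHom.comp_apply, hx, map_one]
  have hinj : Function.Injective π := by
    rw [← MonoidHom.ker_eq_bot_iff, hπk, hMbot]
  exact hC (conf_of_sl hp7 (MulEquiv.ofBijective π ⟨hinj, hπs⟩).symm)

theorem conf_of_index (hFT : FT.{u}) (hGW : Hyps.GW.{u}) {H : Type u} [Group H] [Finite H]
    (h : 120 < (Cfsg.solvableRadical H).index) : Conf H := by
  classical
  by_contra hC
  obtain ⟨L, hLn, hLL, hLs⟩ := exists_residual H
  have hL := perfect_of_commutator_eq hLL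
  have hCL : ¬ Conf L := fun h => hC (h.map L.subtype L.subtype_injective)
  have hLnt : Nontrivial L := by
    by_contra hnt
    rw [not_nontrivial_iff_subsingleton] at hnt
    have h1 : L = ⊥ := by
      rw [eq_bot_iff]
      intro x hx
      have : (⟨x, hx⟩ : L) = 1 := Subsingleton.elim _ _
      exact congrArg Subtype.val this
    have h2 : Group.IsSolvable H := by
      have h3 : Function.Injective (QuotientGroup.mk' L) := by
        rw [← MonoidHom.ker_eq_bot_iff, QuotientGroup.ker_mk', h1]
      exact Group.isSolvable_of_isSolvable_injective h3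
    have h3 : (⊤ : Subgroup H) ≤ Cfsg.solvableRadical H := by
      apply le_sSup
      refine ⟨inferInstance, ?_⟩
      exact Group.isSolvable_of_isSolvable_injective (⊤ : Subgroup H).subtype_injective
    rw [top_le_iff.1 h3, index_top] at h
    omega
  obtain ⟨z, hz2, hzc, h1 | ⟨f, hf⟩⟩ := exists_sl_or hFT hGW hL hCL
  · obtain ⟨F, hF, hFf, hodd, ⟨e⟩⟩ := h1
    have hn : (Cfsg.oddCore L).Normal := Cfsg.Agent.Lib.Cores.pPrimeCore_normal 2
    set π : L →* Matrix.SpecialLinearGroup (Fin 2) F := e.toMonoidHom.comp (QuotientGroup.mk' (Cfsg.oddCore L)) with hπ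
    have hπs : Function.Surjective π := e.surjective.comp (QuotientGroup.mk'_surjective _)
    obtain ⟨p, hp⟩ := CharP.exists F
    have hpf : Fact p.Prime := ⟨CharP.char_is_prime F p⟩
    rcases GroupC.char_cases hodd hL hCL (p := p) hπs with h5 | h7
    · have hperf : commutator (Matrix.SpecialLinearGroup (Fin 2) F) = ⊤ := perfect_map hL hπs
      have hsimple : IsSimpleGroup (Matrix.ProjectiveSpecialLinearGroup (Fin 2) F) :=
        LieClassical.SLGen.psl_isSimpleGroup_of_perfect hperf
      have hπk : π.ker = Cfsg.oddCore L := by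
        ext x
        rw [MonoidHom.mem_ker, hπ, MonoidHom.comp_apply]
        change e ((QuotientGroup.mk' (Cfsg.oddCore L)) x) = 1 ↔ _
        rw [EmbeddingLike.map_eq_one_iff, QuotientGroup.mk'_apply, QuotientGroup.eq_one_iff]
      have hMco := Cfsg.Agent.Lib.Cores.pPrimeCore_coprime (G := L) 2
      have h2M : ¬ 2 ∣ Nat.card (Cfsg.oddCore L) := (Nat.Prime.coprime_iff_not_dvd Nat.prime_two).1 hMco.symm
      have hModd : Odd (Nat.card (Cfsg.oddCore L)) := by
        rw [← Nat.not_even_iff_odd, even_iff_two_dvd]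
        exact h2M
      have hKsol := solvable_ker (π := π) (by rw [hπk]; exact hFT _ hModd)
      have h8 := GroupD.index_le L hL hLs
        ((QuotientGroup.mk' (center (Matrix.SpecialLinearGroup (Fin 2) F))).comp π)
        ((QuotientGroup.mk'_surjective _).comp hπs) hKsol
      have h9 : Nat.card (MulAut (Matrix.ProjectiveSpecialLinearGroup (Fin 2) F)) = 120 :=
        GroupD.card_mulAut_psl_five h5
      rw [← h9] at h
      exact absurd h8 (not_le.2 h)
    · exact main_case hFT hL hCL hz2 hzc hodd e h7
  · exact GroupC.no_alt_seven hCL hf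

end Cfsg.Agent.H892.GroupG
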