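import Mathlib
import Cfsg.Agent.PermutationGroups.OnanScott
import Cfsg.Agent.H892.PrimB

/-!
# Involutions acting on a non-abelian minimal normal subgroup
-/

set_option autoImplicit false

namespace Cfsg.Agent.H892.PrimC

open Subgroup MulAction Cfsg.Agent.H892.PrimA Cfsg.Agent.H892.PrimB

universe u

/-- `|T| ≤ |C_T(α)| ^ 3` for involutory automorphisms of simple groups. -/
def CB : Prop := ∀ (X : Type u) [Group X] [Finite X] [IsSimpleGroup X], ¬ IsMulCommutative X →
  ∀ α : MulAut X, orderOf α = 2 → Nat.card X ≤ Nat.card {t : X // α t = t} ^ 3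

section
variable {G : Type u} [Group G]

theorem card_le_of_normalizes [Finite G] (hCB : CB.{u}) {X : Subgroup G} [IsSimpleGroup X] (hX : ∃ a b : X, a * b ≠ b * a)
    {h : G} (hh : h * h = 1) (hmap : X = X.map (MulAut.conj h).toMonoidHom) :
    Nat.card X ≤ Nat.card ↥(X ⊓ centralizer ({h} : Set G)) ^ 3 := by
  let α : MulAut X := ((MulAut.conj h).subgroupMap X).trans (MulEquiv.subgroupCongr hmap.symm)
  have hα : ∀ t : X, ((α t : X) : G) = h * t * h⁻¹ := fun t => rfl
  have hαα : α * α = 1 := by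
    ext t
    rw [MulAut.mul_apply, hα, hα, MulAut.one_apply]
    calc h * (h * (t : G) * h⁻¹) * h⁻¹ = (h * h) * t * (h * h)⁻¹ := by group
      _ = t := by rw [hh]; group
  have hmem : ∀ t : X, α t = t ↔ (t : G) ∈ centralizer ({h} : Set G) := by
    intro t
    rw [mem_centralizer_singleton_iff, ← Subtype.coe_inj, hα, mul_inv_eq_iff_eq_mul]
    exact eq_comm
  have hcard : Nat.card {t : X // α t = t} = Nat.card ↥(X ⊓ centralizer ({h} : Set G)) := by
    refine Nat.card_congr
      { toFun := fun t => ⟨((t : X) : G), (t : X).2, (hmem t).1 t.2⟩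
        invFun := fun g => ⟨⟨g, g.2.1⟩, (hmem _).2 g.2.2⟩
        left_inv := fun _ => rfl
        right_inv := fun _ => rfl }
  by_cases h1 : α = 1
  · have h2 : X ⊓ centralizer ({h} : Set G) = X := by
      rw [inf_eq_left]
      intro t ht
      exact (hmem ⟨t, ht⟩).1 (by rw [h1]; rfl)
    rw [h2]
    exact Nat.le_self_pow (by norm_num) _
  · rw [← hcard]
    apply hCB X
    · intro hc
      obtain ⟨a, b, hab⟩ := hX
      exact hab (hc.is_comm.comm a b)
    · exact orderOf_eq_prime (by rw [pow_two, hαα]) h1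

variable {m : ℕ} {N : Subgroup G} {T : Fin m → Subgroup G}

/-- the elements of `N` centralising `T i`, `i ∉ S` -/
def AA (N : Subgroup G) (T : Fin m → Subgroup G) (S : Finset (Fin m)) : Subgroup G where
  carrier := {g | g ∈ N ∧ ∀ i ∉ S, ∀ t ∈ T i, Commute g t}
  mul_mem' := fun ha hb => ⟨mul_mem ha.1 hb.1, fun i hi t ht => (ha.2 i hi t ht).mul_left (hb.2 i hi t ht)⟩
  one_mem' := ⟨one_mem _, fun _ _ _ _ => Commute.one_left _⟩
  inv_mem' := fun ha => ⟨inv_mem ha.1, fun i hi t ht => (ha.2 i hi t ht).inv_left⟩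

theorem mem_AA {S : Finset (Fin m)} {g : G} : g ∈ AA N T S ↔ g ∈ N ∧ ∀ i ∉ S, ∀ t ∈ T i, Commute g t := Iff.rfl

/-- Coordinates. -/
structure Coord (e : N ≃* (∀ i, T i)) : Prop where
  le : ∀ i, T i ≤ N
  single : ∀ i (t : T i), ((e.symm (Pi.mulSingle i t) : N) : G) = t
  coord : ∀ (n : N) i, e n i = 1 ↔ ∀ t ∈ T i, Commute (n : G) t

namespace Coord
variable {e : N ≃* (∀ i, T i)} (E : Coord e)
include E

theorem apply_mem {i : Fin m} {t : G} (ht : t ∈ T i) : e ⟨t, E.le i ht⟩ = Pi.mulSingle i ⟨t, ht⟩ := by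
  rw [← e.eq_symm_apply]
  exact Subtype.ext (E.single i ⟨t, ht⟩).symm

theorem commute {i j : Fin m} (hij : i ≠ j) {s t : G} (hs : s ∈ T i) (ht : t ∈ T j) : Commute s t := by
  refine (E.coord ⟨s, E.le i hs⟩ j).1 ?_ t ht
  rw [E.apply_mem hs, Pi.mulSingle_eq_of_ne hij.symm]

theorem eq_one {i : Fin m} {t : G} (ht : t ∈ T i) (hc : ∀ s ∈ T i, Commute t s) : t = 1 := by
  have h1 := (E.coord ⟨t, E.le i ht⟩ i).2 hc
  rw [E.apply_mem ht, Pi.mulSingle_eq_same] at h1
  exact congrArg Subtype.val h1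

theorem AA_empty : AA N T ∅ = ⊥ := by
  rw [eq_bot_iff]
  intro g hg
  have h1 : e ⟨g, hg.1⟩ = 1 := by
    funext i
    exact (E.coord ⟨g, hg.1⟩ i).2 (hg.2 i (Finset.notMem_empty i))
  rw [EmbeddingLike.map_eq_one_iff] at h1
  rw [mem_bot]
  exact congrArg Subtype.val h1

theorem card_AA_le [Finite G] {S : Finset (Fin m)} {i : Fin m} (hi : i ∈ S) :
    Nat.card (AA N T S) ≤ Nat.card (T i) * Nat.card (AA N T (S.erase i)) := by
  have key : ∀ g ∈ AA N T S, ∀ (hg : g ∈ N), g * ((e ⟨g, hg⟩ i : T i) : G)⁻¹ ∈ AA N T (S.erase i) := by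
    intro g hgS hg
    have hN := E.le i (e ⟨g, hg⟩ i).2
    refine ⟨mul_mem hg (inv_mem hN), fun j hj => ?_⟩
    rw [Finset.mem_erase, not_and_or, not_not] at hj
    by_cases hji : j = i
    · subst hji
      have h1 : e (⟨g, hg⟩ * ⟨((e ⟨g, hg⟩ j : T j) : G), hN⟩⁻¹) j = 1 := by
        rw [map_mul, Pi.mul_apply, map_inv, E.apply_mem (e ⟨g, hg⟩ j).2, Pi.inv_apply, Pi.mulSingle_eq_same]
        exact mul_inv_cancel _
      exact (E.coord _ j).1 h1
    · intro t ht
      have hj' : j ∉ S := hj.resolve_left hji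
      exact (hgS.2 j hj' t ht).mul_left (E.commute (Ne.symm hji) (e ⟨g, hg⟩ i).2 ht).inv_left
  rw [← Nat.card_prod]
  refine Nat.card_le_card_of_injective (fun g : AA N T S => (e ⟨(g : G), g.2.1⟩ i, ⟨_, key g g.2 g.2.1⟩)) ?_
  intro a b hab
  rw [Prod.mk.injEq] at hab
  have h1 := congrArg (fun z : AA N T (S.erase i) => (z : G)) hab.2
  simp only at h1
  rw [hab.1] at h1
  exact Subtype.ext (mul_right_cancel h1)

theorem card_fixed [Finite G] {h : G} {S : Finset (Fin m)} {i : Fin m} (hi : i ∈ S) :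
    Nat.card ↥(T i ⊓ centralizer ({h} : Set G)) * Nat.card ↥(AA N T (S.erase i) ⊓ centralizer ({h} : Set G)) ≤
      Nat.card ↥(AA N T S ⊓ centralizer ({h} : Set G)) := by
  have key : ∀ t ∈ T i ⊓ centralizer ({h} : Set G), ∀ a ∈ AA N T (S.erase i) ⊓ centralizer ({h} : Set G),
      t * a ∈ AA N T S ⊓ centralizer ({h} : Set G) := by
    intro t ht a ha
    refine ⟨⟨mul_mem (E.le i ht.1) ha.1.1, fun j hj s hs => ?_⟩, mul_mem ht.2 ha.2⟩
    have hji : i ≠ j := by
      rintro rfl
      exact hj hi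
    exact (E.commute hji ht.1 hs).mul_left (ha.1.2 j (fun h => hj (Finset.mem_of_mem_erase h)) s hs)
  rw [← Nat.card_prod]
  refine Nat.card_le_card_of_injective (fun p => ⟨(p.1 : G) * p.2, key _ p.1.2 _ p.2.2⟩) ?_
  rintro ⟨⟨t, ht⟩, ⟨a, ha⟩⟩ ⟨⟨t', ht'⟩, ⟨a', ha'⟩⟩ hab
  have h1 : t * a = t' * a' := congrArg (fun z : ↥(AA N T S ⊓ centralizer ({h} : Set G)) => (z : G)) hab
  have h2 : t'⁻¹ * t = 1 := by
    apply E.eq_one (mul_mem (inv_mem ht'.1) ht.1)
    intro s hs
    have h3 : t'⁻¹ * t = a' * a⁻¹ := by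
      rw [inv_mul_eq_iff_eq_mul, ← mul_assoc, ← h1, mul_inv_cancel_right]
    rw [h3]
    exact (ha'.1.2 i (Finset.notMem_erase i S) s hs).mul_left (ha.1.2 i (Finset.notMem_erase i S) s hs).inv_left
  have h3 : t = t' := by
    rw [inv_mul_eq_one] at h2
    exact h2.symm
  subst h3
  have h4 : a = a' := mul_left_cancel h1
  subst h4
  rfl

theorem card_swap [Finite G] {h : G} (hh : h * h = 1) {S : Finset (Fin m)} {i j : Fin m} (hij : i ≠ j) (hi : i ∈ S)
    (hj : j ∈ S) (hmap : T j = (T i).map (MulAut.conj h).toMonoidHom) :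
    Nat.card (T i) * Nat.card ↥(AA N T ((S.erase i).erase j) ⊓ centralizer ({h} : Set G)) ≤
      Nat.card ↥(AA N T S ⊓ centralizer ({h} : Set G)) := by
  have hhi : h⁻¹ = h := inv_eq_of_mul_eq_one_left hh
  have hconj : ∀ t ∈ T i, h * t * h⁻¹ ∈ T j := by
    intro t ht
    rw [hmap]
    exact ⟨t, ht, rfl⟩
  have key : ∀ t ∈ T i, ∀ a ∈ AA N T ((S.erase i).erase j) ⊓ centralizer ({h} : Set G),
      t * (h * t * h⁻¹) * a ∈ AA N T S ⊓ centralizer ({h} : Set G) := by
    intro t ht a ha
    refine ⟨⟨mul_mem (mul_mem (E.le i ht) (E.le j (hconj t ht))) ha.1.1, fun l hl s hs => ?_⟩, mul_mem ?_ ha.2⟩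
    · have hli : i ≠ l := by
        rintro rfl
        exact hl hi
      have hlj : j ≠ l := by
        rintro rfl
        exact hl hj
      exact ((E.commute hli ht hs).mul_left (E.commute hlj (hconj t ht) hs)).mul_left
        (ha.1.2 l (fun h => hl (Finset.mem_of_mem_erase (Finset.mem_of_mem_erase h))) s hs)
    · change t * (h * t * h⁻¹) ∈ centralizer ({h} : Set G)
      rw [mem_centralizer_singleton_iff]
      have h1 := (E.commute hij ht (hconj t ht)).eq
      rw [h1, hhi]
      calc h * t * h * t * h = h * (t * (h * t * h)) := by group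
        _ = h * ((h * t * h) * t) := by
            have := h1
            rw [hhi] at this
            rw [this]
        _ = h * (h * t * h * t) := rfl
  rw [← Nat.card_prod]
  refine Nat.card_le_card_of_injective (fun p => ⟨(p.1 : G) * (h * p.1 * h⁻¹) * p.2, key _ p.1.2 _ p.2.2⟩) ?_
  rintro ⟨⟨t, ht⟩, ⟨a, ha⟩⟩ ⟨⟨t', ht'⟩, ⟨a', ha'⟩⟩ hab
  have h1 : t * (h * t * h⁻¹) * a = t' * (h * t' * h⁻¹) * a' :=
    congrArg (fun z : ↥(AA N T S ⊓ centralizer ({h} : Set G)) => (z : G)) hab
  have hia : ∀ a ∈ AA N T ((S.erase i).erase j), ∀ s ∈ T i, Commute a s := by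
    intro a ha s hs
    exact ha.2 i (fun h => Finset.notMem_erase i S (Finset.mem_of_mem_erase h)) s hs
  have h2 : t'⁻¹ * t = 1 := by
    apply E.eq_one (mul_mem (inv_mem ht') ht)
    intro s hs
    have h3 : t'⁻¹ * t = (h * t' * h⁻¹) * a' * a⁻¹ * (h * t * h⁻¹)⁻¹ := by
      calc t'⁻¹ * t = t'⁻¹ * (t * (h * t * h⁻¹) * a) * a⁻¹ * (h * t * h⁻¹)⁻¹ := by group
        _ = t'⁻¹ * (t' * (h * t' * h⁻¹) * a') * a⁻¹ * (h * t * h⁻¹)⁻¹ := by rw [h1]
        _ = _ := by group
    rw [h3]
    have c1 := (E.commute hij.symm (hconj t' ht') hs)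
    have c2 := (E.commute hij.symm (hconj t ht) hs).inv_left
    have c3 := hia a' ha'.1 s hs
    have c4 := (hia a ha.1 s hs).inv_left
    exact ((c1.mul_left c3).mul_left c4).mul_left c2
  have h3 : t = t' := by
    rw [inv_mul_eq_one] at h2
    exact h2.symm
  subst h3
  have h4 : a = a' := mul_left_cancel h1
  subst h4
  rfl

theorem main [Finite G] (hCB : CB.{u}) (hsimple : ∀ i, IsSimpleGroup (T i)) (hna : ∀ i, ∃ a b : T i, a * b ≠ b * a)
    (hinj : Function.Injective T) (hconj : ∀ (g : G) i, ∃ j, T j = (T i).map (MulAut.conj g).toMonoidHom)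
    {h : G} (hh : h * h = 1) : Nat.card N ≤ Nat.card ↥(N ⊓ centralizer ({h} : Set G)) ^ 3 := by
  classical
  choose σ hσ using hconj h
  have hσσ : ∀ i, σ (σ i) = i := by
    intro i
    apply hinj
    rw [hσ, hσ, map_map]
    have : (MulAut.conj h).toMonoidHom.comp (MulAut.conj h).toMonoidHom = MonoidHom.id G := by
      ext x
      change h * (h * x * h⁻¹) * h⁻¹ = x
      calc h * (h * x * h⁻¹) * h⁻¹ = (h * h) * x * (h * h)⁻¹ := by group
        _ = x := by rw [hh]; group
    rw [this, map_id]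
  have key : ∀ (n : ℕ) (S : Finset (Fin m)), S.card = n → (∀ i ∈ S, σ i ∈ S) →
      Nat.card (AA N T S) ≤ Nat.card ↥(AA N T S ⊓ centralizer ({h} : Set G)) ^ 3 := by
    intro n
    induction n using Nat.strong_induction_on with
    | _ n ih =>
      intro S hSn hSσ
      rcases S.eq_empty_or_nonempty with h0 | ⟨i, hi⟩
      · subst h0
        rw [E.AA_empty, Subgroup.card_bot]
        exact Nat.pow_pos Nat.card_pos
      · by_cases hσi : σ i = i
        · have h1 := E.card_AA_le hi
          have h2 := E.card_fixed (h := h) hi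
          have hinv : ∀ l ∈ S.erase i, σ l ∈ S.erase i := by
            intro l hl
            rw [Finset.mem_erase] at hl ⊢
            refine ⟨?_, hSσ l hl.2⟩
            intro h3
            apply hl.1
            rw [← hσσ l, h3, hσi]
          have h3 := ih _ (by rw [← hSn]; exact Finset.card_erase_lt_of_mem hi) (S.erase i) rfl hinv
          have := hsimple i
          have h4 := card_le_of_normalizes hCB (hna i) hh (by
            have h5 := hσ i
            rwa [hσi] at h5)
          calc Nat.card (AA N T S) ≤ Nat.card (T i) * Nat.card (AA N T (S.erase i)) := h1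
            _ ≤ Nat.card ↥(T i ⊓ centralizer ({h} : Set G)) ^ 3 *
                Nat.card ↥(AA N T (S.erase i) ⊓ centralizer ({h} : Set G)) ^ 3 := Nat.mul_le_mul h4 h3
            _ = (Nat.card ↥(T i ⊓ centralizer ({h} : Set G)) *
                Nat.card ↥(AA N T (S.erase i) ⊓ centralizer ({h} : Set G))) ^ 3 := (mul_pow _ _ _).symm
            _ ≤ _ := Nat.pow_le_pow_left h2 3
        · have hj : σ i ∈ S := hSσ i hi
          have hj' : σ i ∈ S.erase i := Finset.mem_erase.2 ⟨hσi, hj⟩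
          have h1 := E.card_AA_le hi
          have h1' := E.card_AA_le hj'
          have h2 := E.card_swap hh (Ne.symm hσi) hi hj (hσ i)
          have hinv : ∀ l ∈ (S.erase i).erase (σ i), σ l ∈ (S.erase i).erase (σ i) := by
            intro l hl
            rw [Finset.mem_erase, Finset.mem_erase] at hl ⊢
            refine ⟨?_, ?_, hSσ l hl.2.2⟩
            · intro h3
              apply hl.2.1
              rw [← hσσ l, h3, hσσ i]
            · intro h3
              apply hl.1
              rw [← hσσ l, h3]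
          have h3 := ih _ (by
            rw [← hSn]
            exact (Finset.card_erase_lt_of_mem hj').trans (Finset.card_erase_lt_of_mem hi)) ((S.erase i).erase (σ i)) rfl hinv
          have h4 : Nat.card (T (σ i)) = Nat.card (T i) := by
            rw [hσ i]
            exact Nat.card_congr ((MulAut.conj h).subgroupMap (T i)).symm.toEquiv
          have h5 : 0 < Nat.card (T i) := Nat.card_pos
          calc Nat.card (AA N T S) ≤ Nat.card (T i) * Nat.card (AA N T (S.erase i)) := h1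
            _ ≤ Nat.card (T i) * (Nat.card (T i) * Nat.card (AA N T ((S.erase i).erase (σ i)))) := by
                rw [h4] at h1'
                exact Nat.mul_le_mul_left _ h1'
            _ ≤ Nat.card (T i) ^ 3 *
                Nat.card ↥(AA N T ((S.erase i).erase (σ i)) ⊓ centralizer ({h} : Set G)) ^ 3 := by
                rw [← mul_assoc]
                apply Nat.mul_le_mul _ h3
                calc Nat.card (T i) * Nat.card (T i) = Nat.card (T i) ^ 2 := by ring
                  _ ≤ Nat.card (T i) ^ 3 := Nat.pow_le_pow_right h5 (by norm_num)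
            _ = (Nat.card (T i) * Nat.card ↥(AA N T ((S.erase i).erase (σ i)) ⊓ centralizer ({h} : Set G))) ^ 3 :=
                (mul_pow _ _ _).symm
            _ ≤ _ := Nat.pow_le_pow_left h2 3
  have h1 := key _ Finset.univ rfl (fun i _ => Finset.mem_univ _)
  have h2 : AA N T Finset.univ = N := by
    ext g
    rw [mem_AA]
    exact ⟨fun h => h.1, fun h => ⟨h, fun i hi => absurd (Finset.mem_univ i) hi⟩⟩
  rwa [h2] at h1

end Coord

end

/-- **The regular case.** -/
theorem regular {G : Type u} [Group G] [Finite G] (hCB : CB.{u}) {Ω : Type*} [MulAction G Ω] [Finite Ω]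
    (N : Subgroup G) [N.Normal] (hmin : ∀ M : Subgroup G, M.Normal → M ≤ N → M = ⊥ ∨ M = N)
    (hna : ¬ ∀ x ∈ N, ∀ y ∈ N, Commute x y) (htr : IsPretransitive N Ω) (ω : Ω)
    (hreg : N ⊓ stabilizer G ω = ⊥) {h : G} (hh : orderOf h = 2) (hω : h ∈ stabilizer G ω) :
    ∃ g : G, g ≠ 1 ∧ Nat.card Ω ≤ Nat.card (fixedBy Ω g) ^ 3 := by
  obtain ⟨m, T, e, hm, hsimple, hTna, hTinj, hTN, hTn, hconj, htrans, he, hcoord⟩ :=
    PermutationGroups.OnanScott.exists_coordinates N hmin hna
  have hh2 : h * h = 1 := by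
    have := pow_orderOf_eq_one h
    rwa [hh, pow_two] at this
  have h1 := Coord.main (e := e) ⟨hTN, he, hcoord⟩ hCB hsimple hTna hTinj hconj hh2
  have h2 := card_le_fixed (mem_stabilizer_iff.1 hω) (N ⊓ centralizer ({h} : Set G)) (fun g hg =>
    (mem_centralizer_singleton_iff.1 hg.2).symm)
  have h3 : (N ⊓ centralizer ({h} : Set G)) ⊓ stabilizer G ω = ⊥ := by
    rw [eq_bot_iff, ← hreg]
    exact inf_le_inf_right _ inf_le_left
  rw [h3, Subgroup.card_bot, mul_one] at h2
  have h4 := card_transitive htr ω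
  rw [hreg, Subgroup.card_bot, mul_one] at h4
  refine ⟨h, ?_, ?_⟩
  · rintro rfl
    rw [orderOf_one] at hh
    norm_num at hh
  · rw [h4]
    exact h1.trans (Nat.pow_le_pow_left h2 3)

end Cfsg.Agent.H892.PrimC
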